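import Cfsg.Agent.RealChar.OverDefectZero
import Cfsg.Agent.Char.Linear
import Cfsg.Agent.Char.Kernel
import Cfsg.Agent.PGroup.Basic

/-!
# Real characters of `p'`-degree and normal subgroups inside `P'`
-/

set_option autoImplicit false
set_option linter.style.haveILetI false
set_option linter.unusedSectionVars false

open scoped ComplexConjugate
open Cfsg Cfsg.Agent.Char

namespace Cfsg.Agent.RealDeg

universe u

/-- The real characters of `G` have degree prime to `p`. -/
def Hyp (p : ℕ) (G : Type u) [Group G] : Prop :=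
  ∀ χ : IrrCharacter G, (∀ g : G, ((χ : G → ℂ) g).im = 0) → ¬ p ∣ charDegree (χ : G → ℂ)

variable {G : Type u} [Group G] [Finite G] {p : ℕ} [hp : Fact p.Prime]

theorem hyp_quotient (h : Hyp p G) (N : Subgroup G) [N.Normal] : Hyp p (G ⧸ N) := by
  intro χ hχ
  have h1 := h (irrEquivQuotient N χ : IrrCharacter G) (fun g => hχ _)
  rwa [charDegree, irrEquivQuotient_apply, QuotientGroup.mk_one] at h1

/-- If an element acts non-trivially on an abelian normal subgroup and its square trivially, it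
inverts a non-trivial linear character. -/
theorem exists_inverted_hom (N : Subgroup G) [hN : N.Normal] (hab : ∀ a b : N, a * b = b * a)
    (g : G) (hg : ∃ n ∈ N, g * n * g⁻¹ ≠ n) (hg2 : ∀ n ∈ N, g * g * n * (g * g)⁻¹ = n) :
    ∃ f : N →* ℂˣ, f ≠ 1 ∧
      ∀ n n' : N, (n' : G) = g * n * g⁻¹ → (f n' : ℂ) = conj (f n : ℂ) := by
  classical
  haveI : Finite (N →* ℂˣ) := monoidHom_complex_finite
  obtain ⟨n₀, hn₀, hne⟩ := hg
  set a : MulAut N := MulAut.conjNormal g
  have hval : ∀ n : N, (a n : G) = g * n * g⁻¹ := fun n => MulAut.conjNormal_apply g n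
  have ha2 : ∀ n, a (a n) = n := fun n => Subtype.ext (by
    rw [hval, hval]
    calc g * (g * n * g⁻¹) * g⁻¹ = g * g * n * (g * g)⁻¹ := by group
      _ = n := hg2 n n.2)
  obtain ⟨μ, hμ⟩ : ∃ μ : N →* ℂˣ, μ (a ⟨n₀, hn₀⟩) ≠ μ ⟨n₀, hn₀⟩ := by
    by_contra! hcon
    apply hne
    have h1 : a ⟨n₀, hn₀⟩ * (⟨n₀, hn₀⟩ : N)⁻¹ = 1 := by
      by_contra h1
      obtain ⟨χ, hχ⟩ := exists_irr_ne_degree h1
      obtain ⟨f, hf⟩ := irr_exists_monoidHom_of_comm hab χ.2
      apply hχ
      rw [hf, hf, map_mul, map_inv, hcon f, mul_inv_cancel, map_one]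
    rw [← hval ⟨n₀, hn₀⟩, mul_inv_eq_one.mp h1]
  refine ⟨μ / μ.comp a.toMonoidHom, fun h => hμ ?_, fun n n' hn' => ?_⟩
  · have h1 := DFunLike.congr_fun h ⟨n₀, hn₀⟩
    rw [MonoidHom.div_apply, MonoidHom.one_apply, div_eq_one] at h1
    exact h1.symm
  · obtain rfl : n' = a n := Subtype.ext (by rw [hval, hn'])
    set f := μ / μ.comp a.toMonoidHom with hf
    have hinv : f (a n) = (f n)⁻¹ := by
      show μ (a n) / μ (a (a n)) = (μ n / μ (a n))⁻¹
      rw [ha2, inv_div]
    rw [hinv, Units.val_inv_eq_inv_val, Complex.inv_eq_conj]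
    refine Complex.norm_eq_one_of_pow_eq_one (n := orderOf n) ?_ (orderOf_pos n).ne'
    rw [← Units.val_pow_eq_pow_val, ← map_pow, pow_orderOf_eq_one, map_one, Units.val_one]

/-- A character of `p'`-degree has a linear constituent on a `p`-subgroup. -/
theorem classInner_one_ne_zero_of_le_commutator [Fintype G] (χ : IrrCharacter G)
    (hχ : ¬ p ∣ charDegree (χ : G → ℂ)) (P : Subgroup G) (hP : IsPGroup p P) (N : Subgroup G)
    [Fintype N] (hNP : N ≤ ⁅P, P⁆) :
    classInner (fun n : N => (χ : G → ℂ) n) (fun _ => (1 : ℂ)) ≠ 0 := by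
  classical
  letI := Fintype.ofFinite P
  have hNle : N ≤ P := hNP.trans (Subgroup.commutator_le_self P)
  have hres := CharInd.isCharacter_res P (isCharacter_of_irr χ.2)
  choose a ha using fun ψ : IrrCharacter P => isCharacter_classInner_nat hres ψ
  choose b hb using fun ψ : IrrCharacter P =>
    isCharacter_classInner_nat (isCharacter_comp (isCharacter_of_irr ψ.2) (Subgroup.inclusion hNle))
      ⟨fun _ : N => (1 : ℂ), isIrrCharacter_const_one⟩
  have hexp : ∀ x : P, (χ : G → ℂ) x = ∑ ψ : IrrCharacter P, (a ψ : ℂ) * (ψ : P → ℂ) x := by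
    intro x
    have h := congrFun (eq_sum_classInner_smul (isCharacter_isClassFunction hres)) x
    rw [Finset.sum_apply] at h
    exact h.trans (Finset.sum_congr rfl fun ψ _ => by rw [Pi.smul_apply, smul_eq_mul, ha ψ])
  have hsum : classInner (fun n : N => (χ : G → ℂ) n) (fun _ => (1 : ℂ)) =
      ((∑ ψ : IrrCharacter P, a ψ * b ψ : ℕ) : ℂ) := by
    push_cast
    simp only [← hb, classInner, map_one, mul_one]
    have hexpN : ∀ n : N, (χ : G → ℂ) n = ∑ ψ : IrrCharacter P,
        (a ψ : ℂ) * (ψ : P → ℂ) (Subgroup.inclusion hNle n) := fun n =>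
      hexp (Subgroup.inclusion hNle n)
    simp only [hexpN, Function.comp_apply]
    rw [Finset.sum_comm, Finset.mul_sum]
    refine Finset.sum_congr rfl fun ψ _ => ?_
    rw [← Finset.mul_sum]
    show _ = (a ψ : ℂ) * ((Nat.card N : ℂ)⁻¹ *
      ∑ n : N, (ψ : P → ℂ) (Subgroup.inclusion hNle n))
    ring
  choose d _ hd hdvd using fun ψ : IrrCharacter P => irr_degree_dvd_card ψ.2
  obtain ⟨c, -, hc, -⟩ := irr_degree_dvd_card χ.2
  have hcd : c = ∑ ψ : IrrCharacter P, a ψ * d ψ := by
    have h := hexp 1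
    rw [OneMemClass.coe_one, hc] at h
    simp only [hd] at h
    exact_mod_cast h
  obtain ⟨ψ₀, hψ₀⟩ : ∃ ψ₀ : IrrCharacter P, ¬ p ∣ a ψ₀ * d ψ₀ := by
    by_contra! hall
    apply hχ
    rw [charDegree, hc, Complex.natCast_re, Nat.floor_natCast, hcd]
    exact Finset.dvd_sum fun ψ _ => hall ψ
  have hlin : d ψ₀ = 1 := by
    obtain ⟨k, hk⟩ := IsPGroup.iff_card.mp hP
    obtain ⟨i, -, hi⟩ := (Nat.dvd_prime_pow hp.out).mp (hk ▸ hdvd ψ₀)
    rcases Nat.eq_zero_or_pos i with rfl | hi0
    · simpa using hi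
    · exact absurd (dvd_mul_of_dvd_right (hi ▸ dvd_pow_self p hi0.ne') _) hψ₀
  have h1 : (ψ₀ : P → ℂ) 1 = 1 := by rw [hd, hlin, Nat.cast_one]
  have hb0 : b ψ₀ = 1 := by
    apply Nat.cast_injective (R := ℂ)
    rw [← hb, Nat.cast_one, classInner]
    simp only [map_one, mul_one, Function.comp_apply]
    rw [Finset.sum_congr rfl fun (n : N) _ => (show (ψ₀ : P → ℂ) (Subgroup.inclusion hNle n) = 1 by
      refine linear_eq_one_of_mem_commutator (isCharacter_of_irr ψ₀.2) h1 ?_
      have h3 : ⁅P, P⁆ = (_root_.commutator P).map P.subtype := by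
        rw [_root_.commutator, Subgroup.map_commutator, ← MonoidHom.range_eq_map,
          Subgroup.range_subtype]
      obtain ⟨c, hc, hce⟩ := h3 ▸ hNP n.2
      exact (Subtype.ext hce : c = Subgroup.inclusion hNle n) ▸ hc), Finset.sum_const,
      Finset.card_univ, ← Nat.card_eq_fintype_card, nsmul_eq_mul, mul_one,
      inv_mul_cancel₀ (Nat.cast_ne_zero.mpr Nat.card_pos.ne')]
  rw [hsum, Nat.cast_ne_zero]
  intro h0
  have h2 := (Finset.sum_eq_zero_iff.mp h0) ψ₀ (Finset.mem_univ _)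
  rw [hb0, mul_one] at h2
  exact hψ₀ (by rw [h2, zero_mul]; exact dvd_zero p)

/-- No `2`-element moves an element of an abelian normal subgroup inside `P'`. -/
theorem commute_of_le_commutator (hp2 : p ≠ 2) (h : Hyp p G) (P : Subgroup G) (hP : IsPGroup p P)
    (N : Subgroup G) [hN : N.Normal] (hab : ∀ a b : N, a * b = b * a) (hNP : N ≤ ⁅P, P⁆)
    {g : G} (hg : ∃ k, orderOf g = 2 ^ k) : ∀ n ∈ N, g * n * g⁻¹ = n := by
  classical
  letI := Fintype.ofFinite G
  letI := Fintype.ofFinite N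
  obtain ⟨k, hk⟩ := hg
  revert g
  induction k with
  | zero =>
    intro g hg n _
    rw [pow_zero, orderOf_eq_one_iff] at hg
    subst hg
    group
  | succ k ih =>
    intro g hg
    have hsq : ∀ n ∈ N, g * g * n * (g * g)⁻¹ = n := ih (g := g * g) (by
      rw [← pow_two, orderOf_pow' _ two_ne_zero, hg,
        Nat.gcd_eq_right (dvd_pow_self 2 (Nat.succ_ne_zero k)), pow_succ,
        Nat.mul_div_cancel _ two_pos])
    by_contra! hmov
    obtain ⟨f, hf1, hf⟩ := exists_inverted_hom N hab g hmov hsq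
    let lam : IrrCharacter N := ⟨_, isIrrCharacter_monoidHom f⟩
    have hodd : ¬ 2 ∣ Nat.card N := by
      obtain ⟨j, hj⟩ :=
        IsPGroup.iff_card.mp (hP.to_le (hNP.trans (Subgroup.commutator_le_self P)))
      rw [hj]
      exact fun h2 => hp2 ((Nat.prime_dvd_prime_iff_eq Nat.prime_two hp.out).mp
        (Nat.prime_two.dvd_of_dvd_pow h2)).symm
    obtain ⟨χ, -, hreal, hover⟩ := RealChar.exists_real_over_defect_zero N lam
      (by rw [Nat.factorization_eq_zero_of_not_dvd hodd, pow_zero]; exact one_dvd _) ⟨g, hf⟩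
    have h1 := classInner_one_ne_zero_of_le_commutator χ
      (h χ fun x => Complex.conj_eq_iff_im.mp (hreal x)) P hP N hNP
    apply h1
    rw [CharInd.clifford N χ.2 lam.2 hover, classInner_smul_left, classInner_sum_left,
      Finset.sum_eq_zero (fun ψ hψ => ?_), mul_zero]
    obtain ⟨y, rfl⟩ := (CharInd.mem_conjClass N).mp hψ
    let f' : N →* ℂˣ := f.comp (MulAut.conjNormal (H := N) y).toMonoidHom
    have hf' : f' ≠ 1 := fun h0 => hf1 (MonoidHom.ext fun n => by
      have := DFunLike.congr_fun h0 ((MulAut.conjNormal (H := N) y).symm n)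
      simpa [f'] using this)
    have he : CharInd.conjChar N y (lam : N → ℂ) = fun n => (f' n : ℂ) := by
      funext n
      rw [CharInd.conjChar_apply]
      exact congrArg (fun t => (f t : ℂ)) (Subtype.ext (by simp))
    rw [he]
    exact classInner_irr_ne (isIrrCharacter_monoidHom f') isIrrCharacter_const_one fun e0 =>
      hf' (MonoidHom.ext fun n => Units.ext (congrFun e0 n))

end Cfsg.Agent.RealDeg
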