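import Cfsg.Agent.RealDeg.OddDegree
import Cfsg.Agent.Lib.MinimalNormal

/-!
# Induction from the stabiliser and real extensions, in odd degree
-/

set_option autoImplicit false
set_option linter.style.haveILetI false
set_option linter.unusedSectionVars false

open scoped ComplexConjugate Pointwise
open Cfsg Cfsg.Agent.Char

namespace Cfsg.Agent.RealDeg.OddDeg

universe u

variable {G : Type u} [Group G] [Finite G] (M : Subgroup G) [hM : M.Normal]

theorem conjHom_mul (x y : G) (lam : M →* ℂˣ) :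
    conjHom M (x * y) lam = conjHom M y (conjHom M x lam) := by
  refine MonoidHom.ext fun m => ?_
  rw [conjHom_apply, conjHom_apply, conjHom_apply]
  exact congrArg lam (Subtype.ext (by simp only; group))

theorem mem_stabHom_iff {lam : M →* ℂˣ} {g : G} :
    g ∈ stabHom M lam ↔ conjHom M g lam = lam := by
  rw [mem_stabHom]
  exact ⟨fun h => MonoidHom.ext fun m => (conjHom_apply M g lam m).trans (h m),
    fun h m => (conjHom_apply M g lam m).symm.trans (DFunLike.congr_fun h m)⟩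

/-- Fixed constituents are conjugate under the normaliser of a Sylow subgroup. -/
theorem exists_normalizer_conj {p : ℕ} [Fact p.Prime] (P : Sylow p G) {lam lam' : M →* ℂˣ}
    (h : (P : Subgroup G) ≤ stabHom M lam) (h' : (P : Subgroup G) ≤ stabHom M lam') {x : G}
    (hx : conjHom M x lam = lam') :
    ∃ n ∈ Subgroup.normalizer ((P : Subgroup G) : Set G), conjHom M n lam = lam' := by
  set T := stabHom M lam with hT
  have hle : ((x • P : Sylow p G) : Subgroup G) ≤ T := by
    rintro - ⟨y, hy, rfl⟩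
    exact (mem_stabHom_conjHom M).1 (hx ▸ h' hy)
  obtain ⟨t, ht⟩ := MulAction.exists_smul_eq T ((x • P).subtype hle) (P.subtype h)
  simp_rw [Sylow.smul_subtype, Subgroup.smul_def, smul_smul] at ht
  have h1 : (t : G) * x ∈ Subgroup.normalizer ((P : Subgroup G) : Set G) :=
    Sylow.smul_eq_iff_mem_normalizer.1 (Sylow.subtype_injective ht)
  exact ⟨_, h1, by rw [conjHom_mul, (mem_stabHom_iff M).1 t.2, hx]⟩

theorem over_val_inv {lam : M →* ℂˣ} (hinv : stabHom M lam = ⊤) {χ : G → ℂ}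
    (hχ : IsIrrCharacter G χ) (h : Over M lam χ) (m : M) : χ m = χ 1 * (lam m : ℂ) := by
  classical
  letI := Fintype.ofFinite G
  letI := Fintype.ofFinite M
  obtain ⟨e, -, hv⟩ := clifford_val M hχ h
  have hC : CharInd.conjClass M (val lam) = {val lam} := by
    refine Finset.eq_singleton_iff_unique_mem.2
      ⟨(CharInd.mem_conjClass M).2 ⟨1, (CharInd.conjChar_one M _).symm⟩, fun ψ hψ => ?_⟩
    obtain ⟨x, rfl⟩ := (CharInd.mem_conjClass M).1 hψ
    have hx : x ∈ stabHom M lam := hinv ▸ Subgroup.mem_top x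
    exact (CharInd.mem_conjStab M).1 hx
  rw [hC] at hv
  simp only [Finset.sum_singleton] at hv
  have h1 := hv 1
  rw [OneMemClass.coe_one] at h1
  rw [hv m, h1]
  simp [val]

theorem over_of_val {lam : M →* ℂˣ} {χ : G → ℂ} (h1 : χ 1 ≠ 0)
    (h : ∀ m : M, χ m = χ 1 * (lam m : ℂ)) : Over M lam χ := by
  classical
  letI := Fintype.ofFinite M
  rw [over_iff]
  rw [show (fun m : M => χ m) = χ 1 • val lam from funext fun m => h m,
    Char.classInner_smul_left, classInner_irr_self (val_irr lam), mul_one]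
  exact h1

theorem irr_one_ne_zero' {χ : G → ℂ} (hχ : IsIrrCharacter G χ) : χ 1 ≠ 0 := by
  obtain ⟨n, hn, hn'⟩ := irr_one_pos hχ
  rw [hn']; exact Nat.cast_ne_zero.2 hn.ne'

theorem conj_val_of_sq {lam : M →* ℂˣ} (h2 : lam * lam = 1) (m : M) :
    conj ((lam m : ℂˣ) : ℂ) = (lam m : ℂ) := by
  have h1 := congrArg Units.val (DFunLike.congr_fun h2 m)
  simp only [MonoidHom.mul_apply, MonoidHom.one_apply, Units.val_mul, Units.val_one] at h1
  rcases mul_self_eq_one_iff.1 h1 with e | e <;> rw [e] <;> simp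

section Induction

variable (lam : M →* ℂˣ)

/-- `lam` on `M` seen inside its stabiliser. -/
noncomputable def lamT : M.subgroupOf (stabHom M lam) →* ℂˣ :=
  lam.comp (Subgroup.subgroupOfEquivOfLe (le_stabHom M lam)).toMonoidHom

theorem lamT_apply (m : M) :
    lamT M lam ⟨⟨m, le_stabHom M lam m.2⟩, m.2⟩ = lam m := rfl

theorem stabHom_lamT : stabHom (M.subgroupOf (stabHom M lam)) (lamT M lam) = ⊤ := by
  rw [eq_top_iff]
  intro t _
  rw [mem_stabHom]
  intro m
  exact (mem_stabHom M).1 t.2 ⟨((m : stabHom M lam) : G), m.2⟩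

theorem stab_val {ψ : stabHom M lam → ℂ} (hψ : IsIrrCharacter (stabHom M lam) ψ)
    (h : Over (M.subgroupOf (stabHom M lam)) (lamT M lam) ψ) (m : M) :
    ψ ⟨m, le_stabHom M lam m.2⟩ = ψ 1 * (lam m : ℂ) :=
  over_val_inv _ (stabHom_lamT M lam) hψ h ⟨⟨m, le_stabHom M lam m.2⟩, m.2⟩

variable [Fintype G]

theorem classInner_ind [Fintype (stabHom M lam)] {ψ ψ' : stabHom M lam → ℂ}
    (hψ : IsIrrCharacter (stabHom M lam) ψ)
    (h : Over (M.subgroupOf (stabHom M lam)) (lamT M lam) ψ)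
    (hψ' : IsIrrCharacter (stabHom M lam) ψ')
    (h' : Over (M.subgroupOf (stabHom M lam)) (lamT M lam) ψ') :
    classInner (indFun (stabHom M lam) ψ) (indFun (stabHom M lam) ψ') = classInner ψ ψ' := by
  letI := Fintype.ofFinite M
  refine RealChar.classInner_indFun_inertia M (stabHom M lam) (le_stabHom M lam)
    ⟨val lam, val_irr lam⟩ (fun g hg => (mem_stabHom M).2 fun m => Units.ext (hg m _ rfl))
    (isCharacter_of_irr hψ) (isCharacter_of_irr hψ') (ψ 1) (ψ' 1) (fun m => stab_val M lam hψ h m)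
    fun m => stab_val M lam hψ' h' m

theorem ind_irr_over {ψ : stabHom M lam → ℂ} (hψ : IsIrrCharacter (stabHom M lam) ψ)
    (h : Over (M.subgroupOf (stabHom M lam)) (lamT M lam) ψ) :
    IsIrrCharacter G (indFun (stabHom M lam) ψ) ∧ Over M lam (indFun (stabHom M lam) ψ) := by
  classical
  letI := Fintype.ofFinite (stabHom M lam)
  letI := Fintype.ofFinite M
  refine ⟨isIrrCharacter_iff_classInner.2 ⟨CharInd.isCharacter_indFun _ (isCharacter_of_irr hψ), by
    rw [classInner_ind M lam hψ h hψ h, classInner_irr_self hψ]⟩, ?_⟩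
  rw [Over, finsum_eq_sum_of_fintype]
  have key : ∀ x : G, ∑ m : M,
      extendByZero (stabHom M lam) ψ (x⁻¹ * m * x) * conj (lam m : ℂ) =
        if x⁻¹ ∈ stabHom M lam then ψ 1 * (Nat.card M : ℂ) else 0 := by
    intro x
    have hval : ∀ m : M, extendByZero (stabHom M lam) ψ (x⁻¹ * m * x) =
        ψ 1 * val (conjHom M x⁻¹ lam) m := fun m => by
      have hm : x⁻¹ * (m : G) * x ∈ M := by simpa using hM.conj_mem (m : G) m.2 x⁻¹
      rw [CharInd.extendByZero_mem _ _ (le_stabHom M lam hm), stab_val M lam hψ h ⟨_, hm⟩, val,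
        conjHom_apply]
      congr 3
      exact Subtype.ext (by simp)
    rw [Finset.sum_congr rfl (g := fun m : M =>
      ψ 1 * (val (conjHom M x⁻¹ lam) m * conj (lam m : ℂ))) fun m _ => by
        rw [hval m, mul_assoc], ← Finset.mul_sum]
    rw [show ∑ m : M, val (conjHom M x⁻¹ lam) m * conj (lam m : ℂ) =
      (Nat.card M : ℂ) * classInner (val (conjHom M x⁻¹ lam)) (val lam) from
        sum_mul_conj_eq_card_mul_classInner _ _]
    split_ifs with hx
    · rw [(mem_stabHom_iff M).1 hx, classInner_irr_self (val_irr lam), mul_one]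
    · rw [classInner_irr_ne (val_irr _) (val_irr lam)
        (fun e => hx ((mem_stabHom_iff M).2 (val_injective e))), mul_zero, mul_zero]
  rw [Finset.sum_congr rfl (g := fun m : M => (Nat.card (stabHom M lam) : ℂ)⁻¹ *
    ∑ x : G, extendByZero (stabHom M lam) ψ (x⁻¹ * m * x) * conj (lam m : ℂ)) fun m _ => by
      rw [CharInd.indFun_apply, mul_assoc, Finset.sum_mul], ← Finset.mul_sum]
  rw [Finset.sum_comm, Finset.sum_congr rfl fun x _ => key x, ← Finset.sum_filter,
    Finset.sum_const, nsmul_eq_mul]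
  refine mul_ne_zero (inv_ne_zero (Nat.cast_ne_zero.2 Nat.card_pos.ne')) (mul_ne_zero ?_
    (mul_ne_zero (irr_one_ne_zero' hψ) (Nat.cast_ne_zero.2 Nat.card_pos.ne')))
  rw [Nat.cast_ne_zero, ← Nat.pos_iff_ne_zero, Finset.card_pos]
  exact ⟨1, by simp [(stabHom M lam).one_mem]⟩

theorem charDegree_ind {ψ : stabHom M lam → ℂ} (hψ : IsIrrCharacter (stabHom M lam) ψ) :
    charDegree (indFun (stabHom M lam) ψ) = (stabHom M lam).index * charDegree ψ := by
  refine RealChar.charDegree_of_eq_nat ?_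
  rw [CharInd.indFun_one_apply, RealChar.eq_charDegree (isCharacter_of_irr hψ), Nat.cast_mul]

theorem exists_of_over {χ : G → ℂ} (hχ : IsIrrCharacter G χ) (h : Over M lam χ) :
    ∃ ψ : stabHom M lam → ℂ, IsIrrCharacter (stabHom M lam) ψ ∧
      Over (M.subgroupOf (stabHom M lam)) (lamT M lam) ψ ∧ indFun (stabHom M lam) ψ = χ := by
  classical
  set T := stabHom M lam
  letI := Fintype.ofFinite T
  letI := Fintype.ofFinite M
  letI : Fintype (M.subgroupOf T) := Fintype.ofFinite _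
  obtain ⟨c, hc, hc'⟩ := isCharacter_exists_coeff
    (CharInd.isCharacter_res T (isCharacter_of_irr hχ))
  have hsum : ∑ m : M, χ m * conj (lam m : ℂ) = ∑ ξ : IrrCharacter T, (c ξ : ℂ) *
      ∑ m : M.subgroupOf T, (ξ : T → ℂ) m * conj (lamT M lam m : ℂ) := by
    rw [← Fintype.sum_equiv (Subgroup.subgroupOfEquivOfLe (le_stabHom M lam)).toEquiv
      (fun m : M.subgroupOf T => χ ((m : T) : G) * conj (lamT M lam m : ℂ)) _ fun m => rfl]
    simp only [Finset.mul_sum]
    rw [Finset.sum_comm]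
    refine Finset.sum_congr rfl fun m _ => ?_
    have h1 := congrFun hc (m : T)
    simp only [Finset.sum_apply, nsmul_eq_mul, Pi.mul_apply, Pi.natCast_apply] at h1
    rw [h1, Finset.sum_mul]
    exact Finset.sum_congr rfl fun ξ _ => by ring
  simp only [Over, finsum_eq_sum_of_fintype] at h
  rw [hsum] at h
  obtain ⟨ξ, -, hξ⟩ := Finset.exists_ne_zero_of_sum_ne_zero h
  have hov : Over (M.subgroupOf T) (lamT M lam) (ξ : T → ℂ) := by
    rw [Over, finsum_eq_sum_of_fintype]; exact (mul_ne_zero_iff.1 hξ).2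
  refine ⟨ξ, ξ.2, hov, ?_⟩
  by_contra hne
  have h0 := classInner_irr_ne (ind_irr_over M lam ξ.2 hov).1 hχ hne
  rw [CharInd.classInner_indFun_left T _ (irr_isClassFunction hχ), ← CharInd.classInner_swap,
    hc' ξ, map_natCast] at h0
  exact (mul_ne_zero_iff.1 hξ).1 h0

theorem ind_inj [Fintype (stabHom M lam)] {ψ ψ' : stabHom M lam → ℂ}
    (hψ : IsIrrCharacter (stabHom M lam) ψ)
    (h : Over (M.subgroupOf (stabHom M lam)) (lamT M lam) ψ)
    (hψ' : IsIrrCharacter (stabHom M lam) ψ')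
    (h' : Over (M.subgroupOf (stabHom M lam)) (lamT M lam) ψ')
    (e : indFun (stabHom M lam) ψ = indFun (stabHom M lam) ψ') : ψ = ψ' := by
  by_contra hne
  have h1 := classInner_ind M lam hψ h hψ' h'
  rw [← e, classInner_irr_self (ind_irr_over M lam hψ h).1, classInner_irr_ne hψ hψ' hne] at h1
  exact one_ne_zero h1

theorem real_ind_iff (h2 : lam * lam = 1) {ψ : stabHom M lam → ℂ}
    (hψ : IsIrrCharacter (stabHom M lam) ψ)
    (h : Over (M.subgroupOf (stabHom M lam)) (lamT M lam) ψ) :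
    (∀ g, (indFun (stabHom M lam) ψ g).im = 0) ↔ ∀ t, (ψ t).im = 0 := by
  classical
  letI := Fintype.ofFinite (stabHom M lam)
  have hcj : (fun g => conj (indFun (stabHom M lam) ψ g)) = indFun (stabHom M lam) (fun t => conj (ψ t)) :=
    CharInd.indFun_conj (stabHom M lam) ψ
  refine ⟨fun hr t => ?_, fun hr g => ?_⟩
  · have h1 : Over (M.subgroupOf (stabHom M lam)) (lamT M lam) (fun t => conj (ψ t)) := by
      have := over_conj (M.subgroupOf (stabHom M lam)) h
      rwa [show (lamT M lam)⁻¹ = lamT M lam from MonoidHom.ext fun m => by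
        rw [MonoidHom.inv_apply, inv_eq_iff_mul_eq_one]
        exact DFunLike.congr_fun h2 _] at this
    have e := ind_inj M lam (isIrrCharacter_conjFun hψ) h1 hψ h
      (hcj.symm.trans (conjFun_eq_of_real hr))
    exact Complex.conj_eq_iff_im.1 (congrFun e t)
  · rw [conjFun_eq_of_real hr] at hcj
    exact Complex.conj_eq_iff_im.1 (congrFun hcj g)

theorem card_over_eq_stab (h2 : lam * lam = 1) (hodd : Odd (stabHom M lam).index) :
    Nat.card {χ : IrrCharacter G // RealOdd (χ : G → ℂ) ∧ Over M lam (χ : G → ℂ)} =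
      Nat.card {ψ : IrrCharacter (stabHom M lam) // RealOdd (ψ : stabHom M lam → ℂ) ∧
        Over (M.subgroupOf (stabHom M lam)) (lamT M lam) (ψ : stabHom M lam → ℂ)} := by
  classical
  letI := Fintype.ofFinite (stabHom M lam)
  refine (Nat.card_congr (Equiv.ofBijective
    (fun ψ => ⟨⟨indFun (stabHom M lam) (ψ.1 : stabHom M lam → ℂ),
      (ind_irr_over M lam ψ.1.2 ψ.2.2).1⟩, ⟨(real_ind_iff M lam h2 ψ.1.2 ψ.2.2).2 ψ.2.1.1, by
        rw [charDegree_ind M lam ψ.1.2]; exact hodd.mul ψ.2.1.2⟩,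
      (ind_irr_over M lam ψ.1.2 ψ.2.2).2⟩) ⟨fun a b e => ?_, fun χ => ?_⟩)).symm
  · refine Subtype.ext (Subtype.ext (ind_inj M lam a.1.2 a.2.2 b.1.2 b.2.2 ?_))
    exact congrArg (fun t => ((t.1 : IrrCharacter G) : G → ℂ)) e
  · obtain ⟨ψ, hψ, hov, e⟩ := exists_of_over M lam χ.1.2 χ.2.2
    have hd := χ.2.1.2
    rw [← e, charDegree_ind M lam hψ, Nat.odd_mul] at hd
    have hr := χ.2.1.1
    rw [← e] at hr
    exact ⟨⟨⟨ψ, hψ⟩, ⟨(real_ind_iff M lam h2 hψ hov).1 hr, hd.2⟩, hov⟩,
      Subtype.ext (Subtype.ext e)⟩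

end Induction

section Extension

variable {M} {lam : M →* ℂˣ}

theorem real_of_sq {μ : G →* ℂˣ} (h : μ * μ = 1) (g : G) : ((μ g : ℂˣ) : ℂ).im = 0 := by
  have h1 := congrArg Units.val (DFunLike.congr_fun h g)
  simp only [MonoidHom.mul_apply, MonoidHom.one_apply, Units.val_mul, Units.val_one] at h1
  rcases mul_self_eq_one_iff.1 h1 with e | e <;> rw [e] <;> simp

theorem card_over_of_ext (hinv : stabHom M lam = ⊤) (μ : G →* ℂˣ) (hμ : μ * μ = 1)
    (hext : ∀ m : M, μ m = lam m) :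
    Nat.card {χ : IrrCharacter G // RealOdd (χ : G → ℂ) ∧ Over M lam (χ : G → ℂ)} =
      Nat.card {χ : IrrCharacter G // RealOdd (χ : G → ℂ) ∧ Triv M (χ : G → ℂ)} := by
  have hsq : ∀ g, (μ g : ℂ) * (μ g : ℂ) = 1 := fun g => by
    rw [← Units.val_mul, ← MonoidHom.mul_apply, hμ, MonoidHom.one_apply, Units.val_one]
  let T : IrrCharacter G → IrrCharacter G := fun χ =>
    ⟨fun g => (χ : G → ℂ) g * (μ g : ℂ), by
      simpa only [mul_comm] using isIrrCharacter_mul_monoidHom χ.2 μ⟩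
  have hT : ∀ χ, T (T χ) = χ := fun χ => Subtype.ext (funext fun g => by
    show (χ : G → ℂ) g * (μ g : ℂ) * (μ g : ℂ) = _
    rw [mul_assoc, hsq, mul_one])
  have hRO : ∀ χ : IrrCharacter G, RealOdd (χ : G → ℂ) → RealOdd (T χ : G → ℂ) := fun χ h => by
    refine ⟨fun g => ?_, ?_⟩
    · show ((χ : G → ℂ) g * (μ g : ℂ)).im = 0
      rw [Complex.mul_im, h.1, real_of_sq hμ g, mul_zero, zero_mul, add_zero]
    · show Odd (charDegree fun g => (χ : G → ℂ) g * (μ g : ℂ))
      simpa [charDegree] using h.2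
  have hval : ∀ (χ : IrrCharacter G) (m : M),
      (T χ : G → ℂ) m = (χ : G → ℂ) m * (lam m : ℂ) := fun χ m => by
    show (χ : G → ℂ) m * (μ m : ℂ) = _
    rw [hext]
  have hone : ∀ χ : IrrCharacter G, (T χ : G → ℂ) 1 = (χ : G → ℂ) 1 := fun χ => by
    show (χ : G → ℂ) 1 * (μ 1 : ℂ) = _
    simp
  refine Nat.card_congr
    { toFun := fun χ => ⟨T χ.1, hRO χ.1 χ.2.1, fun k hk => ?_⟩
      invFun := fun χ => ⟨T χ.1, hRO χ.1 χ.2.1, over_of_val M (irr_one_ne_zero' (T χ.1).2) ?_⟩
      left_inv := fun χ => Subtype.ext (hT χ.1)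
      right_inv := fun χ => Subtype.ext (hT χ.1) }
  · have h1 := hval χ.1 ⟨k, hk⟩
    rw [over_val_inv M hinv χ.1.2 χ.2.2, mul_assoc, ← hext, hsq, mul_one, ← hone] at h1
    exact h1
  · intro m
    rw [hval, hone, χ.2.2 m m.2]

/-- An odd-degree character over `lam` of order two gives an extension by its determinant. -/
theorem exists_det_ext (hinv : stabHom M lam = ⊤) (h2 : lam * lam = 1) {χ : G → ℂ}
    (hχ : IsIrrCharacter G χ) (hodd : Odd (charDegree χ)) (h : Over M lam χ) :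
    ∃ μ : G →* ℂˣ, (∀ m : M, μ m = lam m) ∧ ((∀ g, (χ g).im = 0) → μ * μ = 1) := by
  obtain ⟨k, ρ, hρ, rfl⟩ := hχ
  set μ := (CharExt.detChar_isLin ρ.character).toHom with hμdef
  refine ⟨μ, fun m => Units.ext ?_, fun hreal => MonoidHom.ext fun g => Units.ext ?_⟩
  · have hk : charDegree ρ.character = k := RealChar.charDegree_of_eq_nat (by simp)
    rw [hμdef, CharExt.IsLin.toHom_apply]
    let σ : Representation ℂ M (Fin k → ℂ) :=
      { toFun := fun m => (lam m : ℂ) • 1
        map_one' := by simp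
        map_mul' := fun a b => by simp [smul_smul, mul_comm] }
    have hσ : ∀ m : M, ρ.character m = σ.character m := fun m => by
      rw [over_val_inv M hinv ⟨k, ρ, hρ, rfl⟩ h m]
      simp [σ, Representation.character, mul_comm]
    rw [CharExt.detChar_restrict M (isCharacter_of_irr ⟨k, ρ, hρ, rfl⟩) hσ m,
      CharExt.detChar_eq σ rfl]
    show LinearMap.det ((lam m : ℂ) • (1 : (Fin k → ℂ) →ₗ[ℂ] (Fin k → ℂ))) = _
    rw [LinearMap.det_smul, map_one, mul_one, Module.finrank_fintype_fun_eq_card, Fintype.card_fin]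
    obtain ⟨j, rfl⟩ := hk ▸ hodd
    have h1 := congrArg Units.val (DFunLike.congr_fun h2 m)
    simp only [MonoidHom.mul_apply, MonoidHom.one_apply, Units.val_mul, Units.val_one] at h1
    rw [pow_succ, pow_mul, sq, h1, one_pow, one_mul]
  · rw [MonoidHom.mul_apply, MonoidHom.one_apply, Units.val_mul, Units.val_one, hμdef,
      CharExt.IsLin.toHom_apply]
    have hd : (ρ.dual).character = ρ.character := funext fun x => by
      rw [Representation.char_dual, irr_inv ⟨k, ρ, hρ, rfl⟩, Complex.conj_eq_iff_im.2 (hreal x)]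
    have e1 : CharExt.detChar_eq ρ rfl g = CharExt.detChar_eq ρ rfl g := rfl
    have e2 : Cfsg.detChar ρ.character g = Cfsg.detChar ρ.character g⁻¹ := by
      rw [CharExt.detChar_eq ρ.dual hd g, CharExt.detChar_eq ρ rfl g⁻¹]
      exact LinearMap.det_dualMap (ρ g⁻¹)
    conv_lhs => arg 2; rw [e2]
    rw [← (CharExt.detChar_isLin ρ.character).2, mul_inv_cancel,
      (CharExt.detChar_isLin ρ.character).1]

/-- A real extension to a subgroup of odd index gives a real extension. -/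
theorem exists_real_ext (hinv : stabHom M lam = ⊤) (h2 : lam * lam = 1) (H : Subgroup G)
    (hMH : M ≤ H) (hH : Odd H.index) (ν : H →* ℂˣ) (hν2 : ν * ν = 1)
    (hν : ∀ m : M, ν ⟨m, hMH m.2⟩ = lam m) :
    ∃ μ : G →* ℂˣ, (∀ m : M, μ m = lam m) ∧ μ * μ = 1 := by
  obtain ⟨μ, hμ, hr⟩ := CharExt.exists_hom_pow_index M lam
    (fun g m => (mem_stabHom M).1 (hinv ▸ Subgroup.mem_top g) m) H hMH ν hν
  refine ⟨μ, fun m => ?_, MonoidHom.ext fun g => ?_⟩
  · obtain ⟨j, hj⟩ := hH
    rw [hμ, hj, pow_succ, pow_mul, sq, ← MonoidHom.mul_apply, h2, MonoidHom.one_apply, one_pow,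
      one_mul]
  · obtain ⟨x, hx⟩ := hr g
    rw [MonoidHom.mul_apply, ← hx, ← MonoidHom.mul_apply, hν2, MonoidHom.one_apply,
      MonoidHom.one_apply]

end Extension

end Cfsg.Agent.RealDeg.OddDeg
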