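import Cfsg.Agent.RealChar.LinearCount
import Cfsg.Agent.CharInd.Correspondence
import Cfsg.Agent.CharExt.Linear
import Cfsg.Agent.CharExt.Extension
import Cfsg.Agent.CharExt.Inertia
import Cfsg.Agent.Char.Real

/-!
# Odd-degree characters over an abelian normal subgroup

Elementary Clifford theory for odd-degree characters over an abelian normal subgroup `M`, with
constituents written as homomorphisms `M →* ℂˣ`.
-/

set_option autoImplicit false
set_option linter.style.haveILetI false
set_option linter.unusedSectionVars false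

open scoped ComplexConjugate
open Cfsg Cfsg.Agent.Char

namespace Cfsg.Agent.RealDeg.OddDeg

universe u

variable {G : Type u} [Group G] [Finite G]

/-- A real-valued function of odd degree. -/
def RealOdd (χ : G → ℂ) : Prop := (∀ g, (χ g).im = 0) ∧ Odd (charDegree χ)

/-- `K` lies in the kernel. -/
def Triv (K : Subgroup G) (χ : G → ℂ) : Prop := ∀ k ∈ K, χ k = χ 1

/-- The linear character `lam` of `M` is a constituent of the restriction of `χ`. -/
def Over (M : Subgroup G) (lam : M →* ℂˣ) (χ : G → ℂ) : Prop :=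
  ∑ᶠ m : M, χ m * conj (lam m : ℂ) ≠ 0

/-- The value function of a homomorphism. -/
def val {M : Type u} [Group M] (lam : M →* ℂˣ) : M → ℂ := fun m => (lam m : ℂ)

theorem val_irr {M : Type u} [Group M] (lam : M →* ℂˣ) : IsIrrCharacter M (val lam) :=
  isIrrCharacter_monoidHom lam

theorem val_injective {M : Type u} [Group M] : Function.Injective (val (M := M)) :=
  fun _ _ h => MonoidHom.ext fun m => Units.ext (congrFun h m)

theorem over_iff (M : Subgroup G) [Fintype M] (lam : M →* ℂˣ) (χ : G → ℂ) :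
    Over M lam χ ↔ classInner (fun m : M => χ m) (val lam) ≠ 0 := by
  rw [Over, finsum_eq_sum_of_fintype, classInner, mul_ne_zero_iff]
  exact ⟨fun h => ⟨inv_ne_zero (Nat.cast_ne_zero.2 Nat.card_pos.ne'), h⟩, fun h => h.2⟩

theorem conjFun_eq_of_real {χ : G → ℂ} (h : ∀ g, (χ g).im = 0) : (fun g => conj (χ g)) = χ :=
  funext fun g => Complex.conj_eq_iff_im.2 (h g)

/-- Pulling back along a surjection. -/
theorem card_of_surjective {B : Type u} [Group B] [Finite B] (f : G →* B)
    (hf : Function.Surjective f) :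
    Nat.card {χ : IrrCharacter B // RealOdd (χ : B → ℂ)} =
      Nat.card {χ : IrrCharacter G // RealOdd (χ : G → ℂ) ∧ Triv f.ker (χ : G → ℂ)} := by
  have hdeg : ∀ χ : B → ℂ, charDegree (fun g => χ (f g)) = charDegree χ := fun χ => by
    simp [charDegree]
  let F : {χ : IrrCharacter B // RealOdd (χ : B → ℂ)} →
      {χ : IrrCharacter G // RealOdd (χ : G → ℂ) ∧ Triv f.ker (χ : G → ℂ)} := fun χ =>
    ⟨⟨fun g => (χ.1 : B → ℂ) (f g), isIrrCharacter_comp χ.1.2 f hf⟩,
      ⟨fun g => χ.2.1 (f g), by show Odd (charDegree _); rw [hdeg]; exact χ.2.2⟩, fun k hk => by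
        show (χ.1 : B → ℂ) (f k) = (χ.1 : B → ℂ) (f 1)
        rw [show f k = 1 from hk, map_one]⟩
  refine Nat.card_congr (Equiv.ofBijective F ⟨fun a b h => ?_, fun χ => ?_⟩)
  · refine Subtype.ext (Subtype.ext (funext fun y => ?_))
    obtain ⟨g, rfl⟩ := hf y
    exact congrFun (congrArg (fun t => ((t.1 : IrrCharacter G) : G → ℂ)) h) g
  · obtain ⟨ψ, hψ, hg⟩ := irr_exists_descend χ.1.2 f.ker χ.2.2
    let e := QuotientGroup.quotientKerEquivOfSurjective f hf
    have he : ∀ g : G, e.symm (f g) = (g : G ⧸ f.ker) := fun g =>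
      e.symm_apply_eq.2 rfl
    let ψ' : IrrCharacter B :=
      ⟨fun b => ψ (e.symm b), isIrrCharacter_comp hψ e.symm.toMonoidHom e.symm.surjective⟩
    have hval : ∀ g, (ψ' : B → ℂ) (f g) = (χ.1 : G → ℂ) g := fun g => by
      show ψ (e.symm (f g)) = _
      rw [he, hg]
    refine ⟨⟨ψ', fun b => ?_, ?_⟩, Subtype.ext (Subtype.ext (funext hval))⟩
    · obtain ⟨g, rfl⟩ := hf b
      rw [hval]; exact χ.2.1.1 g
    · rw [← hdeg]
      rw [show (fun g => (ψ' : B → ℂ) (f g)) = (χ.1 : G → ℂ) from funext hval]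
      exact χ.2.1.2

section Abelian

variable (M : Subgroup G) [hM : M.Normal]

/-- A real function restricted against the conjugate. -/
theorem over_conj {lam : M →* ℂˣ} {χ : G → ℂ} (h : Over M lam χ) :
    Over M lam⁻¹ (fun g => conj (χ g)) := by
  classical
  letI := Fintype.ofFinite M
  rw [Over, finsum_eq_sum_of_fintype] at h ⊢
  intro h0
  apply h
  have h1 := congrArg conj h0
  rw [map_sum, map_zero] at h1
  refine Eq.trans (Finset.sum_congr rfl fun m _ => ?_) h1
  have hn : ‖((lam m : ℂˣ) : ℂ)‖ = 1 := by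
    refine Complex.norm_eq_one_of_pow_eq_one (n := Nat.card M) ?_ Nat.card_pos.ne'
    rw [← Units.val_pow_eq_pow_val, ← map_pow, pow_card_eq_one', map_one, Units.val_one]
  rw [map_mul, Complex.conj_conj, Complex.conj_conj]
  congr 1
  rw [MonoidHom.inv_apply, Units.val_inv_eq_inv_val, Complex.inv_eq_conj hn]

/-- The stabiliser of `lam`. -/
noncomputable def stabHom (lam : M →* ℂˣ) : Subgroup G := CharInd.conjStab M (val lam)

theorem mem_stabHom {lam : M →* ℂˣ} {g : G} :
    g ∈ stabHom M lam ↔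
      ∀ m : M, lam ⟨g * m * g⁻¹, hM.conj_mem (m : G) m.2 g⟩ = lam m := by
  rw [stabHom, CharInd.mem_conjStab]
  refine ⟨fun h m => Units.ext ?_, fun h => funext fun m => ?_⟩
  · have := congrFun h m
    rwa [CharInd.conjChar_apply] at this
  · rw [CharInd.conjChar_apply]
    exact congrArg Units.val (h m)

theorem le_stabHom (lam : M →* ℂˣ) : M ≤ stabHom M lam :=
  CharInd.le_conjStab M (irr_isClassFunction (val_irr lam))

variable (hab : ∀ a b : M, a * b = b * a)

include hab in
theorem exists_over {χ : G → ℂ} (hχ : IsIrrCharacter G χ) : ∃ lam, Over M lam χ := by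
  classical
  letI := Fintype.ofFinite G
  letI := Fintype.ofFinite M
  obtain ⟨θ, hθ, h0⟩ : ∃ θ : IrrCharacter M, True ∧
      classInner (fun m : M => χ m) (θ : M → ℂ) ≠ 0 := by
    by_contra hcon
    push Not at hcon
    have hres := CharInd.isCharacter_res M (isCharacter_of_irr hχ)
    obtain ⟨c, hc, hc'⟩ := isCharacter_exists_coeff hres
    have h1 := congrFun hc 1
    rw [Finset.sum_apply, Finset.sum_eq_zero fun ξ _ => ?_] at h1
    · obtain ⟨n, hn, hn'⟩ := irr_one_pos hχ
      simp only [OneMemClass.coe_one, hn'] at h1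
      exact absurd (Nat.cast_eq_zero.1 h1) hn.ne'
    · have h2 := hc' ξ
      rw [hcon ξ trivial] at h2
      rw [show c ξ = 0 from Nat.cast_eq_zero.1 h2.symm, zero_smul, Pi.zero_apply]
  obtain ⟨f, hf⟩ := irr_exists_monoidHom_of_comm hab θ.2
  refine ⟨f, (over_iff M f χ).2 ?_⟩
  have e : val f = (θ : M → ℂ) := funext fun m => (hf m).symm
  rw [e]; exact h0

/-- Clifford: all values on `M` and the degree. -/
theorem clifford_val [Fintype G] [Fintype M] {χ : G → ℂ} (hχ : IsIrrCharacter G χ)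
    {lam : M →* ℂˣ} (h : Over M lam χ) :
    ∃ e : ℕ, charDegree χ = e * (stabHom M lam).index ∧
      ∀ m : M, χ m = (e : ℂ) * ∑ ψ ∈ CharInd.conjClass M (val lam), ψ m := by
  obtain ⟨e, he⟩ := isCharacter_classInner_nat (CharInd.isCharacter_res M (isCharacter_of_irr hχ))
    ⟨val lam, val_irr lam⟩
  have hcl := CharInd.clifford M hχ (val_irr lam) ((over_iff M lam χ).1 h)
  have hv : ∀ m : M, χ m = (e : ℂ) * ∑ ψ ∈ CharInd.conjClass M (val lam), ψ m := by
    intro m
    have h1 := congrFun hcl m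
    simp only [Pi.smul_apply, Finset.sum_apply, smul_eq_mul] at h1
    rw [h1]
    congr 1
  refine ⟨e, RealChar.charDegree_of_eq_nat ?_, hv⟩
  have h1 := hv 1
  rw [OneMemClass.coe_one] at h1
  rw [h1, Finset.sum_congr rfl (g := fun _ => (1 : ℂ)), Finset.sum_const,
    CharInd.card_conjClass, stabHom]
  · simp
  · intro ψ hψ
    obtain ⟨x, rfl⟩ := (CharInd.mem_conjClass M).1 hψ
    rw [CharInd.conjChar_apply, show (⟨x * ((1 : M) : G) * x⁻¹, _⟩ : M) = 1 from
      Subtype.ext (by simp)]
    simp [val]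

theorem stab_index_dvd {χ : G → ℂ} (hχ : IsIrrCharacter G χ) {lam : M →* ℂˣ}
    (h : Over M lam χ) : (stabHom M lam).index ∣ charDegree χ := by
  letI := Fintype.ofFinite G
  letI := Fintype.ofFinite M
  obtain ⟨e, he, -⟩ := clifford_val M hχ h
  exact he ▸ Dvd.intro_left e rfl

/-- Two constituents are conjugate. -/
theorem exists_conj_of_over {χ : G → ℂ} (hχ : IsIrrCharacter G χ) {lam lam' : M →* ℂˣ}
    (h : Over M lam χ) (h' : Over M lam' χ) :
    ∃ x : G, ∀ m : M, lam' m = lam ⟨x * m * x⁻¹, hM.conj_mem (m : G) m.2 x⟩ := by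
  classical
  letI := Fintype.ofFinite G
  letI := Fintype.ofFinite M
  obtain ⟨x, hx⟩ := (CharInd.mem_conjClass M).1 (CharExt.mem_conjClass_of_constituent M hχ
    (val_irr lam) (val_irr lam') ((over_iff M lam χ).1 h) ((over_iff M lam' χ).1 h'))
  refine ⟨x, fun m => Units.ext ?_⟩
  have := congrFun hx m
  rw [CharInd.conjChar_apply] at this
  exact this

/-- The conjugate of a homomorphism. -/
noncomputable def conjHom (x : G) (lam : M →* ℂˣ) : M →* ℂˣ :=
  lam.comp (MulAut.conjNormal x).toMonoidHom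

theorem conjHom_apply (x : G) (lam : M →* ℂˣ) (m : M) :
    conjHom M x lam m = lam ⟨x * m * x⁻¹, hM.conj_mem (m : G) m.2 x⟩ :=
  congrArg lam (Subtype.ext (MulAut.conjNormal_apply x m))

theorem over_conjHom {χ : G → ℂ} (hχ : IsClassFunction G χ) {lam : M →* ℂˣ} (h : Over M lam χ)
    (x : G) : Over M (conjHom M x lam) χ := by
  classical
  letI := Fintype.ofFinite M
  rw [over_iff] at h ⊢
  have e : val (conjHom M x lam) = CharInd.conjChar M x (val lam) := funext fun m => by
    rw [CharInd.conjChar_apply]; exact congrArg Units.val (conjHom_apply M x lam m)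
  rwa [e, CharInd.classInner_res_conjChar M hχ]

theorem mem_stabHom_conjHom {lam : M →* ℂˣ} {x g : G} :
    g ∈ stabHom M (conjHom M x lam) ↔ x * g * x⁻¹ ∈ stabHom M lam := by
  rw [mem_stabHom, mem_stabHom]
  constructor
  · intro h m
    have h1 := h ⟨x⁻¹ * m * x⁻¹⁻¹, hM.conj_mem (m : G) m.2 x⁻¹⟩
    rw [conjHom_apply, conjHom_apply] at h1
    have e1 : (⟨x * g * x⁻¹ * m * (x * g * x⁻¹)⁻¹, hM.conj_mem (m : G) m.2 _⟩ : M) =
        ⟨x * (g * (x⁻¹ * m * x⁻¹⁻¹) * g⁻¹) * x⁻¹,
          hM.conj_mem _ (hM.conj_mem _ (hM.conj_mem (m : G) m.2 x⁻¹) g) x⟩ :=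
      Subtype.ext (by simp only; group)
    have e2 : (⟨x * (x⁻¹ * m * x⁻¹⁻¹) * x⁻¹, hM.conj_mem _ (hM.conj_mem (m : G) m.2 x⁻¹) x⟩ : M) =
        m := Subtype.ext (by simp only; group)
    rw [e1, h1, e2]
  · intro h m
    rw [conjHom_apply, conjHom_apply]
    have h1 := h ⟨x * m * x⁻¹, hM.conj_mem (m : G) m.2 x⟩
    have e1 : (⟨x * g * x⁻¹ * (x * m * x⁻¹) * (x * g * x⁻¹)⁻¹,
        hM.conj_mem _ (hM.conj_mem (m : G) m.2 x) _⟩ : M) =
        ⟨x * (g * m * g⁻¹) * x⁻¹, hM.conj_mem _ (hM.conj_mem (m : G) m.2 g) x⟩ :=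
      Subtype.ext (by simp only; group)
    rwa [e1] at h1

include hab in
/-- An odd-degree character has a constituent fixed by a given 2-subgroup. -/
theorem exists_fixed_over {χ : G → ℂ} (hχ : IsIrrCharacter G χ) (hodd : Odd (charDegree χ))
    (P : Subgroup G) (hP : IsPGroup 2 P) :
    ∃ lam, Over M lam χ ∧ P ≤ stabHom M lam := by
  classical
  haveI : Fact (Nat.Prime 2) := ⟨Nat.prime_two⟩
  obtain ⟨lam, h⟩ := exists_over M hab hχ
  set T := stabHom M lam with hT
  have hidx : ¬ 2 ∣ T.index := fun hd =>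
    (Nat.not_even_iff_odd.2 hodd) (even_iff_two_dvd.2 (hd.trans (stab_index_dvd M hχ h)))
  obtain ⟨q, hq⟩ := hP.nonempty_fixed_point_of_prime_not_dvd_card (G ⧸ T)
    (by rwa [← Subgroup.index_eq_card])
  induction q using QuotientGroup.induction_on with
  | _ g =>
    refine ⟨conjHom M g⁻¹ lam, over_conjHom M (irr_isClassFunction hχ) h g⁻¹, fun u hu => ?_⟩
    rw [mem_stabHom_conjHom]
    have h1 := (QuotientGroup.eq).mp (hq ⟨u, hu⟩)
    simpa [mul_assoc] using T.inv_mem h1

/-- Real odd-degree characters are trivial on an abelian normal subgroup of odd order. -/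
theorem triv_of_odd {χ : G → ℂ} (hχ : IsIrrCharacter G χ) (hRO : RealOdd χ)
    (hab : ∀ a b : M, a * b = b * a) (hM2 : Odd (Nat.card M)) : Triv M χ := by
  classical
  letI := Fintype.ofFinite G
  letI := Fintype.ofFinite M
  obtain ⟨lam, h⟩ := exists_over M hab hχ
  obtain ⟨e, he, hv⟩ := clifford_val M hχ h
  set C := CharInd.conjClass M (val lam) with hC
  have hcard : Odd C.card := by
    rw [hC, CharInd.card_conjClass]
    exact (Nat.odd_mul.1 (he ▸ hRO.2)).2
  -- conjugation is an involution on the orbit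
  have hmem : ∀ ψ ∈ C, (fun m => conj (ψ m)) ∈ C := by
    intro ψ hψ
    obtain ⟨x, rfl⟩ := (CharInd.mem_conjClass M).1 hψ
    have h1 : Over M (conjHom M x lam)⁻¹ χ := by
      have := over_conj M (over_conjHom M (irr_isClassFunction hχ) h x)
      rwa [conjFun_eq_of_real hRO.1] at this
    refine CharExt.mem_conjClass_of_constituent M hχ (val_irr lam) ?_ ((over_iff M lam χ).1 h) ?_
    · exact isIrrCharacter_conjFun (CharInd.conjChar_irr M x (val_irr lam))
    · have e1 : (fun m => conj (CharInd.conjChar M x (val lam) m)) =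
          val (conjHom M x lam)⁻¹ := funext fun m => by
        have hn : ‖((conjHom M x lam m : ℂˣ) : ℂ)‖ = 1 := by
          refine Complex.norm_eq_one_of_pow_eq_one (n := Nat.card M) ?_ Nat.card_pos.ne'
          rw [← Units.val_pow_eq_pow_val, ← map_pow, pow_card_eq_one', map_one, Units.val_one]
        rw [CharInd.conjChar_apply, val, val, MonoidHom.inv_apply, Units.val_inv_eq_inv_val,
          Complex.inv_eq_conj hn, conjHom_apply]
      rw [e1]; exact (over_iff M _ χ).1 h1
  obtain ⟨ψ, hψ, hfix⟩ : ∃ ψ ∈ C, (fun m => conj (ψ m)) = ψ := by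
    by_contra hcon
    push Not at hcon
    have h0 : ∑ _ψ ∈ C, (1 : ZMod 2) = 0 := Finset.sum_involution
      (fun ψ _ => fun m => conj (ψ m)) (fun ψ _ => CharTwo.add_self_eq_zero _)
      (fun ψ hψ _ => hcon ψ hψ) hmem (fun ψ _ => funext fun m => Complex.conj_conj _)
    rw [Finset.sum_const, nsmul_eq_mul, mul_one, ZMod.natCast_eq_zero_iff] at h0
    exact (Nat.not_even_iff_odd.2 hcard) (even_iff_two_dvd.2 h0)
  obtain ⟨x, rfl⟩ := (CharInd.mem_conjClass M).1 hψ
  have hone : ∀ m : M, lam m = 1 := by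
    intro m
    have h1 : ∀ m' : M, conj ((conjHom M x lam m' : ℂˣ) : ℂ) = ((conjHom M x lam m' : ℂˣ) : ℂ) := by
      intro m'
      have := congrFun hfix m'
      simp only [CharInd.conjChar_apply, val] at this
      rwa [conjHom_apply]
    set m' : M := ⟨x⁻¹ * m * x⁻¹⁻¹, hM.conj_mem (m : G) m.2 x⁻¹⟩ with hm'
    have e : conjHom M x lam m' = lam m := by
      rw [conjHom_apply]; exact congrArg lam (Subtype.ext (by simp only [hm']; group))
    have h2 := h1 m'
    rw [e] at h2
    set c : ℂ := ((lam m : ℂˣ) : ℂ) with hc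
    have hp : c ^ Nat.card M = 1 := by
      rw [hc, ← Units.val_pow_eq_pow_val, ← map_pow, pow_card_eq_one', map_one, Units.val_one]
    have hn : ‖c‖ = 1 := Complex.norm_eq_one_of_pow_eq_one hp Nat.card_pos.ne'
    have hsq : c * c = 1 := by
      conv_lhs => arg 2; rw [← h2]
      rw [Complex.mul_conj, Complex.normSq_eq_norm_sq, hn]; simp
    obtain ⟨k, hk⟩ := hM2
    refine Units.ext ?_
    rw [Units.val_one, ← hc, ← hp, hk, pow_succ, pow_mul, sq, hsq, one_pow, one_mul]
  intro k hk
  have hsum : ∀ m : M, ∑ ψ ∈ C, ψ m = (C.card : ℂ) := fun m => by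
    rw [Finset.sum_congr rfl (g := fun _ => (1 : ℂ)), Finset.sum_const, nsmul_eq_mul, mul_one]
    intro ψ hψ'
    obtain ⟨y, rfl⟩ := (CharInd.mem_conjClass M).1 hψ'
    rw [CharInd.conjChar_apply, val, hone, Units.val_one]
  have hk1 := hv ⟨k, hk⟩
  have h11 := hv 1
  rw [hsum] at hk1 h11
  rw [OneMemClass.coe_one] at h11
  exact hk1.trans h11.symm

end Abelian

/-- A character that is orthogonal to `θ` on `M` is orthogonal to it on `H ≥ M`. -/
theorem over_of_sum_ne_zero (M H : Subgroup G) (hMH : M ≤ H) (θ : H →* ℂˣ) {χ : G → ℂ}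
    (hχ : IsCharacter G χ) (h : ∑ᶠ x : H, χ x * conj (θ x : ℂ) ≠ 0) :
    Over M (θ.comp (Subgroup.inclusion hMH)) χ := by
  classical
  letI := Fintype.ofFinite H
  letI := Fintype.ofFinite M
  rw [finsum_eq_sum_of_fintype] at h
  intro h0
  apply h
  have hf : IsCharacter H (fun x : H => χ x * conj (θ x : ℂ)) :=
    isCharacter_mul (CharInd.isCharacter_res H hχ)
      (isCharacter_conjFun (isCharacter_of_irr (val_irr θ)))
  letI : Fintype (M.subgroupOf H) := Fintype.ofFinite _
  refine RealChar.sum_eq_zero_of_sum_subgroup (M.subgroupOf H) hf ?_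
  simp only [Over, ne_eq, not_not, finsum_eq_sum_of_fintype] at h0
  rw [← h0]
  exact Fintype.sum_equiv (Subgroup.subgroupOfEquivOfLe hMH).toEquiv _ _ fun m => rfl

end Cfsg.Agent.RealDeg.OddDeg
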