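import Cfsg.Agent.RealDeg.OddCorr
import Cfsg.Agent.SylowNum.Hall
import Cfsg.Agent.PGroup.Frattini

/-!
# Real characters of odd degree of solvable groups

Induction along a minimal normal subgroup `M`: for `|M|` odd real odd-degree characters are trivial
on `M`, for a 2-group `M` one passes to the stabiliser of a constituent fixed by a Sylow 2-subgroup.
-/

set_option autoImplicit false
set_option linter.style.haveILetI false
set_option linter.unusedSectionVars false

open scoped ComplexConjugate Pointwise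
open Cfsg Cfsg.Agent.Char

namespace Cfsg.Agent.RealDeg.OddDeg

universe u

variable {G : Type u} [Group G] [Finite G]

/-- All odd-degree irreducible characters are real. -/
def AllReal (G : Type u) [Group G] : Prop :=
  ∀ χ : IrrCharacter G, Odd (charDegree (χ : G → ℂ)) → ∀ g, ((χ : G → ℂ) g).im = 0

/-- Linear characters have order at most two. -/
def PTwo (P : Type u) [Group P] : Prop := ∀ θ : P →* ℂˣ, θ * θ = 1

/-- The number of real odd-degree irreducible characters. -/
noncomputable def cRO (G : Type u) [Group G] : ℕ :=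
  Nat.card {χ : IrrCharacter G // RealOdd (χ : G → ℂ)}

theorem pTwo_iff {P : Type u} [Group P] [Finite P] (hP : IsPGroup 2 P) :
    PTwo P ↔ commutator P = frattini P := by
  haveI : Fact (Nat.Prime 2) := ⟨Nat.prime_two⟩
  refine ⟨fun h => le_antisymm (PGroup.commutator_le_frattini hP)
    ((PGroup.frattini_le_iff hP).2 ⟨le_rfl, fun x => ?_⟩), fun h θ => MonoidHom.ext fun x => ?_⟩
  · by_contra hx
    obtain ⟨ω, hω⟩ := CommGroup.exists_apply_ne_one_of_hasEnoughRootsOfUnity (Abelianization P) ℂ
      (a := Abelianization.of (x ^ 2)) (fun e => hx ((QuotientGroup.eq_one_iff _).1 e))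
    apply hω
    have h1 := DFunLike.congr_fun (h (ω.comp Abelianization.of)) x
    rw [MonoidHom.mul_apply, MonoidHom.one_apply] at h1
    rw [map_pow, map_pow, sq]
    exact h1
  · have h1 : x ^ 2 ∈ commutator P := h ▸ PGroup.pow_mem_frattini hP x
    have h2 : commutator P ≤ θ.ker := Abelianization.commutator_subset_ker θ
    rw [MonoidHom.mul_apply, MonoidHom.one_apply, ← map_mul, ← sq]
    exact h2 h1

theorem pTwo_of_surjective {P Q : Type u} [Group P] [Group Q] (f : P →* Q)
    (hf : Function.Surjective f) (h : PTwo P) : PTwo Q := fun θ => MonoidHom.ext fun y => by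
  obtain ⟨x, rfl⟩ := hf y
  exact DFunLike.congr_fun (h (θ.comp f)) x

section Normalizer

variable {B : Type u} [Group B] [Finite B] {p : ℕ} [Fact p.Prime]

/-- Normalisers of Sylow subgroups map onto normalisers. -/
theorem map_normalizer_sylow (P : Sylow p G) (f : G →* B) (hf : Function.Surjective f) :
    (Subgroup.normalizer ((P : Subgroup G) : Set G)).map f =
      Subgroup.normalizer (((P.mapSurjective hf : Sylow p B) : Subgroup B) : Set B) := by
  refine le_antisymm (Subgroup.le_normalizer_map f) fun y hy => ?_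
  obtain ⟨x, rfl⟩ := hf y
  have h1 : x ∈ Subgroup.normalizer (((P : Subgroup G) ⊔ f.ker : Subgroup G) : Set G) := by
    rw [← Subgroup.comap_map_eq, ← Subgroup.comap_normalizer_eq_of_surjective _ hf]
    exact hy
  rw [SylowNum.normalizer_sup_normal P f.ker] at h1
  have h2 : f x ∈ (Subgroup.normalizer ((P : Subgroup G) : Set G) ⊔ f.ker).map f :=
    Subgroup.mem_map_of_mem f h1
  rw [Subgroup.map_sup, (Subgroup.map_eq_bot_iff (f := f) (f.ker)).2 le_rfl, sup_bot_eq] at h2
  exact h2

/-- The map on normalisers of Sylow subgroups. -/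
noncomputable def normMap (P : Sylow p G) (f : G →* B) (hf : Function.Surjective f) :
    Subgroup.normalizer ((P : Subgroup G) : Set G) →*
      Subgroup.normalizer (((P.mapSurjective hf : Sylow p B) : Subgroup B) : Set B) :=
  (f.comp (Subgroup.normalizer ((P : Subgroup G) : Set G)).subtype).codRestrict _ fun n =>
    map_normalizer_sylow P f hf ▸ Subgroup.mem_map_of_mem f n.2

theorem normMap_surjective (P : Sylow p G) (f : G →* B) (hf : Function.Surjective f) :
    Function.Surjective (normMap P f hf) := by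
  rintro ⟨y, hy⟩
  rw [← map_normalizer_sylow P f hf] at hy
  obtain ⟨x, hx, rfl⟩ := hy
  exact ⟨⟨x, hx⟩, rfl⟩

theorem mem_ker_normMap (P : Sylow p G) (f : G →* B) (hf : Function.Surjective f)
    (n : Subgroup.normalizer ((P : Subgroup G) : Set G)) :
    n ∈ (normMap P f hf).ker ↔ f n = 1 := by
  rw [MonoidHom.mem_ker]
  exact ⟨fun h => congrArg Subtype.val h, fun h => Subtype.ext h⟩

theorem cRO_congr (e : G ≃* B) : cRO B = cRO G := by
  rw [cRO, card_of_surjective e.toMonoidHom e.surjective, cRO]
  refine Nat.card_congr (Equiv.subtypeEquivRight fun χ => ⟨fun h => h.1, fun h => ⟨h, fun k hk => ?_⟩⟩)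
  rw [e.injective (show e k = e 1 from hk.trans (map_one e).symm)]

end Normalizer

/-- The inductive statement. -/
def Good (G : Type u) [Group G] [Finite G] : Prop :=
  ∀ P : Sylow 2 G, cRO G = cRO (Subgroup.normalizer ((P : Subgroup G) : Set G)) ∧
    (AllReal G ↔ PTwo (P : Subgroup G) ∧
      Subgroup.normalizer ((P : Subgroup G) : Set G) = (P : Subgroup G))

section OddM

variable (M : Subgroup G) [hM : M.Normal] (hab : ∀ a b : M, a * b = b * a)
  (hodd : Odd (Nat.card M))

include hab hodd in
theorem cRO_quotient : cRO G = cRO (G ⧸ M) := by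
  rw [cRO, cRO, card_of_surjective (QuotientGroup.mk' M) (QuotientGroup.mk'_surjective M)]
  refine Nat.card_congr (Equiv.subtypeEquivRight fun χ => ⟨fun h => ⟨h, ?_⟩, fun h => h.1⟩)
  rw [QuotientGroup.ker_mk']
  exact triv_of_odd M χ.2 h hab hodd

include hab hodd in
theorem good_odd [hs : Group.IsSolvable G] (ih : Good (G ⧸ M)) : Good G := by
  classical
  intro P
  haveI : Fact (Nat.Prime 2) := ⟨Nat.prime_two⟩
  letI := Fintype.ofFinite G
  set π := QuotientGroup.mk' M with hπ
  have hπs : Function.Surjective π := QuotientGroup.mk'_surjective M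
  set N := Subgroup.normalizer ((P : Subgroup G) : Set G) with hN
  obtain ⟨hc, hiff⟩ := ih (P.mapSurjective hπs)
  have hker : π.ker = M := QuotientGroup.ker_mk' M
  refine ⟨?_, ?_⟩
  · -- the count
    rw [cRO_quotient M hab hodd, hc]
    set f := normMap P π hπs with hf
    haveI : (M.subgroupOf N).Normal := Subgroup.normal_subgroupOf
    rw [cRO, card_of_surjective f (normMap_surjective P π hπs), cRO]
    refine Nat.card_congr (Equiv.subtypeEquivRight fun χ => ⟨fun h => h.1, fun h => ⟨h, ?_⟩⟩)
    have h1 : f.ker = M.subgroupOf N := by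
      ext n
      rw [mem_ker_normMap, Subgroup.mem_subgroupOf, ← MonoidHom.mem_ker, hker]
    rw [h1]
    refine triv_of_odd (M.subgroupOf N) χ.2 h (fun a b => Subtype.ext (Subtype.ext ?_)) ?_
    · simpa using congrArg Subtype.val
        (hab ⟨((a : N) : G), a.2⟩ ⟨((b : N) : G), b.2⟩)
    · refine hodd.of_dvd_nat ?_
      exact Subgroup.card_comap_dvd_of_injective M N.subtype N.subtype_injective
  have hPM : (P : Subgroup G) ⊓ M = ⊥ := by
    obtain ⟨k, hk⟩ := IsPGroup.iff_card.1 P.isPGroup'
    exact disjoint_iff.1 (Subgroup.disjoint_of_coprime_natCard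
      (hk ▸ (Nat.coprime_two_left.2 hodd).pow_left k))
  -- the Sylow subgroup maps isomorphically
  set Pb : Subgroup (G ⧸ M) := ((P.mapSurjective hπs : Sylow 2 (G ⧸ M)) : Subgroup (G ⧸ M)) with hPb
  let g : (P : Subgroup G) →* Pb :=
    (π.comp (P : Subgroup G).subtype).codRestrict _ fun x => Subgroup.mem_map_of_mem π x.2
  have hgb : Function.Bijective g := by
    refine ⟨(injective_iff_map_eq_one g).2 fun x hx => Subtype.ext ?_, fun y => ?_⟩
    · have h1 : (x : G) ∈ (P : Subgroup G) ⊓ M :=
        ⟨x.2, hker ▸ (congrArg Subtype.val hx : π (x : G) = 1)⟩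
      rw [hPM, Subgroup.mem_bot] at h1
      exact h1
    · obtain ⟨x, hx, e⟩ := y.2
      exact ⟨⟨x, hx⟩, Subtype.ext e⟩
  have hP2 : PTwo (P : Subgroup G) ↔ PTwo Pb :=
    ⟨pTwo_of_surjective g hgb.2,
      pTwo_of_surjective (MulEquiv.ofBijective g hgb).symm.toMonoidHom
        (MulEquiv.ofBijective g hgb).symm.surjective⟩
  have hab' : IsMulCommutative M := ⟨⟨hab⟩⟩
  refine ⟨fun hall => ?_, fun ⟨h2, hNP⟩ => ?_⟩
  · -- self-normalising
    have hallb : AllReal (G ⧸ M) := fun χ hχ y => by
      obtain ⟨x, rfl⟩ := hπs y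
      refine hall (irrEquivQuotient M χ : IrrCharacter G) ?_ x
      rwa [charDegree, irrEquivQuotient_apply, QuotientGroup.mk_one]
    obtain ⟨h2, hNP⟩ := hiff.1 hallb
    refine ⟨hP2.2 h2, le_antisymm ?_ Subgroup.le_normalizer⟩
    intro n hn
    have h1 : π n ∈ Pb := hNP ▸ map_normalizer_sylow P π hπs ▸ Subgroup.mem_map_of_mem π hn
    obtain ⟨u, hu, e⟩ := h1
    have hmM : u⁻¹ * n ∈ M := hker ▸ (by rw [MonoidHom.mem_ker, map_mul, map_inv, e, inv_mul_cancel])
    set m : M := ⟨u⁻¹ * n, hmM⟩ with hm
    have hmN : (m : G) ∈ N := N.mul_mem (N.inv_mem (Subgroup.le_normalizer hu)) hn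
    suffices hm1 : m = 1 by
      have h3 : u⁻¹ * n = 1 := congrArg Subtype.val hm1
      rw [← inv_mul_eq_one.1 h3]
      exact hu
    -- `m` is centralised by `P`
    have hcent : ∀ v ∈ (P : Subgroup G), v * (m : G) * v⁻¹ = m := by
      intro v hv
      have h3 : v * (m : G) * v⁻¹ * (m : G)⁻¹ ∈ (P : Subgroup G) ⊓ M := by
        refine ⟨?_, M.mul_mem (hM.conj_mem _ m.2 v) (M.inv_mem m.2)⟩
        have := (P : Subgroup G).mul_mem hv
          ((Subgroup.mem_normalizer_iff.1 hmN v⁻¹).1 ((P : Subgroup G).inv_mem hv))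
        rwa [← mul_assoc, ← mul_assoc] at this
      rw [hPM, Subgroup.mem_bot, mul_inv_eq_one] at h3
      exact h3
    by_contra hm1
    let _ : CommGroup M := { (inferInstance : Group M) with mul_comm := hab }
    obtain ⟨f, hfm⟩ := CommGroup.exists_apply_ne_one_of_hasEnoughRootsOfUnity M ℂ hm1
    letI := Fintype.ofFinite (P : Subgroup G)
    -- an invariant character
    let lam : M →* ℂˣ := ∏ v : (P : Subgroup G), conjHom M (v : G) f
    have hlam : lam m ≠ 1 := by
      have h3 : lam m = f m ^ Nat.card (P : Subgroup G) := by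
        simp only [lam, MonoidHom.finsetProd_apply, conjHom_apply]
        rw [Finset.prod_congr rfl (g := fun _ => f m), Finset.prod_const, Finset.card_univ,
          Nat.card_eq_fintype_card]
        exact fun v _ => congrArg f (Subtype.ext (hcent v v.2))
      rw [h3]
      intro h4
      apply hfm
      have h5 : f m ^ Nat.card M = 1 := by rw [← map_pow, pow_card_eq_one', map_one]
      obtain ⟨k, hk⟩ := IsPGroup.iff_card.1 P.isPGroup'
      rw [hk] at h4
      have := pow_gcd_eq_one.2 ⟨h4, h5⟩
      rwa [((Nat.coprime_two_left.2 hodd).pow_left k).gcd_eq_one, pow_one] at this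
    have hlamP : ∀ v ∈ (P : Subgroup G), ∀ x : M,
        lam ⟨v * x * v⁻¹, hM.conj_mem (x : G) x.2 v⟩ = lam x := by
      intro v hv x
      simp only [lam, MonoidHom.finsetProd_apply, conjHom_apply]
      refine Fintype.prod_equiv (Equiv.mulRight ⟨v, hv⟩) _ _ fun w => ?_
      exact congrArg f (Subtype.ext (by simp [mul_assoc]))
    -- extend to `P M`
    set H : Subgroup G := (P : Subgroup G) ⊔ M with hH
    haveI : (M.subgroupOf H).Normal := Subgroup.normal_subgroupOf
    let lamH : M.subgroupOf H →* ℂˣ :=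
      lam.comp (Subgroup.subgroupOfEquivOfLe (show M ≤ H from le_sup_right)).toMonoidHom
    have hinv : ∀ (x : H) (y : M.subgroupOf H),
        lamH ⟨x * y * x⁻¹, Subgroup.Normal.conj_mem inferInstance (y : H) y.2 x⟩ = lamH y := by
      intro x y
      obtain ⟨v, hv, z, hz, e⟩ : ∃ v ∈ (P : Subgroup G), ∃ z ∈ M, v * z = (x : G) := by
        exact Subgroup.mem_sup_of_normal_right.1 x.2
      have hy : ((y : H) : G) ∈ M := y.2
      show lam ⟨(x : G) * ((y : H) : G) * (x : G)⁻¹, _⟩ = lam ⟨((y : H) : G), _⟩
      rw [← hlamP v hv ⟨((y : H) : G), hy⟩]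
      refine congrArg lam (Subtype.ext ?_)
      show (x : G) * ((y : H) : G) * (x : G)⁻¹ = v * ((y : H) : G) * v⁻¹
      have hzy : z * ((y : H) : G) * z⁻¹ = ((y : H) : G) := by
        rw [show z * ((y : H) : G) = ((y : H) : G) * z from
          congrArg Subtype.val (hab ⟨z, hz⟩ ⟨_, hy⟩), mul_inv_cancel_right]
      rw [← e]
      calc v * z * ((y : H) : G) * (v * z)⁻¹ = v * (z * ((y : H) : G) * z⁻¹) * v⁻¹ := by group
        _ = _ := by rw [hzy]
    have hcop : Nat.Coprime (M.subgroupOf H).index (orderOf lamH) := by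
      obtain ⟨k, hk⟩ := IsPGroup.iff_card.1 P.isPGroup'
      have h3 : (M.subgroupOf H).index ∣ 2 ^ k := by
        rw [← hk]
        show M.relIndex H ∣ _
        rw [hH, Subgroup.relIndex_sup_right]
        exact Subgroup.relIndex_dvd_card M _
      refine Nat.Coprime.coprime_dvd_left h3 (Nat.Coprime.pow_left k ?_)
      refine Nat.Coprime.coprime_dvd_right ?_ (Nat.coprime_two_left.2 hodd)
      refine orderOf_dvd_of_pow_eq_one (MonoidHom.ext fun y => ?_)
      rw [MonoidHom.one_apply, show (lamH ^ Nat.card M) y = lamH y ^ Nat.card M from rfl]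
      show lam _ ^ Nat.card M = 1
      rw [← map_pow, pow_card_eq_one', map_one]
    obtain ⟨θ, ⟨hθ, -⟩, -⟩ := CharExt.exists_unique_coprime_extension _ lamH hinv hcop
    letI := Fintype.ofFinite H
    -- an odd-degree constituent of the induced character
    obtain ⟨c, hcs, hc'⟩ := isCharacter_exists_coeff
      (CharInd.isCharacter_indFun H (isCharacter_of_irr (val_irr θ)))
    have hdeg := congrFun hcs 1
    rw [CharInd.indFun_one_apply, val, map_one, Units.val_one, mul_one, Finset.sum_apply,
      Finset.sum_congr rfl (g := fun ξ : IrrCharacter G =>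
        ((c ξ * charDegree (ξ : G → ℂ) : ℕ) : ℂ)) fun ξ _ => by
          rw [Pi.smul_apply, nsmul_eq_mul, RealChar.eq_charDegree (isCharacter_of_irr ξ.2),
            Nat.cast_mul], ← Nat.cast_sum, Nat.cast_inj] at hdeg
    obtain ⟨χ, hχ⟩ : ∃ χ : IrrCharacter G, Odd (c χ * charDegree (χ : G → ℂ)) := by
      by_contra hcon
      push Not at hcon
      have hevenH : Even H.index := hdeg ▸
        Finset.even_sum _ fun ξ _ => Nat.not_odd_iff_even.1 (hcon ξ)
      exact P.not_dvd_index (hevenH.two_dvd.trans (Subgroup.index_dvd_of_le le_sup_left))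
    have hχo := (Nat.odd_mul.1 hχ).2
    have hreal := hall χ hχo
    have hne : ∑ᶠ x : H, (χ : G → ℂ) x * conj (θ x : ℂ) ≠ 0 := by
      have h3 := hc' χ
      rw [CharInd.classInner_indFun_left H _ (irr_isClassFunction χ.2), classInner] at h3
      have hc0 : (c χ : ℂ) ≠ 0 := Nat.cast_ne_zero.2 fun e => by
        rw [e, zero_mul] at hχ; exact absurd hχ (by decide)
      rw [← h3] at hc0
      rw [finsum_eq_sum_of_fintype]
      intro h4
      apply (mul_ne_zero_iff.1 hc0).2
      have h5 := congrArg conj h4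
      rw [map_sum, map_zero] at h5
      refine Eq.trans (Finset.sum_congr rfl fun x _ => ?_) h5
      rw [map_mul, Complex.conj_conj, val, mul_comm]
    have hov := over_of_sum_ne_zero M H le_sup_right θ (isCharacter_of_irr χ.2) hne
    have hlamθ : θ.comp (Subgroup.inclusion (show M ≤ H from le_sup_right)) = lam :=
      MonoidHom.ext fun y => hθ ⟨⟨y, Subgroup.mem_sup_right y.2⟩, y.2⟩
    rw [hlamθ] at hov
    have htriv := triv_of_odd M χ.2 ⟨hreal, hχo⟩ hab hodd
    letI := Fintype.ofFinite M
    rw [Over, finsum_eq_sum_of_fintype] at hov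
    apply hov
    rw [Finset.sum_congr rfl (g := fun y : M => (χ : G → ℂ) 1 * conj (lam y : ℂ)) fun y _ => by
      rw [htriv y y.2], ← Finset.mul_sum, ← map_sum,
      monoidHom_sum_eq_zero (fun e => hlam (by rw [e, MonoidHom.one_apply])), map_zero, mul_zero]
  · -- all real
    intro χ hχ
    have hallb : AllReal (G ⧸ M) := hiff.2 ⟨hP2.1 h2, by
      rw [← map_normalizer_sylow P π hπs, ← hN, hNP]; rfl⟩
    obtain ⟨lam, hov, hfix⟩ := exists_fixed_over M hab χ.2 hχ P P.isPGroup'
    letI := Fintype.ofFinite (P : Subgroup G)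
    have hlam : ∀ x : M, lam x = 1 := by
      intro x
      let _ : CommGroup M := { (inferInstance : Group M) with mul_comm := hab }
      let s : M := ∏ v : (P : Subgroup G),
        (⟨(v : G) * x * (v : G)⁻¹, hM.conj_mem (x : G) x.2 v⟩ : M)
      have hs1 : s = 1 := by
        have hc : ∀ v ∈ (P : Subgroup G), v * (s : G) * v⁻¹ = s := by
          intro v hv
          have h3 : MulAut.conjNormal v s = s := by
            simp only [s, map_prod]
            refine Fintype.prod_equiv (Equiv.mulLeft ⟨v, hv⟩) _ _ fun w => ?_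
            exact Subtype.ext (by simp [mul_assoc])
          have := congrArg Subtype.val h3
          rwa [MulAut.conjNormal_apply] at this
        have hsN : (s : G) ∈ N := by
          refine Subgroup.mem_normalizer_fintype fun v hv => ?_
          have := hc v hv
          rw [mul_inv_eq_iff_eq_mul] at this
          rw [← this, mul_inv_cancel_right]
          exact hv
        have h4 : (s : G) ∈ (P : Subgroup G) ⊓ M := ⟨hNP ▸ hsN, s.2⟩
        rw [hPM, Subgroup.mem_bot] at h4
        exact Subtype.ext h4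
      have h5 : lam x ^ Nat.card (P : Subgroup G) = 1 := by
        rw [← map_one lam, ← hs1]
        simp only [s, map_prod]
        rw [Finset.prod_congr rfl (g := fun _ => lam x), Finset.prod_const, Finset.card_univ,
          Nat.card_eq_fintype_card]
        exact fun v _ => (mem_stabHom M).1 (hfix v.2) x
      have h6 : lam x ^ Nat.card M = 1 := by rw [← map_pow, pow_card_eq_one', map_one]
      obtain ⟨k, hk⟩ := IsPGroup.iff_card.1 P.isPGroup'
      rw [hk] at h5
      have := pow_gcd_eq_one.2 ⟨h5, h6⟩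
      rwa [((Nat.coprime_two_left.2 hodd).pow_left k).gcd_eq_one, pow_one] at this
    have hinv : stabHom M lam = ⊤ := eq_top_iff.2 fun g _ => (mem_stabHom M).2 fun y => by
      rw [hlam, hlam]
    have htriv : ∀ n ∈ M, (χ : G → ℂ) n = (χ : G → ℂ) 1 := fun n hn => by
      rw [over_val_inv M hinv χ.2 hov ⟨n, hn⟩, hlam, Units.val_one, mul_one]
    obtain ⟨ψ, hψ, hval⟩ := irr_exists_descend χ.2 M htriv
    intro x
    rw [hval]
    refine hallb ⟨ψ, hψ⟩ ?_ _
    show Odd (charDegree ψ)
    rw [charDegree, show ψ 1 = (χ : G → ℂ) 1 from (hval 1).symm]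
    exact hχ

end OddM

end Cfsg.Agent.RealDeg.OddDeg
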