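import Cfsg.Agent.RealDeg.OddMain

/-!
# The step over a minimal normal 2-subgroup, and the conclusion
-/

set_option autoImplicit false
set_option linter.style.haveILetI false
set_option linter.unusedSectionVars false

open scoped ComplexConjugate
open Cfsg Cfsg.Agent.Char

namespace Cfsg.Agent.RealDeg.OddDeg

universe u

variable {G : Type u} [Group G] [Finite G]

/-- An odd-degree constituent of a character induced from a subgroup of odd index. -/
theorem exists_odd_constituent (H : Subgroup G) (hH : Odd H.index) (θ : H →* ℂˣ) :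
    ∃ χ : IrrCharacter G, Odd (charDegree (χ : G → ℂ)) ∧
      ∑ᶠ x : H, (χ : G → ℂ) x * conj (θ x : ℂ) ≠ 0 := by
  classical
  letI := Fintype.ofFinite G
  letI := Fintype.ofFinite H
  obtain ⟨c, hcs, hc'⟩ := isCharacter_exists_coeff
    (CharInd.isCharacter_indFun H (isCharacter_of_irr (val_irr θ)))
  have hdeg := congrFun hcs 1
  rw [CharInd.indFun_one_apply, val, map_one, Units.val_one, mul_one, Finset.sum_apply,
    Finset.sum_congr rfl (g := fun ξ : IrrCharacter G =>
      ((c ξ * charDegree (ξ : G → ℂ) : ℕ) : ℂ)) fun ξ _ => by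
        rw [Pi.smul_apply, nsmul_eq_mul, RealChar.eq_charDegree (isCharacter_of_irr ξ.2),
          Nat.cast_mul], ← Nat.cast_sum, Nat.cast_inj] at hdeg
  obtain ⟨χ, hχ⟩ : ∃ χ : IrrCharacter G, Odd (c χ * charDegree (χ : G → ℂ)) := by
    by_contra hcon
    push Not at hcon
    exact (Nat.not_even_iff_odd.2 hH)
      (hdeg ▸ Finset.even_sum _ fun ξ _ => Nat.not_odd_iff_even.1 (hcon ξ))
  refine ⟨χ, (Nat.odd_mul.1 hχ).2, ?_⟩
  have h3 := hc' χ
  rw [CharInd.classInner_indFun_left H _ (irr_isClassFunction χ.2), classInner] at h3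
  have hc0 : (c χ : ℂ) ≠ 0 := Nat.cast_ne_zero.2 fun e => by
    rw [e, zero_mul] at hχ; exact absurd hχ (by decide)
  rw [← h3] at hc0
  rw [finsum_eq_sum_of_fintype]
  intro h4
  apply (mul_ne_zero_iff.1 hc0).2
  have h5 := congrArg conj h4
  rw [map_sum, map_zero] at h5
  refine Eq.trans (Finset.sum_congr rfl fun x _ => ?_) h5
  rw [map_mul, Complex.conj_conj, val, mul_comm]

variable (M : Subgroup G) [hM : M.Normal] (hab : ∀ a b : M, a * b = b * a)
  (hsq : ∀ m ∈ M, m ^ 2 = 1) (P : Sylow 2 G) (hMP : M ≤ (P : Subgroup G))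

include hsq in
theorem lam_sq (lam : M →* ℂˣ) : lam * lam = 1 := MonoidHom.ext fun m => by
  rw [MonoidHom.mul_apply, MonoidHom.one_apply, ← map_mul,
    show m * m = 1 from Subtype.ext (by simpa [sq] using hsq m m.2), map_one]

theorem odd_index_of_le {T : Subgroup G} (hT : (P : Subgroup G) ≤ T) : Odd T.index := by
  haveI : Fact (Nat.Prime 2) := ⟨Nat.prime_two⟩
  rw [← Nat.not_even_iff_odd]
  exact fun h => P.not_dvd_index (h.two_dvd.trans (Subgroup.index_dvd_of_le hT))

theorem odd_relIndex_of_le {T : Subgroup G} (hT : (P : Subgroup G) ≤ T) :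
    Odd ((P : Subgroup G).subgroupOf T).index := by
  haveI : Fact (Nat.Prime 2) := ⟨Nat.prime_two⟩
  rw [← Nat.not_even_iff_odd]
  exact fun h => P.not_dvd_index
    (h.two_dvd.trans (Dvd.intro _ (Subgroup.relIndex_mul_index hT)))

/-- `lam` on `M` seen inside a larger subgroup. -/
noncomputable def lamIn {H : Subgroup G} (hMH : M ≤ H) (lam : M →* ℂˣ) : M.subgroupOf H →* ℂˣ :=
  lam.comp (Subgroup.subgroupOfEquivOfLe hMH).toMonoidHom

theorem mem_stab_lamIn {H : Subgroup G} (hMH : M ≤ H) (lam : M →* ℂˣ) (x : H) :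
    x ∈ stabHom (M.subgroupOf H) (lamIn M hMH lam) ↔ (x : G) ∈ stabHom M lam := by
  rw [mem_stabHom, mem_stabHom]
  exact ⟨fun h m => h ⟨⟨m, hMH m.2⟩, m.2⟩, fun h m => h ⟨((m : H) : G), m.2⟩⟩

/-- The group to which induction applies: the stabiliser modulo `M`. -/
theorem card_quot_lt (hne : M ≠ ⊥) {T : Subgroup G} (hMT : M ≤ T) :
    Nat.card (T ⧸ M.subgroupOf T) < Nat.card G := by
  have h1 := Subgroup.card_eq_card_quotient_mul_card_subgroup (M.subgroupOf T)
  have h2 : Nat.card (M.subgroupOf T) = Nat.card M :=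
    Nat.card_congr (Subgroup.subgroupOfEquivOfLe hMT).toEquiv
  have h3 : 1 < Nat.card M := Subgroup.one_lt_card_iff_ne_bot _ |>.2 hne
  have h4 : Nat.card T ≤ Nat.card G := Nat.le_of_dvd Nat.card_pos T.card_subgroup_dvd_card
  have h5 : 0 < Nat.card (T ⧸ M.subgroupOf T) := Nat.card_pos
  rw [h2] at h1
  nlinarith

include hab hsq hMP in
theorem card_fibre [Group.IsSolvable G] (hne : M ≠ ⊥)
    (ih : ∀ (B : Type u) [Group B] [Finite B] [Group.IsSolvable B], Nat.card B < Nat.card G →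
      Good B)
    (lam : M →* ℂˣ) (hP : (P : Subgroup G) ≤ stabHom M lam) :
    Nat.card {χ : IrrCharacter G // RealOdd (χ : G → ℂ) ∧ Over M lam (χ : G → ℂ)} =
      Nat.card {η : IrrCharacter (Subgroup.normalizer ((P : Subgroup G) : Set G)) //
        RealOdd (η : Subgroup.normalizer ((P : Subgroup G) : Set G) → ℂ) ∧
        Over (M.subgroupOf (Subgroup.normalizer ((P : Subgroup G) : Set G)))
          (lamIn M (hMP.trans Subgroup.le_normalizer) lam)
          (η : Subgroup.normalizer ((P : Subgroup G) : Set G) → ℂ)} := by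
  classical
  haveI : Fact (Nat.Prime 2) := ⟨Nat.prime_two⟩
  letI := Fintype.ofFinite G
  set N := Subgroup.normalizer ((P : Subgroup G) : Set G) with hN
  letI := Fintype.ofFinite N
  have hMN : M ≤ N := hMP.trans Subgroup.le_normalizer
  haveI : (M.subgroupOf N).Normal := Subgroup.normal_subgroupOf
  have h2 := lam_sq M hsq lam
  have h2N : lamIn M hMN lam * lamIn M hMN lam = 1 := MonoidHom.ext fun m =>
    DFunLike.congr_fun h2 _
  set T := stabHom M lam with hT
  set A := stabHom (M.subgroupOf N) (lamIn M hMN lam) with hA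
  have hAT : ∀ a : A, ((a : N) : G) ∈ T := fun a => (mem_stab_lamIn M hMN lam _).1 a.2
  have hPA : ∀ (x : G) (hx : x ∈ (P : Subgroup G)), (⟨x, Subgroup.le_normalizer hx⟩ : N) ∈ A :=
    fun x hx => (mem_stab_lamIn M hMN lam _).2 (hP hx)
  have hAodd : Odd A.index := by
    refine (odd_relIndex_of_le P (show (P : Subgroup G) ≤ N from Subgroup.le_normalizer)).of_dvd_nat
      (Subgroup.index_dvd_of_le fun x hx => hPA (x : G) hx)
  rw [card_over_eq_stab M lam h2 (odd_index_of_le P hP),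
    card_over_eq_stab (M.subgroupOf N) (lamIn M hMN lam) h2N hAodd]
  have hinvT := stabHom_lamT M lam
  have hinvA := stabHom_lamT (M.subgroupOf N) (lamIn M hMN lam)
  haveI : (M.subgroupOf T).Normal := Subgroup.normal_subgroupOf
  haveI : ((M.subgroupOf N).subgroupOf A).Normal := Subgroup.normal_subgroupOf
  let j : A →* T :=
    { toFun := fun a => ⟨((a : N) : G), hAT a⟩
      map_one' := rfl
      map_mul' := fun _ _ => rfl }
  by_cases hext : ∃ μ : T →* ℂˣ, (∀ m : M.subgroupOf T, μ m = lamT M lam m) ∧ μ * μ = 1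
  · obtain ⟨μ, hμ, hμ2⟩ := hext
    have hμA : ∀ m : (M.subgroupOf N).subgroupOf A,
        (μ.comp j) m = lamT (M.subgroupOf N) (lamIn M hMN lam) m := fun m =>
      hμ ⟨j m, m.2⟩
    rw [card_over_of_ext hinvT μ hμ2 hμ, card_over_of_ext hinvA (μ.comp j)
      (MonoidHom.ext fun a => DFunLike.congr_fun hμ2 (j a)) hμA]
    set π := QuotientGroup.mk' (M.subgroupOf T) with hπ
    have hπs : Function.Surjective π := QuotientGroup.mk'_surjective _
    haveI : Group.IsSolvable (T ⧸ M.subgroupOf T) := Group.isSolvable_of_surjective hπs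
    have hgood := (ih _ (card_quot_lt M hne (le_stabHom M lam)) ((P.subtype hP).mapSurjective hπs)).1
    have hkerT : π.ker = M.subgroupOf T := QuotientGroup.ker_mk' _
    rw [show Nat.card {χ : IrrCharacter T // RealOdd (χ : T → ℂ) ∧
        Triv (M.subgroupOf T) (χ : T → ℂ)} = cRO (T ⧸ M.subgroupOf T) by
      rw [cRO, card_of_surjective π hπs, hkerT], hgood]
    let e : A →* Subgroup.normalizer (((P.subtype hP : Sylow 2 T) : Subgroup T) : Set T) :=
      j.codRestrict _ fun a => by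
        refine Subgroup.mem_normalizer_fintype fun x hx => ?_
        show ((a : N) : G) * (x : G) * ((a : N) : G)⁻¹ ∈ (P : Subgroup G)
        exact (Subgroup.mem_normalizer_iff.1 (a : N).2 _).1 hx
    have he : Function.Surjective e := by
      rintro ⟨t, ht⟩
      have htN : (t : G) ∈ N := Subgroup.mem_normalizer_fintype fun x hx =>
        (Subgroup.mem_normalizer_iff.1 ht ⟨x, hP hx⟩).1 hx
      exact ⟨⟨⟨t, htN⟩, (mem_stab_lamIn M hMN lam _).2 t.2⟩, Subtype.ext (Subtype.ext rfl)⟩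
    set f := (normMap (P.subtype hP) π hπs).comp e with hf
    have hfs : Function.Surjective f := (normMap_surjective _ π hπs).comp he
    have hfk : f.ker = (M.subgroupOf N).subgroupOf A := by
      ext a
      rw [hf, MonoidHom.mem_ker, MonoidHom.comp_apply, ← MonoidHom.mem_ker, mem_ker_normMap,
        ← MonoidHom.mem_ker, hkerT]
      rfl
    rw [cRO, card_of_surjective f hfs, hfk]
  · -- both sides are empty
    have hL : IsEmpty {ψ : IrrCharacter T // RealOdd (ψ : T → ℂ) ∧
        Over (M.subgroupOf T) (lamT M lam) (ψ : T → ℂ)} := by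
      refine ⟨fun ψ => hext ?_⟩
      obtain ⟨μ, hμ, hμr⟩ := exists_det_ext hinvT
        (MonoidHom.ext fun m => DFunLike.congr_fun h2 _) ψ.1.2 ψ.2.1.2 ψ.2.2
      exact ⟨μ, hμ, hμr ψ.2.1.1⟩
    have hR : IsEmpty {ψ : IrrCharacter A // RealOdd (ψ : A → ℂ) ∧
        Over ((M.subgroupOf N).subgroupOf A) (lamT (M.subgroupOf N) (lamIn M hMN lam))
          (ψ : A → ℂ)} := by
      refine ⟨fun ψ => hext ?_⟩
      obtain ⟨μ, hμ, hμr⟩ := exists_det_ext hinvA
        (MonoidHom.ext fun m => DFunLike.congr_fun h2N _) ψ.1.2 ψ.2.1.2 ψ.2.2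
      let i : (P : Subgroup G).subgroupOf T →* A :=
        { toFun := fun x => ⟨⟨((x : T) : G), Subgroup.le_normalizer x.2⟩, hPA _ x.2⟩
          map_one' := rfl
          map_mul' := fun _ _ => rfl }
      refine exists_real_ext hinvT (MonoidHom.ext fun m => DFunLike.congr_fun h2 _)
        ((P : Subgroup G).subgroupOf T) (Subgroup.comap_mono hMP) (odd_relIndex_of_le P hP)
        (μ.comp i) (MonoidHom.ext fun x => DFunLike.congr_fun (hμr ψ.2.1.1) (i x)) fun m => ?_
      exact hμ ⟨i ⟨(m : T), hMP m.2⟩, m.2⟩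
    rw [Nat.card_of_isEmpty, Nat.card_of_isEmpty]

include hab hsq hMP in
theorem cRO_two [Group.IsSolvable G] (hne : M ≠ ⊥)
    (ih : ∀ (B : Type u) [Group B] [Finite B] [Group.IsSolvable B], Nat.card B < Nat.card G →
      Good B) :
    cRO G = cRO (Subgroup.normalizer ((P : Subgroup G) : Set G)) := by
  classical
  haveI : Fact (Nat.Prime 2) := ⟨Nat.prime_two⟩
  set N := Subgroup.normalizer ((P : Subgroup G) : Set G) with hN
  have hMN : M ≤ N := hMP.trans Subgroup.le_normalizer
  haveI : (M.subgroupOf N).Normal := Subgroup.normal_subgroupOf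
  let ΦG : {χ : IrrCharacter G // RealOdd (χ : G → ℂ)} → Set (M →* ℂˣ) := fun χ =>
    {lam | Over M lam (χ.1 : G → ℂ) ∧ (P : Subgroup G) ≤ stabHom M lam}
  let ΦN : {η : IrrCharacter N // RealOdd (η : N → ℂ)} → Set (M →* ℂˣ) := fun η =>
    {lam | Over (M.subgroupOf N) (lamIn M hMN lam) (η.1 : N → ℂ) ∧
      (P : Subgroup G) ≤ stabHom M lam}
  let orb : (M →* ℂˣ) → Set (M →* ℂˣ) := fun lam => {l | ∃ n ∈ N, conjHom M n lam = l}
  have hstabN : ∀ (lam : M →* ℂˣ), (P : Subgroup G) ≤ stabHom M lam → ∀ n ∈ N,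
      (P : Subgroup G) ≤ stabHom M (conjHom M n lam) := fun lam h n hn u hu =>
    (mem_stabHom_conjHom M).2 (h ((Subgroup.mem_normalizer_iff.1 hn u).1 hu))
  have hG : ∀ χ lam, lam ∈ ΦG χ → ΦG χ = orb lam := by
    intro χ lam ⟨hov, hfix⟩
    ext l
    refine ⟨fun ⟨hov', hfix'⟩ => ?_, ?_⟩
    · obtain ⟨x, hx⟩ := exists_conj_of_over M χ.1.2 hov hov'
      exact exists_normalizer_conj M P hfix hfix'
        (MonoidHom.ext fun m => (conjHom_apply M x lam m).trans (hx m).symm)
    · rintro ⟨n, hn, rfl⟩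
      exact ⟨over_conjHom M (irr_isClassFunction χ.1.2) hov n, hstabN lam hfix n hn⟩
  have hNN : ∀ η lam, lam ∈ ΦN η → ΦN η = orb lam := by
    intro η lam ⟨hov, hfix⟩
    ext l
    refine ⟨fun ⟨hov', _⟩ => ?_, ?_⟩
    · obtain ⟨x, hx⟩ := exists_conj_of_over (M.subgroupOf N) η.1.2 hov hov'
      exact ⟨x, x.2, MonoidHom.ext fun m =>
        (conjHom_apply M x lam m).trans (hx ⟨⟨m, hMN m.2⟩, m.2⟩).symm⟩
    · rintro ⟨n, hn, rfl⟩
      refine ⟨?_, hstabN lam hfix n hn⟩
      have h1 : lamIn M hMN (conjHom M n lam) =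
          conjHom (M.subgroupOf N) ⟨n, hn⟩ (lamIn M hMN lam) := MonoidHom.ext fun m => by
        rw [conjHom_apply]
        exact conjHom_apply M n lam ⟨((m : N) : G), m.2⟩
      rw [h1]
      exact over_conjHom _ (irr_isClassFunction η.1.2) hov _
  have hfibG : ∀ lam, (P : Subgroup G) ≤ stabHom M lam →
      Nat.card {χ // ΦG χ = orb lam} =
        Nat.card {χ : IrrCharacter G // RealOdd (χ : G → ℂ) ∧ Over M lam (χ : G → ℂ)} := by
    intro lam hfix
    refine Eq.trans (Nat.card_congr (Equiv.subtypeEquivRight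
      (q := fun χ => Over M lam (χ.1 : G → ℂ)) fun χ => ?_))
        (Nat.card_congr (Equiv.subtypeSubtypeEquivSubtypeInter _ fun χ : IrrCharacter G =>
          Over M lam (χ : G → ℂ)))
    refine ⟨fun h => ?_, fun h => hG χ lam ⟨h, hfix⟩⟩
    have : lam ∈ ΦG χ := h ▸ ⟨1, N.one_mem, (mem_stabHom_iff M).1 (stabHom M lam).one_mem⟩
    exact this.1
  have hfibN : ∀ lam, (P : Subgroup G) ≤ stabHom M lam →
      Nat.card {η // ΦN η = orb lam} =
        Nat.card {η : IrrCharacter N // RealOdd (η : N → ℂ) ∧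
          Over (M.subgroupOf N) (lamIn M hMN lam) (η : N → ℂ)} := by
    intro lam hfix
    refine Eq.trans (Nat.card_congr (Equiv.subtypeEquivRight
      (q := fun η => Over (M.subgroupOf N) (lamIn M hMN lam) (η.1 : N → ℂ)) fun η => ?_))
        (Nat.card_congr (Equiv.subtypeSubtypeEquivSubtypeInter _ fun η : IrrCharacter N =>
          Over (M.subgroupOf N) (lamIn M hMN lam) (η : N → ℂ)))
    refine ⟨fun h => ?_, fun h => hNN η lam ⟨h, hfix⟩⟩
    have : lam ∈ ΦN η := h ▸ ⟨1, N.one_mem, (mem_stabHom_iff M).1 (stabHom M lam).one_mem⟩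
    exact this.1
  have hneG : ∀ χ, ∃ lam, lam ∈ ΦG χ := fun χ =>
    exists_fixed_over M hab χ.1.2 χ.2.2 P P.isPGroup'
  have hneN : ∀ η, ∃ lam, lam ∈ ΦN η := by
    intro η
    obtain ⟨μ, hov, hfix⟩ := exists_fixed_over (M.subgroupOf N)
      (fun a b => (Subgroup.subgroupOfEquivOfLe hMN).injective (by rw [map_mul, map_mul, hab]))
      η.1.2 η.2.2 ((P : Subgroup G).subgroupOf N) (P.isPGroup'.comap_subtype)
    refine ⟨μ.comp (Subgroup.subgroupOfEquivOfLe hMN).symm.toMonoidHom, ?_, fun u hu => ?_⟩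
    · have h1 : lamIn M hMN (μ.comp (Subgroup.subgroupOfEquivOfLe hMN).symm.toMonoidHom) = μ :=
        MonoidHom.ext fun m => rfl
      rw [h1]; exact hov
    · exact (mem_stab_lamIn M hMN _ ⟨u, Subgroup.le_normalizer hu⟩).1 (hfix hu)
  have hcount : ∀ q : Set (M →* ℂˣ),
      Nat.card {χ // ΦG χ = q} = Nat.card {η // ΦN η = q} := by
    intro q
    by_cases hq : ∃ lam, (P : Subgroup G) ≤ stabHom M lam ∧ orb lam = q
    · obtain ⟨lam, hfix, rfl⟩ := hq
      rw [hfibG lam hfix, hfibN lam hfix]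
      exact card_fibre M hab hsq P hMP hne ih lam hfix
    · haveI : IsEmpty {χ // ΦG χ = q} := ⟨fun ⟨χ, h⟩ => hq (by
        obtain ⟨lam, hl⟩ := hneG χ
        exact ⟨lam, hl.2, (hG χ lam hl).symm.trans h⟩)⟩
      haveI : IsEmpty {η // ΦN η = q} := ⟨fun ⟨η, h⟩ => hq (by
        obtain ⟨lam, hl⟩ := hneN η
        exact ⟨lam, hl.2, (hNN η lam hl).symm.trans h⟩)⟩
      rw [Nat.card_of_isEmpty, Nat.card_of_isEmpty]
  exact Nat.card_congr (Equiv.ofFiberEquiv (f := ΦG) (g := ΦN) fun q =>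
    Classical.choice ((Finite.card_eq).1 (hcount q)))

include hab hsq hMP in
theorem allReal_two [Group.IsSolvable G] (hne : M ≠ ⊥)
    (ih : ∀ (B : Type u) [Group B] [Finite B] [Group.IsSolvable B], Nat.card B < Nat.card G →
      Good B) :
    AllReal G ↔ PTwo (P : Subgroup G) ∧
      Subgroup.normalizer ((P : Subgroup G) : Set G) = (P : Subgroup G) := by
  classical
  haveI : Fact (Nat.Prime 2) := ⟨Nat.prime_two⟩
  letI := Fintype.ofFinite G
  set N := Subgroup.normalizer ((P : Subgroup G) : Set G) with hN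
  constructor
  · intro hall
    set π := QuotientGroup.mk' M with hπ
    have hπs : Function.Surjective π := QuotientGroup.mk'_surjective M
    have hker : π.ker = M := QuotientGroup.ker_mk' M
    haveI : Group.IsSolvable (G ⧸ M) := Group.isSolvable_of_surjective hπs
    have hlt : Nat.card (G ⧸ M) < Nat.card G := by
      have h1 := Subgroup.card_eq_card_quotient_mul_card_subgroup M
      have h3 : 1 < Nat.card M := Subgroup.one_lt_card_iff_ne_bot _ |>.2 hne
      have h5 : 0 < Nat.card (G ⧸ M) := Nat.card_pos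
      nlinarith
    have hallb : AllReal (G ⧸ M) := fun χ hχ y => by
      obtain ⟨x, rfl⟩ := hπs y
      refine hall (irrEquivQuotient M χ : IrrCharacter G) ?_ x
      rwa [charDegree, irrEquivQuotient_apply, QuotientGroup.mk_one]
    obtain ⟨h2b, hNPb⟩ := (ih _ hlt (P.mapSurjective hπs)).2.1 hallb
    refine ⟨fun θ => ?_, le_antisymm (fun n hn => ?_) Subgroup.le_normalizer⟩
    swap
    · have h1 := hNPb ▸ map_normalizer_sylow P π hπs ▸ Subgroup.mem_map_of_mem π hn
      obtain ⟨u, hu, e⟩ := h1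
      have hmM : u⁻¹ * n ∈ M := hker ▸ (by rw [MonoidHom.mem_ker, map_mul, map_inv, e, inv_mul_cancel])
      simpa using (P : Subgroup G).mul_mem hu (hMP hmM)
    -- linear characters of `P`
    let lam : M →* ℂˣ := θ.comp (Subgroup.inclusion hMP)
    have h2 := lam_sq M hsq lam
    set T := stabHom M lam with hT
    have hfix : (P : Subgroup G) ≤ T := fun u hu => (mem_stabHom M).2 fun m => by
      show θ ⟨u * m * u⁻¹, _⟩ = θ ⟨m, _⟩
      rw [show (⟨u * m * u⁻¹, hMP (hM.conj_mem (m : G) m.2 u)⟩ : (P : Subgroup G)) =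
        ⟨u, hu⟩ * ⟨m, hMP m.2⟩ * ⟨u, hu⟩⁻¹ from Subtype.ext rfl, map_mul, map_mul, map_inv,
        mul_comm (θ ⟨u, hu⟩), mul_inv_cancel_right]
    haveI : (M.subgroupOf T).Normal := Subgroup.normal_subgroupOf
    obtain ⟨ψ, hψo, hψs⟩ := exists_odd_constituent ((P : Subgroup G).subgroupOf T)
      (odd_relIndex_of_le P hfix) (θ.comp (Subgroup.subgroupOfEquivOfLe hfix).toMonoidHom)
    have hov : Over (M.subgroupOf T) (lamT M lam) (ψ : T → ℂ) :=
      over_of_sum_ne_zero (M.subgroupOf T) _ (Subgroup.comap_mono hMP) _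
        (isCharacter_of_irr ψ.2) hψs
    obtain ⟨hirr, -⟩ := ind_irr_over M lam ψ.2 hov
    have hreal : ∀ t, ((ψ : T → ℂ) t).im = 0 :=
      (real_ind_iff M lam h2 ψ.2 hov).1 (hall ⟨_, hirr⟩ (by
        rw [charDegree_ind M lam ψ.2]; exact (odd_index_of_le P hfix).mul hψo))
    obtain ⟨μ, hμ, hμr⟩ := exists_det_ext (stabHom_lamT M lam)
      (MonoidHom.ext fun m => DFunLike.congr_fun h2 _) ψ.2 hψo hov
    have hμ2 := hμr hreal
    let θ' : (P : Subgroup G) →* ℂˣ := θ * μ.comp (Subgroup.inclusion hfix)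
    let g : (P : Subgroup G) →* ((P.mapSurjective hπs : Sylow 2 (G ⧸ M)) : Subgroup (G ⧸ M)) :=
      (π.comp (P : Subgroup G).subtype).codRestrict _ fun x => Subgroup.mem_map_of_mem π x.2
    have hgs : Function.Surjective g := fun y => by
      obtain ⟨x, hx, e⟩ := y.2
      exact ⟨⟨x, hx⟩, Subtype.ext e⟩
    have hgk : g.ker ≤ θ'.ker := fun x hx => by
      have hxM : (x : G) ∈ M := hker ▸ (congrArg Subtype.val hx : π (x : G) = 1)
      show θ x * μ ⟨x, hfix x.2⟩ = 1
      rw [hμ ⟨⟨x, hfix x.2⟩, hxM⟩]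
      show θ x * θ ⟨x, _⟩ = 1
      exact DFunLike.congr_fun h2 ⟨x, hxM⟩
    refine MonoidHom.ext fun x => ?_
    have h3 := DFunLike.congr_fun (h2b (g.liftOfSurjective hgs ⟨θ', hgk⟩)) (g x)
    rw [MonoidHom.mul_apply, MonoidHom.one_apply,
      MonoidHom.liftOfRightInverse_comp_apply] at h3
    have h4 := DFunLike.congr_fun hμ2 ⟨x, hfix x.2⟩
    simp only [θ', MonoidHom.mul_apply, MonoidHom.one_apply, MonoidHom.comp_apply] at h3 h4 ⊢
    rw [mul_mul_mul_comm] at h3
    change θ x * θ x * (μ ⟨x, hfix x.2⟩ * μ ⟨x, hfix x.2⟩) = 1 at h3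
    rwa [h4, mul_one] at h3
  · rintro ⟨hP2, hNP⟩ χ hχ
    obtain ⟨lam, hov, hfix⟩ := exists_fixed_over M hab χ.2 hχ P P.isPGroup'
    have h2 := lam_sq M hsq lam
    set T := stabHom M lam with hT
    haveI : (M.subgroupOf T).Normal := Subgroup.normal_subgroupOf
    obtain ⟨ψ, hψ, hψov, e⟩ := exists_of_over M lam χ.2 hov
    have hψo : Odd (charDegree ψ) := by
      rw [← e, charDegree_ind M lam hψ, Nat.odd_mul] at hχ
      exact hχ.2
    rw [← e]
    refine (real_ind_iff M lam h2 hψ hψov).2 ?_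
    obtain ⟨μ₀, hμ₀, -⟩ := exists_det_ext (stabHom_lamT M lam)
      (MonoidHom.ext fun m => DFunLike.congr_fun h2 _) hψ hψo hψov
    let i : (P : Subgroup G) →* T := Subgroup.inclusion hfix
    obtain ⟨μ, hμ, hμ2⟩ := exists_real_ext (stabHom_lamT M lam)
      (MonoidHom.ext fun m => DFunLike.congr_fun h2 _) ((P : Subgroup G).subgroupOf T)
      (Subgroup.comap_mono hMP) (odd_relIndex_of_le P hfix)
      (μ₀.comp ((P : Subgroup G).subgroupOf T).subtype)
      (MonoidHom.ext fun x => DFunLike.congr_fun (hP2 (μ₀.comp i)) ⟨((x : T) : G), x.2⟩)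
      fun m => hμ₀ m
    set π := QuotientGroup.mk' (M.subgroupOf T) with hπ
    have hπs : Function.Surjective π := QuotientGroup.mk'_surjective _
    haveI : Group.IsSolvable (T ⧸ M.subgroupOf T) := Group.isSolvable_of_surjective hπs
    have hT2 : PTwo (((P.subtype hfix).mapSurjective hπs : Sylow 2 (T ⧸ M.subgroupOf T)) :
        Subgroup (T ⧸ M.subgroupOf T)) := by
      refine pTwo_of_surjective ((π.comp i).codRestrict _ fun x =>
        Subgroup.mem_map_of_mem π (show i x ∈ (P.subtype hfix : Subgroup T) from x.2)) ?_ hP2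
      intro y
      obtain ⟨x, hx, hxy⟩ := y.2
      exact ⟨⟨(x : G), hx⟩, Subtype.ext hxy⟩
    have hTN : Subgroup.normalizer (((P.subtype hfix : Sylow 2 T) : Subgroup T) : Set T) =
        ((P.subtype hfix : Sylow 2 T) : Subgroup T) := by
      refine le_antisymm (fun t ht => ?_) Subgroup.le_normalizer
      show (t : G) ∈ (P : Subgroup G)
      rw [← hNP]
      exact Subgroup.mem_normalizer_fintype fun x hx =>
        (Subgroup.mem_normalizer_iff.1 ht ⟨x, hfix hx⟩).1 hx
    have hall := (ih _ (card_quot_lt M hne (le_stabHom M lam))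
      ((P.subtype hfix).mapSurjective hπs)).2.2 ⟨hT2, by
        rw [← map_normalizer_sylow (P.subtype hfix) π hπs, hTN]; rfl⟩
    intro t
    have hψμ : IsIrrCharacter T (fun s => (μ s : ℂ) * ψ s) := isIrrCharacter_mul_monoidHom hψ μ
    obtain ⟨β, hβ, hval⟩ := irr_exists_descend hψμ (M.subgroupOf T) fun k hk => by
      show (μ k : ℂ) * ψ k = (μ 1 : ℂ) * ψ 1
      rw [hμ ⟨k, hk⟩, over_val_inv _ (stabHom_lamT M lam) hψ hψov ⟨k, hk⟩, map_one,
        Units.val_one, one_mul]
      have h5 := congrArg Units.val (DFunLike.congr_fun h2 (⟨((k : T) : G), hk⟩ : M))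
      simp only [MonoidHom.mul_apply, MonoidHom.one_apply, Units.val_mul, Units.val_one] at h5
      show (lam ⟨((k : T) : G), hk⟩ : ℂ) * (ψ 1 * (lam ⟨((k : T) : G), hk⟩ : ℂ)) = ψ 1
      linear_combination (ψ 1) * h5
    have h6 := hall ⟨β, hβ⟩ (by
      show Odd (charDegree β)
      have e1 : β 1 = ψ 1 := by rw [← QuotientGroup.mk_one, ← hval 1]; simp
      rw [charDegree, e1]; exact hψo) (t : T ⧸ M.subgroupOf T)
    rw [show (⟨β, hβ⟩ : IrrCharacter (T ⧸ M.subgroupOf T)).1 (t : T ⧸ M.subgroupOf T) =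
      (μ t : ℂ) * ψ t from (hval t).symm] at h6
    have h7 := congrArg Units.val (DFunLike.congr_fun hμ2 t)
    simp only [MonoidHom.mul_apply, MonoidHom.one_apply, Units.val_mul, Units.val_one] at h7
    rcases mul_self_eq_one_iff.1 h7 with e7 | e7 <;> rw [e7] at h6 <;> simpa using h6

/-- The theorem, for all finite solvable groups. -/
theorem good_of_solvable : ∀ (n : ℕ) (G : Type u) [Group G] [Finite G] [Group.IsSolvable G],
    Nat.card G ≤ n → Good G := by
  intro n
  induction n with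
  | zero => intro G _ _ _ h; exact absurd h (not_le.2 Nat.card_pos)
  | succ n ih =>
    intro G _ _ _ hn P
    rcases subsingleton_or_nontrivial G with hs | hnt
    · have hN : Subgroup.normalizer ((P : Subgroup G) : Set G) = ⊤ := Subsingleton.elim _ _
      refine ⟨?_, iff_of_true (fun χ _ g => ?_) ⟨fun θ => MonoidHom.ext fun x => ?_,
        Subsingleton.elim _ _⟩⟩
      · rw [hN]
        exact cRO_congr Subgroup.topEquiv
      · rw [Subsingleton.elim g 1]
        obtain ⟨m, -, hm⟩ := irr_one_pos χ.2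
        simp [hm]
      · rw [Subsingleton.elim x 1]; simp
    haveI : Fact (Nat.Prime 2) := ⟨Nat.prime_two⟩
    obtain ⟨M, hMn, hne, -, hcomm, q, hq, hexp, hMq⟩ :=
      MinNormal.exists_elementary_abelian (G := G)
    have hab : ∀ a b : M, a * b = b * a := fun a b => hcomm.is_comm.comm a b
    have ih' : ∀ (B : Type u) [Group B] [Finite B] [Group.IsSolvable B],
        Nat.card B < Nat.card G → Good B := fun B _ _ _ hB => ih B (by omega)
    rcases eq_or_ne q 2 with rfl | hq2
    · have hMP : M ≤ (P : Subgroup G) := IsPGroup.le_sylow_of_normal hMq P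
      exact ⟨cRO_two M hab hexp P hMP hne ih', allReal_two M hab hexp P hMP hne ih'⟩
    · haveI := Fact.mk hq
      obtain ⟨k, hk⟩ := IsPGroup.iff_card.1 hMq
      have hodd : Odd (Nat.card M) := hk ▸ (hq.odd_of_ne_two hq2).pow
      haveI : Group.IsSolvable (G ⧸ M) :=
        Group.isSolvable_of_surjective (QuotientGroup.mk'_surjective M)
      refine good_odd M hab hodd (ih' _ ?_) P
      have h1 := Subgroup.card_eq_card_quotient_mul_card_subgroup M
      have h3 : 1 < Nat.card M := Subgroup.one_lt_card_iff_ne_bot _ |>.2 hne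
      have h5 : 0 < Nat.card (G ⧸ M) := Nat.card_pos
      nlinarith

end Cfsg.Agent.RealDeg.OddDeg
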