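import Cfsg.Agent.RealDeg.Centralise
import Cfsg.Agent.RealChar.OddByTwo

/-!
# Orbits of inverted linear characters
-/

set_option autoImplicit false
set_option linter.style.haveILetI false
set_option linter.unusedSectionVars false

open scoped ComplexConjugate
open Cfsg Cfsg.Agent.Char

namespace Cfsg.Agent.RealDeg

universe u

variable {G : Type u} [Group G] [Finite G]

/-- A complement condition gives a real monomial character of degree the orbit length. -/
theorem exists_real_of_complement (N H : Subgroup G) [hN : N.Normal]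
    (hab : ∀ a b : N, a * b = b * a) (hdis : N ⊓ H = ⊥) (hcov : ∀ x : G, ∃ n ∈ N, n⁻¹ * x ∈ H)
    (f : N →* ℂˣ) (g : G)
    (hg : ∀ n n' : N, (n' : G) = g * n * g⁻¹ → (f n' : ℂ) = conj (f n : ℂ)) :
    ∃ (T : Subgroup G) (χ : IrrCharacter G),
      (∀ x : G, x ∈ T ↔ ∀ n n' : N, (n' : G) = x * n * x⁻¹ → f n' = f n) ∧
      (∀ x : G, ((χ : G → ℂ) x).im = 0) ∧ charDegree (χ : G → ℂ) = T.index := by
  classical
  letI := Fintype.ofFinite G
  letI := Fintype.ofFinite N
  have uniq : ∀ n₁ ∈ N, ∀ n₂ ∈ N, ∀ x : G, n₁⁻¹ * x ∈ H → n₂⁻¹ * x ∈ H → n₁ = n₂ := by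
    intro n₁ h₁ n₂ h₂ x hx₁ hx₂
    have h : n₁⁻¹ * n₂ ∈ N ⊓ H := ⟨N.mul_mem (N.inv_mem h₁) h₂, by
      simpa [mul_assoc] using H.mul_mem hx₁ (H.inv_mem hx₂)⟩
    rw [hdis, Subgroup.mem_bot] at h
    exact inv_mul_eq_one.mp h
  choose dn hdn hdh using hcov
  let T : Subgroup G :=
    { carrier := {x | ∀ n n' : N, (n' : G) = x * n * x⁻¹ → f n' = f n}
      one_mem' := fun n n' h => by
        rw [show n' = n from Subtype.ext (by simpa using h)]
      mul_mem' := fun {a b} ha hb n n' h =>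
        (ha ⟨b * n * b⁻¹, hN.conj_mem n n.2 b⟩ n' (by rw [h]; group)).trans (hb n _ rfl)
      inv_mem' := fun {a} ha n n' h => (ha n' n (by rw [h]; group)).symm }
  have hT : ∀ x : G, x ∈ T ↔ ∀ n n' : N, (n' : G) = x * n * x⁻¹ → f n' = f n := fun x => Iff.rfl
  have hNT : N ≤ T := fun x hx n n' h => by
    have h2 : x * (n : G) = (n : G) * x := congrArg Subtype.val (hab ⟨x, hx⟩ n)
    have : n' = n := Subtype.ext (h.trans (by rw [h2, mul_inv_cancel_right]))
    rw [this]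
  let θ : T →* ℂˣ :=
    { toFun := fun x => f ⟨dn x, hdn x⟩
      map_one' := by
        rw [show (⟨dn ((1 : T) : G), hdn _⟩ : N) = 1 from Subtype.ext
          (uniq _ (hdn _) 1 N.one_mem ((1 : T) : G) (hdh _) (by simp)), map_one]
      map_mul' := fun x y => by
        set n₁ : N := ⟨dn x, hdn _⟩
        set n₂ : N := ⟨dn y, hdn _⟩
        set u := (n₁ : G)⁻¹ * x with hu
        have huT : u ∈ T := T.mul_mem (T.inv_mem (hNT n₁.2)) x.2
        let m : N := ⟨u * n₂ * u⁻¹, hN.conj_mem _ n₂.2 u⟩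
        have hm : f m = f n₂ := (hT u).mp huT n₂ m rfl
        have he : (⟨dn ((x * y : T) : G), hdn _⟩ : N) = n₁ * m := Subtype.ext
          (uniq _ (hdn _) _ (n₁ * m).2 ((x * y : T) : G) (hdh _) (by
            have e : ((n₁ * m : N) : G)⁻¹ * ((x * y : T) : G) = u * ((n₂ : G)⁻¹ * y) := by
              show ((n₁ : G) * (u * n₂ * u⁻¹))⁻¹ * ((x : G) * y) = u * ((n₂ : G)⁻¹ * y)
              rw [hu]; group
            rw [e]
            exact H.mul_mem (hdh x) (hdh y)))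
        show f ⟨dn ((x * y : T) : G), hdn _⟩ = f n₁ * f n₂
        rw [he, map_mul, hm] }
  have hθN : ∀ n : N, θ (Subgroup.inclusion hNT n) = f n := fun n => by
    show f ⟨dn (n : G), hdn _⟩ = f n
    exact congrArg f (Subtype.ext (uniq _ (hdn _) n n.2 (n : G) (hdh _) (by simp)))
  -- replace `g` by an element of `H`
  set h := (dn g)⁻¹ * g with hh
  have hhH : h ∈ H := hdh g
  have hgh : ∀ n n' : N, (n' : G) = h * n * h⁻¹ → (f n' : ℂ) = conj (f n : ℂ) := by
    intro n n' he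
    refine hg n n' (he.trans ?_)
    have h1 := congrArg Subtype.val
      (hab ⟨g * n * g⁻¹, hN.conj_mem _ n.2 g⟩ ⟨dn g, hdn g⟩)
    calc h * n * h⁻¹ = (dn g)⁻¹ * ((g * n * g⁻¹) * dn g) := by rw [hh]; group
      _ = g * n * g⁻¹ := by
        rw [show (g * n * g⁻¹) * dn g = dn g * (g * n * g⁻¹) from h1, inv_mul_cancel_left]
  have hghu : ∀ n n' : N, (n' : G) = h * n * h⁻¹ → f n' = (f n)⁻¹ := fun n n' he => Units.ext (by
    rw [hgh n n' he, Units.val_inv_eq_inv_val, Complex.inv_eq_conj]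
    refine Complex.norm_eq_one_of_pow_eq_one (n := orderOf n) ?_ (orderOf_pos n).ne'
    rw [← Units.val_pow_eq_pow_val, ← map_pow, pow_orderOf_eq_one, map_one, Units.val_one])
  have hhT : ∀ x : G, x ∈ T ↔ h * x * h⁻¹ ∈ T := by
    intro x
    rw [hT, hT]
    constructor
    · intro hx n n' he
      have e1 := hghu ⟨h⁻¹ * n * h, by simpa using hN.conj_mem _ n.2 h⁻¹⟩ n (by simp [mul_assoc])
      have e2 := hghu ⟨h⁻¹ * n' * h, by simpa using hN.conj_mem _ n'.2 h⁻¹⟩ n' (by simp [mul_assoc])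
      rw [e1, e2, inv_inj]
      exact hx _ _ (by show h⁻¹ * n' * h = x * (h⁻¹ * n * h) * x⁻¹; rw [he]; group)
    · intro hx n n' he
      let a : N := ⟨h * n * h⁻¹, hN.conj_mem _ n.2 h⟩
      let b : N := ⟨h * n' * h⁻¹, hN.conj_mem _ n'.2 h⟩
      have e := hx a b (by show h * n' * h⁻¹ = h * x * h⁻¹ * (h * n * h⁻¹) * (h * x * h⁻¹)⁻¹
                           rw [he]; group)
      rw [hghu n a rfl, hghu n' b rfl, inv_inj] at e
      exact e
  have hθh : ∀ x x' : T, (x' : G) = h * x * h⁻¹ → (θ x' : ℂ) = conj (θ x : ℂ) := by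
    intro x x' he
    let m : N := ⟨h * dn x * h⁻¹, hN.conj_mem _ (hdn x) h⟩
    have hm : (⟨dn (x' : G), hdn _⟩ : N) = m :=
      Subtype.ext (uniq _ (hdn _) _ m.2 (x' : G) (hdh _) (by
        show (h * dn x * h⁻¹)⁻¹ * (x' : G) ∈ H
        rw [he, show (h * dn x * h⁻¹)⁻¹ * (h * x * h⁻¹) = h * ((dn x)⁻¹ * x) * h⁻¹ by group]
        exact H.mul_mem (H.mul_mem hhH (hdh _)) (H.inv_mem hhH)))
    show (f ⟨dn (x' : G), hdn _⟩ : ℂ) = conj (f ⟨dn (x : G), hdn _⟩ : ℂ)
    rw [hm]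
    exact hgh _ _ rfl
  letI := Fintype.ofFinite T
  let φ : IrrCharacter N := ⟨_, isIrrCharacter_monoidHom f⟩
  have hθc : IsCharacter T (fun x => (θ x : ℂ)) := isCharacter_of_irr (isIrrCharacter_monoidHom θ)
  have hθn : ∀ n : N, (θ (Subgroup.inclusion hNT n) : ℂ) = 1 * (φ : N → ℂ) n := fun n => by
    rw [hθN, one_mul]
  have hirr : IsIrrCharacter G (Cfsg.indFun T fun x => (θ x : ℂ)) :=
    isIrrCharacter_iff_classInner.mpr ⟨CharInd.isCharacter_indFun T hθc,
      (RealChar.classInner_indFun_inertia N T hNT φ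
        (fun x hx n n' he => Units.ext (hx n n' he)) hθc hθc 1 1 hθn hθn).trans
        (classInner_irr_self (isIrrCharacter_monoidHom θ))⟩
  refine ⟨T, ⟨_, hirr⟩, hT, fun x => Complex.conj_eq_iff_im.mp
    (RealChar.indFun_real_of_conj T _ h hhT hθh x), ?_⟩
  have h1 : Cfsg.indFun T (fun x => (θ x : ℂ)) 1 = (T.index : ℂ) := by
    rw [CharInd.indFun_one_apply]; simp
  show charDegree (Cfsg.indFun T fun x => (θ x : ℂ)) = _
  rw [charDegree, h1, Complex.natCast_re, Nat.floor_natCast]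

end Cfsg.Agent.RealDeg
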