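import Mathlib.GroupTheory.GroupAction.Quotient
import Mathlib.GroupTheory.Sylow

/-!
# Two permutation representations and Sylow fixed points
-/

set_option autoImplicit false
set_option linter.style.haveILetI false

namespace Cfsg.Agent.RealDeg

open MulAction

theorem card_orbits_eq {G X Y : Type*} [Group G] [Finite G] [Finite X] [Finite Y] [MulAction G X]
    [MulAction G Y] (h : ∀ g : G, Nat.card (fixedBy X g) = Nat.card (fixedBy Y g)) :
    Nat.card (orbitRel.Quotient G X) = Nat.card (orbitRel.Quotient G Y) := by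
  classical
  letI := Fintype.ofFinite G
  letI : ∀ g : G, Fintype (fixedBy X g) := fun g => Fintype.ofFinite _
  letI : ∀ g : G, Fintype (fixedBy Y g) := fun g => Fintype.ofFinite _
  letI := Fintype.ofFinite (orbitRel.Quotient G X)
  letI := Fintype.ofFinite (orbitRel.Quotient G Y)
  have hX := sum_card_fixedBy_eq_card_orbits_mul_card_group G X
  have hY := sum_card_fixedBy_eq_card_orbits_mul_card_group G Y
  have hs : ∑ g : G, Fintype.card (fixedBy X g) = ∑ g : G, Fintype.card (fixedBy Y g) :=
    Finset.sum_congr rfl fun g _ => by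
      rw [← Nat.card_eq_fintype_card, ← Nat.card_eq_fintype_card, h g]
  rw [hs, hY] at hX
  rw [Nat.card_eq_fintype_card, Nat.card_eq_fintype_card]
  exact (Nat.eq_of_mul_eq_mul_right Fintype.card_pos hX).symm

variable {G : Type*} [Group G] {p : ℕ}

/-- The points fixed by a subgroup. -/
def FixBy (P : Subgroup G) (X : Type*) [MulAction G X] : Type _ := {x : X // ∀ u ∈ P, u • x = x}

instance fixBy_action (P : Subgroup G) (X : Type*) [MulAction G X] :
    MulAction (Subgroup.normalizer (P : Set G)) (FixBy P X) where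
  smul n x := ⟨(n : G) • x.1, fun u hu => by
    have h := x.2 _ ((Subgroup.mem_normalizer_iff'.mp n.2 ((n : G)⁻¹ * u)).mpr (by simpa using hu))
    calc u • (n : G) • x.1 = (n : G) • (((n : G)⁻¹ * u * n) • x.1) := by
          rw [← mul_smul, ← mul_smul]; congr 1; group
      _ = (n : G) • x.1 := by rw [h]⟩
  one_smul x := Subtype.ext (one_smul G x.1)
  mul_smul a b x := Subtype.ext (mul_smul (a : G) (b : G) x.1)

theorem fixBy_smul_val (P : Subgroup G) {X : Type*} [MulAction G X]
    (n : Subgroup.normalizer (P : Set G)) (x : FixBy P X) : (n • x).1 = (n : G) • x.1 := rfl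

instance (P : Subgroup G) (X : Type*) [MulAction G X] [Finite X] : Finite (FixBy P X) :=
  inferInstanceAs (Finite {x : X // ∀ u ∈ P, u • x = x})

variable [Finite G] [hp : Fact p.Prime]

/-- Orbits of `N(P)` on fixed points inject into the orbits of `G`. -/
def orbitMap (P : Sylow p G) (X : Type*) [MulAction G X] :
    orbitRel.Quotient (Subgroup.normalizer ((P : Subgroup G) : Set G)) (FixBy (P : Subgroup G) X) →
      orbitRel.Quotient G X :=
  Quotient.map (fun x => x.1) fun a b hab => by
    obtain ⟨n, hn⟩ := hab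
    exact ⟨(n : G), congrArg Subtype.val hn⟩

theorem orbitMap_injective (P : Sylow p G) (X : Type*) [MulAction G X] :
    Function.Injective (orbitMap P X) := by
  refine Quotient.ind₂ fun a b hab => Quotient.sound ?_
  obtain ⟨g, hg : g • b.1 = a.1⟩ := Quotient.exact hab
  set S := stabilizer G b.1
  have hP : (P : Subgroup G) ≤ S := fun u hu => b.2 u hu
  have hgP : ((g⁻¹ • P : Sylow p G) : Subgroup G) ≤ S := by
    intro u hu
    rw [Sylow.coe_subgroup_smul, Subgroup.mem_pointwise_smul_iff_inv_smul_mem,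
      MulAut.smul_def] at hu
    have h1 := a.2 _ hu
    rw [← hg, ← mul_smul] at h1
    rw [mem_stabilizer_iff]
    have h2 := congrArg (fun t => g⁻¹ • t) h1
    simp only [← mul_smul] at h2
    have e : g⁻¹ * ((MulAut.conj g⁻¹)⁻¹ u * g) = u := by
      rw [← map_inv, inv_inv, MulAut.conj_apply]; group
    rw [e, inv_mul_cancel, one_smul] at h2
    exact h2
  obtain ⟨c, hc⟩ := MulAction.exists_smul_eq S ((g⁻¹ • P : Sylow p G).subtype hgP) (P.subtype hP)
  rw [Sylow.smul_subtype] at hc
  have hc' : ((c : G) • (g⁻¹ • P) : Sylow p G) = P := Sylow.subtype_injective hc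
  rw [← mul_smul, Sylow.smul_eq_iff_mem_normalizer] at hc'
  exact ⟨⟨((c : G) * g⁻¹)⁻¹, Subgroup.inv_mem _ hc'⟩, Subtype.ext (by
    rw [fixBy_smul_val, Subgroup.coe_mk, mul_inv_rev, inv_inv, mul_smul,
      inv_smul_eq_iff.mpr (mem_stabilizer_iff.mp c.2).symm, hg])⟩

/-- If all points of `X` are fixed by Sylow subgroups then so are those of `Y`. -/
theorem exists_fixed_of_counts (P : Sylow p G) {X Y : Type*} [Finite X] [Finite Y] [MulAction G X]
    [MulAction G Y] (h1 : ∀ g : G, Nat.card (fixedBy X g) = Nat.card (fixedBy Y g))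
    (h2 : ∀ n : Subgroup.normalizer ((P : Subgroup G) : Set G),
      Nat.card (fixedBy (FixBy (P : Subgroup G) X) n) =
        Nat.card (fixedBy (FixBy (P : Subgroup G) Y) n))
    (hX : ∀ x : X, ∃ g : G, ∀ u ∈ (P : Subgroup G), u • g • x = g • x) (y : Y) :
    ∃ g : G, ∀ u ∈ (P : Subgroup G), u • g • y = g • y := by
  have hsX : Function.Surjective (orbitMap P X) := by
    refine Quotient.ind fun x => ?_
    obtain ⟨g, hg⟩ := hX x
    exact ⟨Quotient.mk _ ⟨g • x, hg⟩, Quotient.sound ⟨g, rfl⟩⟩
  have hcard := Nat.card_eq_of_bijective _ ⟨orbitMap_injective P X, hsX⟩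
  rw [card_orbits_eq h1, card_orbits_eq h2] at hcard
  obtain ⟨q, hq⟩ := ((Nat.bijective_iff_injective_and_card _).mpr
    ⟨orbitMap_injective P Y, hcard⟩).2 (Quotient.mk _ y)
  induction q using Quotient.ind with
  | _ z =>
    obtain ⟨g, hg : g • y = z.1⟩ := Quotient.exact hq
    exact ⟨g, fun u hu => by rw [hg]; exact z.2 u hu⟩

end Cfsg.Agent.RealDeg
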