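import Cfsg.Agent.RealDeg.OrbitCount
import Cfsg.Agent.GlauberCorr.RealFixed
import Cfsg.Agent.RealChar.PermLemma

/-!
# Real classes of a normal `p'`-subgroup of odd index
-/

set_option autoImplicit false
set_option linter.style.haveILetI false

open scoped ComplexConjugate
open Cfsg.Agent.Char Cfsg.Agent.GlauberCorr

namespace Cfsg.Agent.RealDeg

universe u v

/-- A real class. -/
def IsRealClass {K : Type u} [Group K] (c : ConjClasses K) : Prop :=
  ∀ k : K, ConjClasses.mk k = c → IsConj k k⁻¹

theorem isRealClass_mk {K : Type u} [Group K] {k : K} (h : IsConj k k⁻¹) :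
    IsRealClass (ConjClasses.mk k) := fun x hx => by
  have hx' := ConjClasses.mk_eq_mk_iff_isConj.mp hx
  exact (hx'.trans h).trans (RealChar.isConj_inv_iff.mp hx'.symm)

/-- An automorphism of odd order modulo inner ones fixes equally many real characters and real
classes. -/
theorem card_real_fixed_eq {K : Type u} [Group K] [Finite K] (f : K ≃* K) {m : ℕ} (hm : Odd m)
    (hf : ∀ k, IsConj (f^[m] k) k) :
    Nat.card {χ : IrrCharacter K //
        (∀ k, ((χ : K → ℂ) k).im = 0) ∧ ∀ k, (χ : K → ℂ) (f k) = (χ : K → ℂ) k} =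
      Nat.card {c : ConjClasses K // IsRealClass c ∧ ConjClasses.map f.toMonoidHom c = c} := by
  classical
  refine (Nat.card_congr (Equiv.subtypeEquivRight fun χ => ?_)).trans
    ((RealChar.card_fixed_inv_aut_eq f).trans
      (Nat.card_congr (Equiv.subtypeEquivRight fun c => ?_)).symm)
  · constructor
    · rintro ⟨hr, hfix⟩ k
      rw [hfix, (RealChar.real_iff_apply_inv χ).mp hr]
    · intro h
      have h1 : ∀ j k, (χ : K → ℂ) (f^[j] k) = conj^[j] ((χ : K → ℂ) k) := by
        intro j
        induction j with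
        | zero => exact fun k => rfl
        | succ j ih =>
          intro k
          rw [Function.iterate_succ_apply', Function.iterate_succ_apply']
          have e := h (f^[j] k)⁻¹
          rw [inv_inv] at e
          rw [e, irr_inv χ.2, ih]
      have hreal : ∀ k, (χ : K → ℂ) k⁻¹ = (χ : K → ℂ) k := by
        intro k
        have e := h1 m k
        rw [Char.isClassFunction_eq_of_isConj (irr_isClassFunction χ.2) (hf k),
          Function.Involutive.iterate_odd Complex.conj_conj hm] at e
        rw [irr_inv χ.2]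
        exact e.symm
      refine ⟨(RealChar.real_iff_apply_inv χ).mpr hreal, fun k => ?_⟩
      have e := h k⁻¹
      rw [inv_inv] at e
      rw [e, hreal]
  · obtain ⟨x, rfl⟩ := ConjClasses.exists_rep c
    constructor
    · rintro ⟨hr, hfix⟩ k hk
      have h1 : IsConj (f x) x := ConjClasses.mk_eq_mk_iff_isConj.mp hfix
      have h2 : IsConj k x := ConjClasses.mk_eq_mk_iff_isConj.mp hk
      have h3 : IsConj (f k⁻¹) (f x⁻¹) := f.toMonoidHom.map_isConj (RealChar.isConj_inv_iff.mp h2)
      refine ConjClasses.mk_eq_mk_iff_isConj.mpr (h3.trans ?_)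
      rw [map_inv]
      exact (RealChar.isConj_inv_iff.mp h1).trans (hr x rfl).symm
    · intro h
      have h0 : IsConj (f x⁻¹) x := ConjClasses.mk_eq_mk_iff_isConj.mp (h x rfl)
      have h1 : ∀ j, IsConj (f^[j] x) ((fun y : K => y⁻¹)^[j] x) := by
        intro j
        induction j with
        | zero => exact IsConj.refl _
        | succ j ih =>
          rw [Function.iterate_succ_apply', Function.iterate_succ_apply']
          refine (f.toMonoidHom.map_isConj ih).trans ?_
          rcases Nat.even_or_odd j with he | ho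
          · rw [Function.Involutive.iterate_even inv_involutive he, id]
            have e := RealChar.isConj_inv_iff.mp h0
            rwa [← map_inv, inv_inv] at e
          · rw [Function.Involutive.iterate_odd inv_involutive ho, inv_inv]
            exact h0
      have hr : IsConj x x⁻¹ := by
        have e := h1 m
        rw [Function.Involutive.iterate_odd inv_involutive hm] at e
        exact (hf x).symm.trans e
      refine ⟨isRealClass_mk hr, ConjClasses.mk_eq_mk_iff_isConj.mpr ?_⟩
      have e := RealChar.isConj_inv_iff.mp h0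
      rw [← map_inv, inv_inv] at e
      exact e.trans hr.symm

/-- In the fixed subgroup the counts of real fixed characters and classes agree with those
upstairs. -/
theorem card_fixed_descend {K : Type u} [Group K] [Finite K] {A : Type v} [Group A] {p : ℕ}
    [Fact p.Prime] (φ : A →* MulAut K) (hA : IsPGroup p A) (hK : ¬ p ∣ Nat.card K)
    (C : Subgroup K) (hC : ∀ k, k ∈ C ↔ ∀ a, φ a k = k) (f : K ≃* K) (fC : C ≃* C)
    (hfC : ∀ c : C, f c = fC c) (hfA : ∀ a, ∃ b, ∀ k, f (φ a k) = φ b (f k)) :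
    Nat.card {χ : IrrCharacter K // ((∀ k, ((χ : K → ℂ) k).im = 0) ∧ InvFun φ (χ : K → ℂ)) ∧
        ∀ k, (χ : K → ℂ) (f k) = (χ : K → ℂ) k} =
      Nat.card {ξ : IrrCharacter C //
        (∀ c, ((ξ : C → ℂ) c).im = 0) ∧ ∀ c, (ξ : C → ℂ) (fC c) = (ξ : C → ℂ) c} ∧
    Nat.card {c : ConjClasses K // (IsRealClass c ∧ ∀ a, ConjClasses.map (φ a).toMonoidHom c = c) ∧
        ConjClasses.map f.toMonoidHom c = c} =
      Nat.card {d : ConjClasses C // IsRealClass d ∧ ConjClasses.map fC.toMonoidHom d = d} := by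
  classical
  letI := Fintype.ofFinite K
  letI := Fintype.ofFinite C
  refine ⟨?_, ?_⟩
  · have M := matching_fixed φ hA hK C hC
    have hinv : ∀ χ : IrrCharacter K, InvFun φ (χ : K → ℂ) → InvFun φ (conjIrr χ : K → ℂ) :=
      fun χ h a k => by rw [conjIrr_apply, conjIrr_apply, h a k]
    have hconj : ∀ χ ξ, resMult C (conjIrr χ) (conjIrr ξ) = resMult C χ ξ := fun χ ξ => by
      rw [resMult_eq_homMult, resMult_eq_homMult, homMult_conjIrr]
    let tw : IrrCharacter K → IrrCharacter K := irrComap f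
    let twC : IrrCharacter C → IrrCharacter C := irrComap fC
    have htw : ∀ χ ξ, resMult C (tw χ) (twC ξ) = resMult C χ ξ := fun χ ξ => by
      rw [resMult_eq_homMult, resMult_eq_homMult]
      refine homMult_eq_of_classInner ?_
      rw [← classInner_comp_eq_homMult]
      refine Eq.trans ?_ (classInner_comp_surjective fC.toMonoidHom fC.surjective _ _)
      congr 1
      funext h
      show (tw χ : K → ℂ) (h : K) = (χ : K → ℂ) (fC h : K)
      rw [irrComap_coe, hfC]
    have hinvtw : ∀ χ : IrrCharacter K, InvFun φ (χ : K → ℂ) → InvFun φ (tw χ : K → ℂ) := by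
      intro χ h a k
      rw [irrComap_coe, irrComap_coe]
      obtain ⟨b, hb⟩ := hfA a
      rw [hb, h]
    have hex : ∀ χ : {χ : IrrCharacter K // ((∀ k, ((χ : K → ℂ) k).im = 0) ∧
          InvFun φ (χ : K → ℂ)) ∧ ∀ k, (χ : K → ℂ) (f k) = (χ : K → ℂ) k},
        ∃ ξ : {ξ : IrrCharacter C // (∀ c, ((ξ : C → ℂ) c).im = 0) ∧
          ∀ c, (ξ : C → ℂ) (fC c) = (ξ : C → ℂ) c}, ¬ p ∣ resMult C χ.1 ξ.1 := by
      intro χ
      obtain ⟨ξ, -, hξ⟩ := M.exists_left χ.1 χ.2.1.2
      refine ⟨⟨ξ, (conjIrr_eq_self_iff ξ).mp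
        (M.unique_right χ.1 _ _ χ.2.1.2 trivial trivial ?_ hξ), fun c => ?_⟩, hξ⟩
      · rw [← (conjIrr_eq_self_iff χ.1).mpr χ.2.1.1, hconj]
        exact hξ
      · have e : twC ξ = ξ := M.unique_right χ.1 _ _ χ.2.1.2 trivial trivial (by
          rw [← show tw χ.1 = χ.1 from Subtype.ext (funext fun k => by rw [irrComap_coe, χ.2.2]),
            htw]
          exact hξ) hξ
        have := congrFun (congrArg Subtype.val e) c
        rwa [irrComap_coe] at this
    choose g hg using hex
    refine Nat.card_eq_of_bijective g ⟨fun χ χ' he => ?_, fun ξ => ?_⟩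
    · exact Subtype.ext (M.unique_left χ.1 χ'.1 (g χ).1 χ.2.1.2 χ'.2.1.2 trivial (hg χ)
        (by rw [he]; exact hg χ'))
    · obtain ⟨χ, hχ, hm⟩ := M.exists_right ξ.1 trivial
      have hreal : ∀ k, ((χ : K → ℂ) k).im = 0 := (conjIrr_eq_self_iff χ).mp
        (M.unique_left _ χ ξ.1 (hinv χ hχ) hχ trivial (by
          rw [← (conjIrr_eq_self_iff ξ.1).mpr ξ.2.1, hconj]; exact hm) hm)
      have hfix : ∀ k, (χ : K → ℂ) (f k) = (χ : K → ℂ) k := by
        have e : tw χ = χ := M.unique_left _ χ ξ.1 (hinvtw χ hχ) hχ trivial (by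
          rw [← show twC ξ.1 = ξ.1 from Subtype.ext (funext fun k => by rw [irrComap_coe, ξ.2.2]),
            htw]
          exact hm) hm
        intro k
        have := congrFun (congrArg Subtype.val e) k
        rwa [irrComap_coe] at this
      exact ⟨⟨χ, ⟨hreal, hχ⟩, hfix⟩, Subtype.ext
        (M.unique_right χ (g ⟨χ, ⟨hreal, hχ⟩, hfix⟩).1 ξ.1 hχ trivial trivial
          (hg ⟨χ, ⟨hreal, hχ⟩, hfix⟩) hm)⟩
  · refine (Nat.card_eq_of_bijective (fun d : {d : ConjClasses C //
        IsRealClass d ∧ ConjClasses.map fC.toMonoidHom d = d} =>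
      (⟨ConjClasses.map C.subtype d.1, ?_⟩ : {c : ConjClasses K //
        (IsRealClass c ∧ ∀ a, ConjClasses.map (φ a).toMonoidHom c = c) ∧
          ConjClasses.map f.toMonoidHom c = c})) ⟨?_, ?_⟩).symm
    · obtain ⟨d, hd, hdf⟩ := d
      obtain ⟨x, rfl⟩ := ConjClasses.exists_rep d
      refine ⟨⟨isRealClass_mk (C.subtype.map_isConj (hd x rfl) :), fun a => ?_⟩, ?_⟩
      · show ConjClasses.mk (φ a (x : K)) = ConjClasses.mk (x : K)
        rw [(hC _).mp x.2 a]
      · show ConjClasses.mk (f (x : K)) = ConjClasses.mk (x : K)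
        rw [hfC]
        exact ConjClasses.mk_eq_mk_iff_isConj.mpr
          (C.subtype.map_isConj (ConjClasses.mk_eq_mk_iff_isConj.mp hdf))
    · rintro ⟨d, hd⟩ ⟨d', hd'⟩ he
      obtain ⟨x, rfl⟩ := ConjClasses.exists_rep d
      obtain ⟨y, rfl⟩ := ConjClasses.exists_rep d'
      exact Subtype.ext (ConjClasses.mk_eq_mk_iff_isConj.mpr (isConj_of_isConj_fixed φ hA hK C hC x y
        (ConjClasses.mk_eq_mk_iff_isConj.mp (congrArg Subtype.val he))))
    · rintro ⟨c, ⟨hr, hfx⟩, hff⟩
      obtain ⟨k, rfl⟩ := ConjClasses.exists_rep c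
      obtain ⟨x, hx⟩ := exists_fixed_isConj φ hA hK C hC k
        fun a => ConjClasses.mk_eq_mk_iff_isConj.mp (hfx a)
      refine ⟨⟨ConjClasses.mk x, isRealClass_mk ?_, ?_⟩,
        Subtype.ext (ConjClasses.mk_eq_mk_iff_isConj.mpr hx.symm)⟩
      · refine isConj_of_isConj_fixed φ hA hK C hC x x⁻¹ ?_
        exact hr (x : K) (ConjClasses.mk_eq_mk_iff_isConj.mpr hx.symm)
      · refine ConjClasses.mk_eq_mk_iff_isConj.mpr (isConj_of_isConj_fixed φ hA hK C hC _ x ?_)
        show IsConj ((fC x : C) : K) (x : K)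
        rw [← hfC]
        exact ((f.toMonoidHom.map_isConj hx).symm.trans
          (ConjClasses.mk_eq_mk_iff_isConj.mp hff)).trans hx

end Cfsg.Agent.RealDeg
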