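import Cfsg.Agent.S4866
import Cfsg.Agent.RealChar.Indicator
import Cfsg.Agent.CharInd.Clifford
import Cfsg.Agent.Char.Real

/-!
# Real characters over a normal subgroup of odd index
-/

set_option autoImplicit false
set_option linter.style.haveILetI false

open Cfsg

namespace Cfsg.Agent.RealDeg

/-- Real characters of `G` match the orbits of real characters of a normal subgroup of odd index,
with multiplicity one. -/
theorem real_over {G : Type*} [Group G] [Finite G] (N : Subgroup G) [N.Normal] [Fintype N]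
    (hodd : Odd N.index) :
    (∀ θ : IrrCharacter N, (∀ n, ((θ : N → ℂ) n).im = 0) →
      ∃ χ : IrrCharacter G, (∀ g, ((χ : G → ℂ) g).im = 0) ∧
        classInner (fun n : N => (χ : G → ℂ) n) (θ : N → ℂ) = 1 ∧
        ∀ χ' : IrrCharacter G, (∀ g, ((χ' : G → ℂ) g).im = 0) →
          classInner (fun n : N => (χ' : G → ℂ) n) (θ : N → ℂ) ≠ 0 → χ' = χ) ∧
    ∀ χ : IrrCharacter G, (∀ g, ((χ : G → ℂ) g).im = 0) →
      ∃ θ : IrrCharacter N, (∀ n, ((θ : N → ℂ) n).im = 0) ∧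
        classInner (fun n : N => (χ : G → ℂ) n) (θ : N → ℂ) ≠ 0 := by
  classical
  letI := Fintype.ofFinite G
  have hin : ∀ u : G, u * u ∈ N → u ∈ N := by
    intro u hu
    rw [← QuotientGroup.eq_one_iff] at hu ⊢
    refine orderOf_eq_one_iff.mp (Nat.eq_one_of_dvd_coprimes (Nat.coprime_two_left.mpr hodd)
      (orderOf_dvd_of_pow_eq_one ?_) (orderOf_dvd_natCard _))
    rw [pow_two]; exact hu
  choose k hk using fun (χ : Cfsg.IrrCharacter G) (θ : Cfsg.IrrCharacter ↥N) =>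
    Cfsg.Agent.Char.isCharacter_classInner_nat
      (Cfsg.Agent.Char.isCharacter_restrict (Cfsg.Agent.Char.isCharacter_of_irr χ.2) N) θ
  have hsum : ∀ θ : Cfsg.IrrCharacter ↥N,
      ∑ χ : Cfsg.IrrCharacter G, Cfsg.Agent.RealChar.fsNu (χ : G → ℂ) * (k χ θ : ℂ) =
        Cfsg.Agent.RealChar.fsNu (θ : ↥N → ℂ) := by
    intro θ
    have heq : (∑ χ : Cfsg.IrrCharacter G,
          Cfsg.Agent.RealChar.fsNu (χ : G → ℂ) • fun n : ↥N => (χ : G → ℂ) n) =
        ∑ η : Cfsg.IrrCharacter ↥N, Cfsg.Agent.RealChar.fsNu (η : ↥N → ℂ) • (η : ↥N → ℂ) := by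
      funext n
      simp only [Finset.sum_apply, Pi.smul_apply, smul_eq_mul]
      rw [← finsum_eq_sum_of_fintype, ← finsum_eq_sum_of_fintype, ← Cfsg.Agent.RealChar.card_sqrt_eq,
        ← Cfsg.Agent.RealChar.card_sqrt_eq]
      congr 1
      exact Nat.card_congr ⟨fun u => ⟨⟨u.1, hin u.1 (by rw [u.2]; exact n.2)⟩, Subtype.ext u.2⟩,
        fun u => ⟨(u.1 : G), congrArg Subtype.val u.2⟩, fun _ => rfl, fun _ => rfl⟩
    have h := congrArg (fun F => Cfsg.classInner F (θ : ↥N → ℂ)) heq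
    simp only [Cfsg.Agent.Char.classInner_sum_smul_irr] at h
    rw [Cfsg.Agent.Char.classInner_sum_left] at h
    rw [← h]
    exact Finset.sum_congr rfl fun χ _ => by rw [Cfsg.Agent.Char.classInner_smul_left, hk]
  let X := {θ : Cfsg.IrrCharacter ↥N // ∀ n : ↥N, ((θ : ↥N → ℂ) n).im = 0}
  let Y := {χ : Cfsg.IrrCharacter G // ∀ g : G, ((χ : G → ℂ) g).im = 0}
  let R : X → X → Prop := fun θ η =>
    ∃ g : G, ∀ n n' : ↥N, (n' : G) = g * (n : G) * g⁻¹ → (η.1 : ↥N → ℂ) n' = (θ.1 : ↥N → ℂ) n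
  have hex : ∀ θ : X, ∃ χ : Y, k χ.1 θ.1 ≠ 0 := by
    intro θ
    have h0 : Cfsg.Agent.RealChar.fsNu (θ.1 : ↥N → ℂ) ≠ 0 :=
      Cfsg.Agent.RealChar.fsNu_ne_zero_of_real θ.1.2 fun n => Complex.conj_eq_iff_im.mpr (θ.2 n)
    rw [← hsum] at h0
    obtain ⟨χ, -, hχ⟩ := Finset.exists_ne_zero_of_sum_ne_zero h0
    rw [mul_ne_zero_iff] at hχ
    exact ⟨⟨χ, fun g => Complex.conj_eq_iff_im.mp
      (Cfsg.Agent.RealChar.real_of_fsNu_ne_zero χ.2 hχ.1 g)⟩, fun h => hχ.2 (by rw [h]; simp)⟩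
  choose Ψ hΨ using hex
  have hclif : ∀ (χ : Cfsg.IrrCharacter G) (θ η : X), k χ θ.1 ≠ 0 → k χ η.1 ≠ 0 →
      Quot.mk R θ = Quot.mk R η := by
    intro χ θ η h1 h2
    have h := Cfsg.Agent.CharInd.clifford N χ.2 θ.1.2 (by rw [hk]; exact_mod_cast h1)
    have hmem : (η.1 : ↥N → ℂ) ∈ Cfsg.Agent.CharInd.conjClass N (θ.1 : ↥N → ℂ) := by
      by_contra hn
      apply h2
      have h3 := hk χ η.1
      rw [h, Cfsg.Agent.Char.classInner_smul_left, Cfsg.Agent.Char.classInner_sum_left,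
        Finset.sum_eq_zero fun ψ hψ => ?_, mul_zero] at h3
      · exact_mod_cast h3.symm
      · obtain ⟨g, rfl⟩ := (Cfsg.Agent.CharInd.mem_conjClass N).mp hψ
        exact Cfsg.Agent.Char.classInner_irr_ne (Cfsg.Agent.CharInd.conjChar_irr N g θ.1.2) η.1.2
          fun e => hn (e ▸ hψ)
    obtain ⟨g, hg⟩ := (Cfsg.Agent.CharInd.mem_conjClass N).mp hmem
    refine Quot.sound ⟨g⁻¹, fun n n' hn' => ?_⟩
    rw [hg, Cfsg.Agent.CharInd.conjChar_apply]
    exact congrArg _ (Subtype.ext (show g * (n' : G) * g⁻¹ = (n : G) by rw [hn']; group))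
  have hcard : Nat.card Y = Nat.card (Quot R) := by
    have h1 := Cfsg.Agent.S4866.result (G := G) N hodd
    refine (Cfsg.Agent.Char.card_real_irr_eq_card_real_classes (G := G)).trans (Eq.trans ?_ h1.symm)
    let f : Quot (fun x y : {x : ↥N // IsConj x x⁻¹} => ∃ g : G, (y.1 : G) = g * x.1 * g⁻¹) →
        {C : ConjClasses G // ∀ g : G, ConjClasses.mk g = C → IsConj g g⁻¹} :=
      Quot.lift (fun x => ⟨ConjClasses.mk (x.1 : G), fun g hg => by
          have h := ConjClasses.mk_eq_mk_iff_isConj.mp hg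
          have hx : IsConj (x.1 : G) (x.1 : G)⁻¹ := N.subtype.map_isConj x.2
          obtain ⟨c, hc⟩ := isConj_iff.mp h
          exact h.trans (hx.trans (isConj_iff.mpr ⟨c⁻¹, by rw [← hc]; group⟩))⟩)
        (fun x y ⟨g, hg⟩ => Subtype.ext
          (ConjClasses.mk_eq_mk_iff_isConj.mpr (isConj_iff.mpr ⟨g, hg.symm⟩)))
    refine (Nat.card_eq_of_bijective f ⟨?_, ?_⟩).symm
    · rintro ⟨x⟩ ⟨y⟩ h
      obtain ⟨g, hg⟩ := isConj_iff.mp
        (ConjClasses.mk_eq_mk_iff_isConj.mp (congrArg Subtype.val h))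
      exact Quot.sound ⟨g, hg.symm⟩
    · rintro ⟨C, hC⟩
      obtain ⟨x, rfl⟩ := ConjClasses.mk_surjective C
      obtain ⟨c, hc⟩ := isConj_iff.mp (hC x rfl)
      have hxN : x ∈ N := by
        rw [← QuotientGroup.eq_one_iff]
        refine Cfsg.Agent.Char.eq_one_of_isConj_inv (G := G ⧸ N) hodd ?_
        exact isConj_iff.mpr ⟨(c : G ⧸ N), by
          rw [← QuotientGroup.mk_inv, ← QuotientGroup.mk_mul, ← QuotientGroup.mk_mul, hc,
            QuotientGroup.mk_inv]⟩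
      -- an odd power of `c` inverts `x`, and lies in `N`
      have hit : ∀ j : ℕ, c ^ (2 * j + 1) * x * (c ^ (2 * j + 1))⁻¹ = x⁻¹ := by
        intro j
        induction j with
        | zero => simpa using hc
        | succ j ih =>
          rw [show 2 * (j + 1) + 1 = 1 + 1 + (2 * j + 1) by ring, pow_add]
          calc c ^ (1 + 1) * c ^ (2 * j + 1) * x * (c ^ (1 + 1) * c ^ (2 * j + 1))⁻¹
              = c * (c * (c ^ (2 * j + 1) * x * (c ^ (2 * j + 1))⁻¹) * c⁻¹) * c⁻¹ := by group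
            _ = c * (c * x * c⁻¹)⁻¹ * c⁻¹ := by rw [ih]; group
            _ = x⁻¹ := by rw [hc, inv_inv, hc]
      obtain ⟨j, hj⟩ := hodd
      have hcN : c ^ (2 * j + 1) ∈ N := hj ▸ N.pow_index_mem c
      exact ⟨Quot.mk _ ⟨⟨x, hxN⟩, isConj_iff.mpr ⟨⟨_, hcN⟩, Subtype.ext (hit j)⟩⟩, rfl⟩
  haveI : Finite (Quot R) := Finite.of_surjective _ (Quot.mk_surjective (r := R))
  let F : Quot R → Y := fun q => Ψ q.out
  have hFinj : Function.Injective F := by
    intro q r h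
    have h1 := hΨ q.out
    have h2 := hΨ r.out
    rw [show Ψ q.out = Ψ r.out from h] at h1
    rw [← Quot.out_eq q, ← Quot.out_eq r]
    exact hclif _ _ _ h1 h2
  have hFsurj : Function.Surjective F := (hFinj.bijective_of_nat_card_le hcard.le).2
  have huniq : ∀ χ χ' : Y, ∀ θ : X, k χ.1 θ.1 ≠ 0 → k χ'.1 θ.1 ≠ 0 → χ' = χ := by
    intro χ χ' θ hθ hθ'
    obtain ⟨q, hq⟩ := hFsurj χ
    obtain ⟨q', hq'⟩ := hFsurj χ'
    have h1 : k χ.1 q.out.1 ≠ 0 := hq ▸ hΨ q.out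
    have h2 : k χ'.1 q'.out.1 ≠ 0 := hq' ▸ hΨ q'.out
    have h3 : q = q' := by
      rw [← Quot.out_eq q, ← Quot.out_eq q']
      exact (hclif χ.1 q.out θ h1 hθ).trans (hclif χ'.1 θ q'.out hθ' h2)
    rw [← hq, ← hq', h3]
  refine ⟨fun θ hθ => ?_, fun χ hχ => ?_⟩
  · set θX : X := ⟨θ, hθ⟩
    have hne : ∀ χ : Y, k χ.1 θ ≠ 0 → χ = Ψ θX := fun χ h => huniq (Ψ θX) χ θX (hΨ θX) h
    have hs := hsum θ
    rw [Finset.sum_eq_single (Ψ θX).1 (fun χ _ hne' => ?_) (by simp)] at hs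
    · refine ⟨(Ψ θX).1, (Ψ θX).2, ?_, fun χ' h' h0 => congrArg Subtype.val
        (hne ⟨χ', h'⟩ fun hk0 => h0 (by rw [hk, hk0, Nat.cast_zero]))⟩
      rw [hk]
      have hk1 : ∀ a b : ℂ, (a = 1 ∨ a = -1) → (b = 1 ∨ b = -1) → a * (k (Ψ θX).1 θ : ℂ) = b →
          (k (Ψ θX).1 θ : ℂ) = 1 := by
        intro a b ha hb hab
        have h1 : ((k (Ψ θX).1 θ * k (Ψ θX).1 θ : ℕ) : ℂ) = ((1 : ℕ) : ℂ) := by
          have h2 := congrArg (fun z => z * z) hab
          rcases ha with rfl | rfl <;> rcases hb with rfl | rfl <;> push_cast <;>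
            linear_combination h2
        rw [Nat.cast_inj, mul_eq_one] at h1
        rw [h1.1, Nat.cast_one]
      refine hk1 _ _ ?_ ?_ hs
      · rcases Cfsg.Agent.RealChar.fsNu_cases (Ψ θX).1.2 with ⟨⟨g, hg⟩, -⟩ | ⟨-, h⟩
        · exact absurd (Complex.conj_eq_iff_im.mpr ((Ψ θX).2 g)) hg
        · exact h
      · rcases Cfsg.Agent.RealChar.fsNu_cases θ.2 with ⟨⟨g, hg⟩, -⟩ | ⟨-, h⟩
        · exact absurd (Complex.conj_eq_iff_im.mpr (hθ g)) hg
        · exact h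
    · by_cases h0 : Cfsg.Agent.RealChar.fsNu (χ : G → ℂ) = 0
      · rw [h0, zero_mul]
      · by_contra hne0
        apply hne'
        exact congrArg Subtype.val (hne ⟨χ, fun g => Complex.conj_eq_iff_im.mp
          (Cfsg.Agent.RealChar.real_of_fsNu_ne_zero χ.2 h0 g)⟩ (fun hk0 => hne0 (by
            rw [show k χ θ = 0 from hk0]; simp)))
  · obtain ⟨q, hq⟩ := hFsurj ⟨χ, hχ⟩
    have h := hΨ q.out
    rw [show Ψ q.out = ⟨χ, hχ⟩ from hq] at h
    exact ⟨q.out.1, q.out.2, by rw [hk]; exact_mod_cast h⟩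

end Cfsg.Agent.RealDeg
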