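import Cfsg.Agent.RealDeg.RealMeet
import Cfsg.Agent.RealDeg.RealOver
import Cfsg.Agent.GlauberCorr.Relative

/-!
# Real characters of `p'`-degree and the normaliser of a Sylow subgroup
-/

set_option autoImplicit false
set_option linter.style.haveILetI false
set_option linter.unusedSectionVars false

open scoped ComplexConjugate
open Cfsg Cfsg.Agent.Char Cfsg.Agent.GlauberCorr

namespace Cfsg.Agent.RealDeg

universe u

variable {G : Type u} [Group G] [Finite G]

theorem elemGen_two_index_odd : Odd (elemGen 2 G).index := by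
  haveI : Fact (Nat.Prime 2) := ⟨Nat.prime_two⟩
  set K := elemGen 2 G with hKdef
  rw [← Nat.not_even_iff_odd, even_iff_two_dvd, Subgroup.index_eq_card]
  intro hdvd
  obtain ⟨z, hz⟩ := exists_prime_orderOf_dvd_card' 2 hdvd
  have h1 : z ∈ (K.map (QuotientGroup.mk' K)) := by
    refine (map_elemGen Nat.prime_two K).symm ▸ ?_
    exact mem_elemGen ⟨1, by rw [hz, pow_one]⟩
  rw [QuotientGroup.map_mk'_self, Subgroup.mem_bot] at h1
  rw [h1, orderOf_one] at hz
  exact absurd hz (by norm_num)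

/-- Restriction with multiplicity one: the degree. -/
theorem degree_eq_index_mul [Fintype G] (K : Subgroup G) [K.Normal] [Fintype K]
    (χ : IrrCharacter G) (ψ : IrrCharacter K)
    (h1 : classInner (fun k : K => (χ : G → ℂ) k) (ψ : K → ℂ) = 1) :
    charDegree (χ : G → ℂ) =
      (CharInd.conjStab K (ψ : K → ℂ)).index * charDegree (ψ : K → ℂ) := by
  classical
  have hψ1 := RealChar.eq_charDegree (isCharacter_of_irr ψ.2)
  have h := congrFun (CharInd.clifford K χ.2 ψ.2 (by rw [h1]; exact one_ne_zero)) 1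
  have hval : ∀ φ ∈ CharInd.conjClass K (ψ : K → ℂ), φ 1 = (charDegree (ψ : K → ℂ) : ℂ) := by
    intro φ hφ
    obtain ⟨x, rfl⟩ := (CharInd.mem_conjClass K).1 hφ
    rw [CharInd.conjChar_apply, ← hψ1]
    exact congrArg _ (Subtype.ext (by simp))
  simp only [Pi.smul_apply, Finset.sum_apply, smul_eq_mul, OneMemClass.coe_one, h1, one_mul,
    Finset.sum_congr rfl hval, Finset.sum_const, nsmul_eq_mul, CharInd.card_conjClass] at h
  exact RealChar.charDegree_of_eq_nat (by push_cast; exact h)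

variable {p : ℕ} [hp : Fact p.Prime]

/-- The real characters of `G` correspond to the real characters of `p'`-degree of the normaliser
of a Sylow subgroup. -/
theorem exists_real_bijection (hsolv : Group.IsSolvable (elemGen p G)) (hyp : Hyp p G)
    (P : Sylow p G) :
    ∃ f : {χ : IrrCharacter G // ∀ g, ((χ : G → ℂ) g).im = 0} →
        {η : IrrCharacter (Subgroup.normalizer ((P : Subgroup G) : Set G)) //
          (∀ n, ((η : Subgroup.normalizer ((P : Subgroup G) : Set G) → ℂ) n).im = 0) ∧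
          ¬ p ∣ charDegree (η : Subgroup.normalizer ((P : Subgroup G) : Set G) → ℂ)},
      Function.Bijective f ∧ ∀ χ,
        ((charDegree ((f χ).1 : Subgroup.normalizer ((P : Subgroup G) : Set G) → ℂ) : ZMod p) =
            (charDegree (χ.1 : G → ℂ) : ZMod p) ∨
          (charDegree ((f χ).1 : Subgroup.normalizer ((P : Subgroup G) : Set G) → ℂ) : ZMod p) =
            -(charDegree (χ.1 : G → ℂ) : ZMod p)) := by
  classical
  haveI : NeZero p := ⟨hp.out.ne_zero⟩
  set N := Subgroup.normalizer ((P : Subgroup G) : Set G) with hNdef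
  set K := elemGen 2 G with hKdef
  letI := Fintype.ofFinite G
  letI := Fintype.ofFinite K
  letI := Fintype.ofFinite N
  have hodd : Odd K.index := elemGen_two_index_odd
  -- the Sylow subgroup of `K`
  obtain ⟨R⟩ : Nonempty (Sylow p K) := inferInstance
  set Q : Subgroup G := (R : Subgroup K).map K.subtype with hQdef
  have hQK : Q ≤ K := Subgroup.map_subtype_le _
  have hRQ : Q.subgroupOf K = (R : Subgroup K) := by
    rw [hQdef, Subgroup.subgroupOf, Subgroup.comap_map_eq_self_of_injective K.subtype_injective]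
  have hidx : ¬ p ∣ Q.relIndex K := by
    rw [Subgroup.relIndex, hRQ]; exact R.not_dvd_index
  have hQp : IsPGroup p Q := R.isPGroup'.map K.subtype
  haveI hQn : Q.Normal := normal_of_hyp (Nat.card G) G le_rfl hsolv hyp K Q
    inferInstance le_rfl ⟨0, by rw [pow_zero, ← hKdef, Subgroup.relIndex_self]⟩ hQp hQK hidx
  have hQP : Q ≤ (P : Subgroup G) := IsPGroup.le_sylow_of_normal hQp P
  have hPK : (P : Subgroup G) ⊓ K ≤ Q := by
    have hQi : Q ≤ (P : Subgroup G) ⊓ K := le_inf hQP hQK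
    obtain ⟨i, hi⟩ := IsPGroup.iff_card.mp
      (P.isPGroup'.to_le (inf_le_left : (P : Subgroup G) ⊓ K ≤ P))
    refine Subgroup.relIndex_eq_one.mp (Nat.eq_one_of_dvd_coprimes
      ((hp.out.coprime_iff_not_dvd.mpr hidx).pow_left i)
      (hi ▸ Subgroup.relIndex_dvd_card Q _) ?_)
    exact Dvd.intro _ (Subgroup.relIndex_mul_relIndex Q _ K hQi inf_le_right)
  -- the actions
  let φ : G →* MulAut K := MulAut.conjNormal
  have hφ : ∀ (g : G) (x : K), ((φ g x : K) : G) = g * x * g⁻¹ := fun g x =>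
    MulAut.conjNormal_apply g x
  let φN : N →* MulAut K := φ.comp N.subtype
  let φP : (P : Subgroup G) →* MulAut K := φ.comp (P : Subgroup G).subtype
  let C : Subgroup K := N.subgroupOf K
  have hrel : RelFixed p φP (R : Subgroup K) C := by
    refine ⟨P.isPGroup', hRQ ▸ Subgroup.normal_subgroupOf, R.isPGroup', R.not_dvd_index,
      fun k => ?_⟩
    rw [Subgroup.mem_subgroupOf]
    have hR : ∀ x : K, x ∈ (R : Subgroup K) ↔ (x : G) ∈ Q := fun x => by
      rw [← hRQ, Subgroup.mem_subgroupOf]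
    constructor
    · intro hk a
      rw [hR, Subgroup.coe_mul, Subgroup.coe_inv]
      show ((φ (a : G) k : K) : G) * (k : G)⁻¹ ∈ Q
      rw [hφ]
      refine hPK ⟨?_, ?_⟩
      · rw [show (a : G) * k * (a : G)⁻¹ * (k : G)⁻¹ = (a : G) * ((k : G) * (a : G)⁻¹ * (k : G)⁻¹) by
          group]
        exact (P : Subgroup G).mul_mem a.2
          ((Subgroup.mem_normalizer_iff.mp hk _).mp ((P : Subgroup G).inv_mem a.2))
      · exact K.mul_mem (Subgroup.Normal.conj_mem inferInstance _ k.2 a) (K.inv_mem k.2)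
    · intro h
      refine Subgroup.mem_normalizer_fintype fun u hu => ?_
      have h1 := h ⟨u⁻¹, (P : Subgroup G).inv_mem hu⟩
      rw [hR, Subgroup.coe_mul, Subgroup.coe_inv] at h1
      have h2 : ((φ u⁻¹ k : K) : G) * (k : G)⁻¹ ∈ Q := h1
      rw [hφ, inv_inv] at h2
      have h3 := (P : Subgroup G).mul_mem hu (hQP h2)
      rwa [show u * (u⁻¹ * k * u * (k : G)⁻¹) = k * u * (k : G)⁻¹ by group] at h3
  have hCinv : ∀ (n : N), ∀ k ∈ C, φN n k ∈ C := fun n k hk => by
    rw [Subgroup.mem_subgroupOf] at hk ⊢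
    show ((φ (n : G) k : K) : G) ∈ N
    rw [hφ]
    exact N.mul_mem (N.mul_mem n.2 hk) (N.inv_mem n.2)
  let φCN := subAut φN C hCinv
  let φCP := subAut φP C fun a _ hk => hrel.fixed_map_mem a hk
  have M := hrel.matching
  -- the normal subgroup of `N`
  let C' : Subgroup N := K.subgroupOf N
  haveI : C'.Normal := Subgroup.normal_subgroupOf
  letI := Fintype.ofFinite C'
  letI := Fintype.ofFinite C
  have hodd' : Odd C'.index :=
    hodd.of_dvd_nat (Subgroup.relIndex_dvd_index_of_normal K N)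
  let e : C' ≃* C :=
    { toFun := fun c => ⟨⟨((c : N) : G), c.2⟩, (c : N).2⟩
      invFun := fun c => ⟨⟨((c : K) : G), c.2⟩, (c : K).2⟩
      left_inv := fun _ => rfl
      right_inv := fun _ => rfl
      map_mul' := fun _ _ => rfl }
  have hNC : ∀ (n : N) (ξ : IrrCharacter C),
      CharInd.conjChar C' n (irrComap e ξ : C' → ℂ) = (irrComap e (irrPerm φCN n⁻¹ ξ) : C' → ℂ) := by
    intro n ξ
    funext c
    rw [CharInd.conjChar_apply, irrComap_coe, irrComap_coe]
    show _ = (ξ : C → ℂ) (φCN n⁻¹⁻¹ (e c))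
    rw [inv_inv]
    refine congrArg _ (Subtype.ext (Subtype.ext ?_))
    show _ = ((φ (n : G) ((e c : C) : K) : K) : G)
    rw [hφ]
    rfl
  -- the action on characters of `K`
  letI aX : MulAction G (IrrCharacter K) :=
    { smul := fun g χ => irrPerm φ g χ
      one_smul := fun χ => by show irrPerm φ 1 χ = χ; rw [map_one]; rfl
      mul_smul := fun g h χ => by
        show irrPerm φ (g * h) χ = irrPerm φ g (irrPerm φ h χ)
        rw [map_mul]; rfl }
  have hsmul : ∀ (g : G) (ψ : IrrCharacter K),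
      ((g • ψ : IrrCharacter K) : K → ℂ) = CharInd.conjChar K g⁻¹ (ψ : K → ℂ) := by
    intro g ψ
    funext x
    rw [CharInd.conjChar_apply]
    exact congrArg (ψ : K → ℂ) (Subtype.ext (hφ g⁻¹ x))
  have hover : ∀ (χ : IrrCharacter G) (g : G) (ψ : IrrCharacter K),
      classInner (fun k : K => (χ : G → ℂ) k) ((g • ψ : IrrCharacter K) : K → ℂ) =
        classInner (fun k : K => (χ : G → ℂ) k) (ψ : K → ℂ) := fun χ g ψ => by
    rw [hsmul, CharInd.classInner_res_conjChar K (irr_isClassFunction χ.2)]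
  have hinvfix : ∀ ψ : IrrCharacter K,
      InvFun φP (ψ : K → ℂ) ↔ ∀ u ∈ (P : Subgroup G), u • ψ = ψ := fun ψ =>
    ⟨fun h u hu => Subtype.ext (funext fun k => h ⟨u⁻¹, (P : Subgroup G).inv_mem hu⟩ k),
      fun h a k => by
        have h1 := congrFun (congrArg Subtype.val
          (h (a : G)⁻¹ ((P : Subgroup G).inv_mem a.2))) k
        have h2 : (ψ : K → ℂ) (φ (a : G)⁻¹⁻¹ k) = (ψ : K → ℂ) k := h1
        rw [inv_inv] at h2
        exact h2⟩
  have hPN : (P : Subgroup G) ≤ N := Subgroup.le_normalizer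
  have hNinv : ∀ (n : N) (ψ : IrrCharacter K), InvFun φP (ψ : K → ℂ) →
      InvFun φP (irrPerm φN n ψ : K → ℂ) := by
    intro n ψ hψ
    rw [hinvfix] at hψ ⊢
    intro u hu
    show u • (n : G) • ψ = (n : G) • ψ
    have h := hψ _ ((Subgroup.mem_normalizer_iff'.mp n.2 ((n : G)⁻¹ * u)).mpr (by simpa using hu))
    calc u • (n : G) • ψ = (n : G) • (((n : G)⁻¹ * u * n) • ψ) := by
          rw [← mul_smul, ← mul_smul]; congr 1; group
      _ = (n : G) • ψ := by rw [h]
  have hNinvC : ∀ (n : N) (ξ : IrrCharacter C), InvFun φCP (ξ : C → ℂ) →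
      InvFun φCP (irrPerm φCN n ξ : C → ℂ) := by
    intro n ξ hξ a c
    show (ξ : C → ℂ) (φCN n⁻¹ (φCP a c)) = (ξ : C → ℂ) (φCN n⁻¹ c)
    refine Eq.trans ?_ (hξ ⟨(n : G)⁻¹ * a * n, ?_⟩ (φCN n⁻¹ c))
    · refine congrArg _ (Subtype.ext ?_)
      show φ ((n⁻¹ : N) : G) (φ (a : G) (c : K)) =
        φ ((n : G)⁻¹ * a * n) (φ ((n⁻¹ : N) : G) (c : K))
      rw [← MulAut.mul_apply, ← map_mul, ← MulAut.mul_apply, ← map_mul, Subgroup.coe_inv,
        mul_inv_cancel_right]
    · exact (Subgroup.mem_normalizer_iff'.mp n.2 ((n : G)⁻¹ * a)).mpr (by simpa using a.2)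
  have hperm : ∀ (n : N) (ψ : IrrCharacter K) (ξ : IrrCharacter C),
      homMult C.subtype (irrPerm φN n ψ) (irrPerm φCN n ξ) = homMult C.subtype ψ ξ :=
    fun n ψ ξ => homMult_perm C.subtype φN φCN (fun _ _ => rfl) n ψ ξ
  -- real characters match real characters
  have hrealR : ∀ (ψ : IrrCharacter K) (ξ : IrrCharacter C), InvFun φP (ψ : K → ℂ) →
      InvFun φCP (ξ : C → ℂ) → ¬ p ∣ homMult C.subtype ψ ξ →
      ((∀ k, ((ψ : K → ℂ) k).im = 0) ↔ ∀ c, ((ξ : C → ℂ) c).im = 0) := by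
    intro ψ ξ hψ hξ hm
    rw [← conjIrr_eq_self_iff, ← conjIrr_eq_self_iff]
    have hψ' : InvFun φP (conjIrr ψ : K → ℂ) := fun a k => by
      rw [conjIrr_apply, conjIrr_apply, hψ a k]
    have hξ' : InvFun φCP (conjIrr ξ : C → ℂ) := fun a k => by
      rw [conjIrr_apply, conjIrr_apply, hξ a k]
    have hm' : ¬ p ∣ homMult C.subtype (conjIrr ψ) (conjIrr ξ) := by rwa [homMult_conjIrr]
    exact ⟨fun h => M.unique_right ψ _ _ hψ hξ' hξ (by rwa [h] at hm') hm,
      fun h => M.unique_left _ ψ ξ hψ' hψ hξ (by rwa [h] at hm') hm⟩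
  -- a real constituent fixed by `P`
  obtain ⟨hG1, hG2⟩ := real_over K hodd
  obtain ⟨hN1, hN2⟩ := real_over C' hodd'
  have hH1 : ∀ χ : IrrCharacter G, (∀ g, ((χ : G → ℂ) g).im = 0) →
      ∃ ψ : IrrCharacter K, (∀ k, ((ψ : K → ℂ) k).im = 0) ∧ InvFun φP (ψ : K → ℂ) ∧
        classInner (fun k : K => (χ : G → ℂ) k) (ψ : K → ℂ) ≠ 0 := by
    intro χ hχ
    obtain ⟨θ, hθ, hθo⟩ := hG2 χ hχ
    obtain ⟨g, hg⟩ := exists_conj_le_stab hyp K hodd (P : Subgroup G) P.isPGroup' θ hθ
    refine ⟨g • θ, fun k => hθ _, (hinvfix _).mpr fun u hu => ?_, by rwa [hover]⟩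
    have h3 : (g⁻¹ * u * g) • θ = θ := Subtype.ext (by
      rw [hsmul]
      exact (CharInd.mem_conjStab K).mp ((CharInd.conjStab K (θ : K → ℂ)).inv_mem (hg u hu)))
    calc u • g • θ = g • (g⁻¹ * u * g) • θ := by rw [← mul_smul, ← mul_smul]; congr 1; group
      _ = g • θ := by rw [h3]
  have hH4 : ∀ (χ : IrrCharacter G) (ψ ψ' : IrrCharacter K), InvFun φP (ψ : K → ℂ) →
      InvFun φP (ψ' : K → ℂ) →
      classInner (fun k : K => (χ : G → ℂ) k) (ψ : K → ℂ) ≠ 0 →
      classInner (fun k : K => (χ : G → ℂ) k) (ψ' : K → ℂ) ≠ 0 →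
      ∃ n : N, irrPerm φN n ψ = ψ' := by
    intro χ ψ ψ' hψ hψ' ho ho'
    obtain ⟨x, hx⟩ := (CharInd.mem_conjClass K).mp
      (CharExt.mem_conjClass_of_constituent K χ.2 ψ.2 ψ'.2 ho ho')
    have hg : x⁻¹ • ψ = ψ' := Subtype.ext (by rw [hsmul, inv_inv, hx])
    have h1 := orbitMap_injective P (IrrCharacter K)
      (a₁ := Quotient.mk _ (⟨ψ', (hinvfix ψ').mp hψ'⟩ : FixBy (P : Subgroup G) (IrrCharacter K)))
      (a₂ := Quotient.mk _ (⟨ψ, (hinvfix ψ).mp hψ⟩ : FixBy (P : Subgroup G) (IrrCharacter K)))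
      (Quotient.sound ⟨x⁻¹, hg⟩)
    obtain ⟨n, hn⟩ := Quotient.exact h1
    exact ⟨n, congrArg Subtype.val hn⟩
  -- stabilisers agree
  have hstab : ∀ (ψ : IrrCharacter K) (ξ : IrrCharacter C), InvFun φP (ψ : K → ℂ) →
      InvFun φCP (ξ : C → ℂ) → ¬ p ∣ homMult C.subtype ψ ξ →
      CharInd.conjStab C' (irrComap e ξ : C' → ℂ) =
        (CharInd.conjStab K (ψ : K → ℂ)).subgroupOf N := by
    intro ψ ξ hψ hξ hm
    ext n
    rw [Subgroup.mem_subgroupOf, CharInd.mem_conjStab, CharInd.mem_conjStab, hNC]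
    have h1 : ((irrPerm φN n⁻¹ ψ : IrrCharacter K) : K → ℂ) =
        CharInd.conjChar K (n : G) (ψ : K → ℂ) := by
      have h := hsmul ((n⁻¹ : N) : G) ψ
      rw [Subgroup.coe_inv, inv_inv] at h
      exact h
    rw [← h1]
    constructor
    · intro h
      have h2 : irrPerm φCN n⁻¹ ξ = ξ := Subtype.ext (funext fun c => by
        have h3 := congrFun h (e.symm c)
        rwa [irrComap_coe, irrComap_coe, e.apply_symm_apply] at h3)
      refine congrArg Subtype.val (M.unique_left _ ψ ξ (hNinv n⁻¹ ψ hψ) hψ hξ ?_ hm)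
      rw [← h2, hperm]
      exact hm
    · intro h
      have h' : irrPerm φN n⁻¹ ψ = ψ := Subtype.ext h
      rw [show irrPerm φCN n⁻¹ ξ = ξ from M.unique_right ψ _ ξ hψ (hNinvC n⁻¹ ξ hξ) hξ
        (by rw [← h', hperm]; exact hm) hm]
  -- degrees
  have hdeg : ∀ (χ : IrrCharacter G) (ψ : IrrCharacter K) (ξ : IrrCharacter C)
      (η : IrrCharacter N), InvFun φP (ψ : K → ℂ) → InvFun φCP (ξ : C → ℂ) →
      ¬ p ∣ homMult C.subtype ψ ξ →
      classInner (fun k : K => (χ : G → ℂ) k) (ψ : K → ℂ) = 1 →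
      classInner (fun c : C' => (η : N → ℂ) c) (irrComap e ξ : C' → ℂ) = 1 →
      ((charDegree (η : N → ℂ) : ZMod p) = (charDegree (χ : G → ℂ) : ZMod p) ∨
        (charDegree (η : N → ℂ) : ZMod p) = -(charDegree (χ : G → ℂ) : ZMod p)) := by
    intro χ ψ ξ η hψ hξ hm hχ1 hη1
    rw [degree_eq_index_mul K χ ψ hχ1, degree_eq_index_mul C' η (irrComap e ξ) hη1,
      hstab ψ ξ hψ hξ hm]
    set T := CharInd.conjStab K (ψ : K → ℂ) with hT
    have hξd : charDegree (irrComap e ξ : C' → ℂ) = charDegree (ξ : C → ℂ) := by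
      rw [charDegree, charDegree, irrComap_coe, map_one]
    rw [hξd]
    change (((T.relIndex N) * _ : ℕ) : ZMod p) = _ ∨ (((T.relIndex N) * _ : ℕ) : ZMod p) = _
    have hPT : (P : Subgroup G) ≤ T := fun u hu => by
      rw [hT, CharInd.mem_conjStab]
      have h1 := congrArg Subtype.val ((hinvfix ψ).mp hψ u⁻¹ ((P : Subgroup G).inv_mem hu))
      rwa [hsmul, inv_inv] at h1
    have hidxN : (N.index : ZMod p) = 1 := by
      have h1 := card_sylow_modEq_one p G
      rw [P.card_eq_index_normalizer, ← ZMod.natCast_eq_natCast_iff, Nat.cast_one] at h1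
      exact h1
    have hidxT : (N.relIndex T : ZMod p) = 1 := by
      have h1 := card_sylow_modEq_one p T
      rw [(P.subtype hPT).card_eq_index_normalizer, ← ZMod.natCast_eq_natCast_iff] at h1
      rw [Subgroup.relIndex, show N.subgroupOf T =
        Subgroup.normalizer (((P.subtype hPT : Sylow p T) : Subgroup T) : Set T) from ?_]
      · exact h1.trans Nat.cast_one
      · ext t
        rw [Subgroup.mem_subgroupOf, hNdef, Subgroup.mem_normalizer_iff,
          Subgroup.mem_normalizer_iff]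
        constructor
        · intro h s
          exact h (s : G)
        · intro h s
          refine ⟨fun hs => (h ⟨s, hPT hs⟩).mp hs, fun hs => ?_⟩
          have hsT : s ∈ T := by
            have := T.mul_mem (T.mul_mem (T.inv_mem t.2) (hPT hs)) t.2
            simpa [mul_assoc] using this
          exact (h ⟨s, hsT⟩).mpr hs
    have hidx : (T.relIndex N : ZMod p) = (T.index : ZMod p) := by
      have h1 : T.relIndex N * N.index = (T ⊓ N).index := by
        rw [← Subgroup.inf_relIndex_right T N]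
        exact Subgroup.relIndex_mul_index inf_le_right
      have h2 : N.relIndex T * T.index = (T ⊓ N).index := by
        rw [← Subgroup.inf_relIndex_right N T, inf_comm N T]
        exact Subgroup.relIndex_mul_index inf_le_left
      have h3 := congrArg (fun m : ℕ => (m : ZMod p)) (h1.trans h2.symm)
      simp only [Nat.cast_mul, hidxN, hidxT, mul_one, one_mul] at h3
      exact h3
    have hψξ : (charDegree (ψ : K → ℂ) : ZMod p) =
        (homMult C.subtype ψ ξ : ZMod p) * (charDegree (ξ : C → ℂ) : ZMod p) := by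
      have h1 := hrel.degree_congr ψ ξ hψ hξ hm
      rw [RealChar.eq_charDegree (isCharacter_of_irr ψ.2),
        RealChar.eq_charDegree (isCharacter_of_irr ξ.2), ← Nat.cast_mul, ← Int.cast_natCast,
        ← Int.cast_natCast (homMult C.subtype ψ ξ * charDegree (ξ : C → ℂ))] at h1
      have h2 := (ZMod.intCast_eq_intCast_iff _ _ p).mpr h1.int_modEq
      push_cast at h2
      exact h2
    have hR : (homMult C.subtype ψ ξ : ZMod p) = 1 ∨ (homMult C.subtype ψ ξ : ZMod p) = -1 := by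
      rcases M.sign ψ ξ hψ hξ hm with h | h
      · left; simpa using (ZMod.intCast_eq_intCast_iff _ _ p).mpr h
      · right; simpa using (ZMod.intCast_eq_intCast_iff _ _ p).mpr h
    push_cast
    rw [hidx, hψξ]
    rcases hR with h | h <;> rw [h]
    · left; ring
    · right; ring
  -- the map
  choose ψc hψr hψi hψo using fun χ : {χ : IrrCharacter G // ∀ g, ((χ : G → ℂ) g).im = 0} =>
    hH1 χ.1 χ.2
  choose ξc hξi hξm using fun χ => M.exists_left (ψc χ) (hψi χ)
  have hξr : ∀ χ c, ((ξc χ : C → ℂ) c).im = 0 := fun χ =>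
    (hrealR _ _ (hψi χ) (hξi χ) (hξm χ)).mp (hψr χ)
  choose ηc hηr hη1 hηu using fun χ => hN1 (irrComap e (ξc χ)) fun c => hξr χ (e c)
  have hχ1 : ∀ χ, classInner (fun k : K => (χ.1 : G → ℂ) k) (ψc χ : K → ℂ) = 1 := by
    intro χ
    obtain ⟨χ₀, -, h1, hu⟩ := hG1 (ψc χ) (hψr χ)
    rw [hu χ.1 χ.2 (hψo χ)]
    exact h1
  have hd : ∀ χ, ((charDegree (ηc χ : N → ℂ) : ZMod p) = (charDegree (χ.1 : G → ℂ) : ZMod p) ∨
      (charDegree (ηc χ : N → ℂ) : ZMod p) = -(charDegree (χ.1 : G → ℂ) : ZMod p)) :=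
    fun χ => hdeg χ.1 (ψc χ) (ξc χ) (ηc χ) (hψi χ) (hξi χ) (hξm χ) (hχ1 χ) (hη1 χ)
  have hηd : ∀ χ, ¬ p ∣ charDegree (ηc χ : N → ℂ) := by
    intro χ hdvd
    apply hyp χ.1 χ.2
    rw [← ZMod.natCast_eq_zero_iff] at hdvd ⊢
    rcases hd χ with h | h
    · rw [← h, hdvd]
    · rw [← neg_eq_zero, ← h, hdvd]
  have hNover : ∀ (η : IrrCharacter N) (n : N) (ξ : IrrCharacter C),
      classInner (fun c : C' => (η : N → ℂ) c) (irrComap e (irrPerm φCN n ξ) : C' → ℂ) =
        classInner (fun c : C' => (η : N → ℂ) c) (irrComap e ξ : C' → ℂ) := fun η n ξ => by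
    rw [← inv_inv n, ← hNC, CharInd.classInner_res_conjChar C' (irr_isClassFunction η.2)]
  refine ⟨fun χ => ⟨ηc χ, hηr χ, hηd χ⟩, ⟨?_, ?_⟩, hd⟩
  · intro χ χ' he
    have he' : ηc χ = ηc χ' := congrArg Subtype.val he
    have ho : classInner (fun c : C' => (ηc χ : N → ℂ) c) (irrComap e (ξc χ) : C' → ℂ) ≠ 0 := by
      rw [hη1]; exact one_ne_zero
    have ho' : classInner (fun c : C' => (ηc χ : N → ℂ) c) (irrComap e (ξc χ') : C' → ℂ) ≠ 0 := by
      rw [he', hη1]; exact one_ne_zero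
    obtain ⟨n, hn⟩ := (CharInd.mem_conjClass C').mp
      (CharExt.mem_conjClass_of_constituent C' (ηc χ).2 (irrComap e (ξc χ)).2
        (irrComap e (ξc χ')).2 ho ho')
    rw [hNC] at hn
    have hξ : irrPerm φCN n⁻¹ (ξc χ) = ξc χ' := Subtype.ext (funext fun c => by
      have h3 := congrFun hn (e.symm c)
      rw [irrComap_coe, irrComap_coe, e.apply_symm_apply] at h3
      exact h3.symm)
    have hψ : irrPerm φN n⁻¹ (ψc χ) = ψc χ' := M.unique_left _ _ (ξc χ')
      (hNinv _ _ (hψi χ)) (hψi χ') (hξi χ') (by rw [← hξ, hperm]; exact hξm χ) (hξm χ')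
    obtain ⟨χ₀, -, -, hu⟩ := hG1 (ψc χ') (hψr χ')
    refine Subtype.ext ((hu χ.1 χ.2 ?_).trans (hu χ'.1 χ'.2 (hψo χ')).symm)
    rw [← hψ]
    show classInner _ (((n⁻¹ : N) : G) • ψc χ : IrrCharacter K).1 ≠ 0
    rw [hover]
    exact hψo χ
  · rintro ⟨η, hη, hηp⟩
    obtain ⟨θ, hθ, hθo⟩ := hN2 η hη
    set ξ : IrrCharacter C := irrComap e.symm θ with hξdef
    have hξe : irrComap e ξ = θ := Subtype.ext (funext fun c => by
      rw [irrComap_coe, hξdef, irrComap_coe, e.symm_apply_apply])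
    have hξr' : ∀ c, ((ξ : C → ℂ) c).im = 0 := fun c => hθ _
    obtain ⟨η₀, -, hη₀1, hη₀u⟩ := hN1 θ hθ
    have hη01 : classInner (fun c : C' => (η : N → ℂ) c) (θ : C' → ℂ) = 1 := by
      rw [hη₀u η hη hθo]; exact hη₀1
    have hξi' : InvFun φCP (ξ : C → ℂ) := by
      have h1 : ¬ p ∣ (CharInd.conjStab C' (θ : C' → ℂ)).index := fun h => hηp (by
        rw [degree_eq_index_mul C' η θ hη01]
        exact dvd_mul_of_dvd_left h _)
      have h2 : IsPGroup p ((P : Subgroup G).subgroupOf N) :=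
        P.isPGroup'.of_equiv (Subgroup.subgroupOfEquivOfLe hPN).symm
      obtain ⟨q, hq⟩ := h2.nonempty_fixed_point_of_prime_not_dvd_card
        (N ⧸ CharInd.conjStab C' (θ : C' → ℂ)) (by rwa [← Subgroup.index_eq_card])
      induction q using QuotientGroup.induction_on with
      | _ m =>
        intro a c
        have hmem : (m : N)⁻¹ * ⟨(m : G) * a * (m : G)⁻¹,
            N.mul_mem (N.mul_mem m.2 (hPN a.2)) (N.inv_mem m.2)⟩ * m ∈
              CharInd.conjStab C' (θ : C' → ℂ) := by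
          have h := (QuotientGroup.eq).mp (hq ⟨⟨(m : G) * a * (m : G)⁻¹,
            N.mul_mem (N.mul_mem m.2 (hPN a.2)) (N.inv_mem m.2)⟩,
            (Subgroup.mem_normalizer_iff.mp m.2 _).mp a.2⟩)
          simpa [mul_assoc] using (CharInd.conjStab C' (θ : C' → ℂ)).inv_mem h
        rw [show (m : N)⁻¹ * ⟨(m : G) * a * (m : G)⁻¹,
            N.mul_mem (N.mul_mem m.2 (hPN a.2)) (N.inv_mem m.2)⟩ * m = ⟨(a : G), hPN a.2⟩ from
          Subtype.ext (by
            show (m : G)⁻¹ * ((m : G) * a * (m : G)⁻¹) * m = a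
            group), CharInd.mem_conjStab] at hmem
        have h3 := congrFun hmem (e.symm c)
        rw [CharInd.conjChar_apply] at h3
        refine Eq.trans (congrArg (θ : C' → ℂ) (Subtype.ext (Subtype.ext ?_))) h3
        show ((φ (a : G) (c : K) : K) : G) = _
        rw [hφ]
        rfl
    obtain ⟨ψ, hψi', hψm⟩ := M.exists_right ξ hξi'
    have hψr' := (hrealR ψ ξ hψi' hξi' hψm).mpr hξr'
    obtain ⟨χ, hχr, hχo, -⟩ := hG1 ψ hψr'
    refine ⟨⟨χ, hχr⟩, Subtype.ext ?_⟩
    obtain ⟨n, hn⟩ := hH4 χ ψ (ψc ⟨χ, hχr⟩) hψi' (hψi _) (by rw [hχo]; exact one_ne_zero) (hψo ⟨χ, hχr⟩)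
    have hξc : irrPerm φCN n ξ = ξc ⟨χ, hχr⟩ := M.unique_right (ψc ⟨χ, hχr⟩) _ _ (hψi _)
      (hNinvC n ξ hξi') (hξi _) (by rw [← hn, hperm]; exact hψm) (hξm _)
    refine (hηu ⟨χ, hχr⟩ η hη ?_).symm
    rw [← hξc, hNover, hξe]
    exact hθo

end Cfsg.Agent.RealDeg
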