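import Cfsg.Agent.RealDeg.Orbit
import Cfsg.Agent.Signalizer.PAction
import Cfsg.Agent.BlockNilp.DegreeDivides
import Mathlib.GroupTheory.Solvable

/-!
# Real characters of `p'`-degree force normal Sylow subgroups in `O^{2'}`
-/

set_option autoImplicit false
set_option linter.style.haveILetI false
set_option linter.unusedSectionVars false

open scoped Pointwise
open Cfsg

namespace Cfsg.Agent.RealDeg

universe u

/-- The subgroup generated by the elements of `p`-power order. -/
def elemGen (p : ℕ) (G : Type u) [Group G] : Subgroup G :=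
  Subgroup.closure {g : G | ∃ k : ℕ, orderOf g = p ^ k}

theorem mem_elemGen {p : ℕ} {G : Type u} [Group G] {g : G} (h : ∃ k : ℕ, orderOf g = p ^ k) :
    g ∈ elemGen p G := Subgroup.subset_closure h

instance elemGen_normal (p : ℕ) (G : Type u) [Group G] : (elemGen p G).Normal :=
  ⟨fun n hn g => by
    have hle : elemGen p G ≤ (elemGen p G).comap (MulAut.conj g).toMonoidHom := by
      refine (Subgroup.closure_le _).mpr fun x ⟨k, hk⟩ => ?_
      exact mem_elemGen ⟨k, ((MulAut.conj g).orderOf_eq x).trans hk⟩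
    exact hle hn⟩

theorem map_elemGen {p : ℕ} (hp : p.Prime) {G : Type u} [Group G] [Finite G] (N : Subgroup G)
    [N.Normal] : (elemGen p G).map (QuotientGroup.mk' N) = elemGen p (G ⧸ N) := by
  refine le_antisymm ?_ ?_
  · rw [elemGen, MonoidHom.map_closure]
    refine Subgroup.closure_mono ?_
    rintro _ ⟨x, ⟨k, hk⟩, rfl⟩
    obtain ⟨i, -, hi⟩ := (Nat.dvd_prime_pow hp).mp (hk ▸ orderOf_map_dvd (QuotientGroup.mk' N) x)
    exact ⟨i, hi⟩
  · refine (Subgroup.closure_le _).mpr ?_
    rintro y ⟨k, hk⟩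
    obtain ⟨x, rfl⟩ := QuotientGroup.mk'_surjective N y
    set o := orderOf x with ho
    set m := ordCompl[p] o with hm
    have hy : x ^ m ∈ elemGen p G := mem_elemGen ⟨o.factorization p, by
      rw [orderOf_pow' x (Nat.ordCompl_pos p (orderOf_pos x).ne').ne', ← ho,
        Nat.gcd_eq_right (Nat.ordCompl_dvd o p),
        Nat.div_div_self (Nat.ordProj_dvd o p) (orderOf_pos x).ne']⟩
    have hco : m.Coprime (orderOf (QuotientGroup.mk' N x)) := by
      rw [hk, hm]
      exact (Nat.coprime_ordCompl hp (orderOf_pos x).ne').symm.pow_right k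
    obtain ⟨i, hi⟩ := exists_pow_eq_self_of_coprime (x := QuotientGroup.mk' N x) hco
    refine ⟨(x ^ m) ^ i, Subgroup.pow_mem _ hy i, ?_⟩
    rw [map_pow, map_pow]
    exact hi

variable {G : Type u} [Group G] [Finite G] {p : ℕ} [hp : Fact p.Prime]

theorem isSyl_of_not_dvd {Q X : Subgroup G} (hQ : IsPGroup p Q) (hle : Q ≤ X)
    (h : ¬ p ∣ Q.relIndex X) : Signalizer.IsSyl p Q X := by
  refine ⟨hle, hQ, fun S hS hSp hQS => le_antisymm (Subgroup.relIndex_eq_one.mp ?_) hQS⟩
  obtain ⟨k, hk⟩ := IsPGroup.iff_card.mp hSp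
  exact Nat.eq_one_of_dvd_coprimes (((Nat.Prime.coprime_iff_not_dvd hp.out).mpr h).pow_left k)
    (hk ▸ Subgroup.relIndex_dvd_card Q S) (Dvd.intro _ (Subgroup.relIndex_mul_relIndex Q S X hQS hS))

/-- Cases with a nontrivial normal `p'`-subgroup centralising `Q`. -/
theorem normal_of_sup_centralizing {Q C : Subgroup G} [C.Normal] (hQ : IsPGroup p Q) {q : ℕ}
    (hq : q.Prime) (hqp : q ≠ p) (hC : ∀ c ∈ C, c ^ q = 1)
    (hcc : C ≤ Subgroup.centralizer (Q : Set G)) (hn : (Q ⊔ C).Normal) : Q.Normal := by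
  refine ⟨fun s hs g => ?_⟩
  have hmem : g * s * g⁻¹ ∈ C ⊔ Q := sup_comm Q C ▸ hn.conj_mem s (Subgroup.mem_sup_left hs) g
  rw [← SetLike.mem_coe, Subgroup.normal_mul] at hmem
  obtain ⟨c, hc, t, ht, hct⟩ := Set.mem_mul.mp hmem
  have hct' : Commute c t := (Subgroup.mem_centralizer_iff.mp (hcc hc) t ht).symm
  obtain ⟨i, hi⟩ := IsPGroup.iff_orderOf.mp hQ ⟨s, hs⟩
  obtain ⟨j, hj⟩ := IsPGroup.iff_orderOf.mp hQ ⟨t, ht⟩
  rw [Subgroup.orderOf_mk] at hi hj
  have h1 : c ^ p ^ (i + j) = 1 := by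
    have h2 : (g * s * g⁻¹) ^ p ^ (i + j) = 1 := by
      rw [conj_pow, orderOf_dvd_iff_pow_eq_one.mp (hi ▸ pow_dvd_pow p (Nat.le_add_right i j))]
      group
    rw [← hct, hct'.mul_pow,
      orderOf_dvd_iff_pow_eq_one.mp (show orderOf t ∣ p ^ (i + j) from hj ▸ pow_dvd_pow p (Nat.le_add_left j i)), mul_one] at h2
    exact h2
  have hc1 : c = 1 := orderOf_eq_one_iff.mp (Nat.eq_one_of_dvd_coprimes
    (((Nat.coprime_primes hq hp.out).mpr hqp).pow_right (i + j))
    (orderOf_dvd_of_pow_eq_one (hC c hc)) (orderOf_dvd_of_pow_eq_one h1))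
  rw [← hct, hc1, one_mul]
  exact ht

/-- The core step: `N` elementary of order prime to `p`, with no fixed point of `Q`. -/
theorem false_of_fixfree (hyp : Hyp p G) (U Q N : Subgroup G) [hU : U.Normal] [hN : N.Normal]
    (hKU : elemGen 2 G ≤ U) (hUp : ∃ a, (elemGen 2 G).relIndex U = p ^ a)
    (hQ : IsPGroup p Q) {q : ℕ} (hq : q.Prime) (hqp : q ≠ p) (hNU : N ≤ U) (hNne : N ≠ ⊥)
    (hNab : ∀ a b : N, a * b = b * a) (hNq : ∀ n ∈ N, n ^ q = 1)
    (hC : N ⊓ Subgroup.centralizer (Q : Set G) = ⊥) (hQN : (Q ⊔ N).Normal) : False := by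
  classical
  haveI := Fact.mk hq
  letI := Fintype.ofFinite Q
  set K := elemGen 2 G
  set H := Subgroup.normalizer (Q : Set G) with hH
  obtain ⟨k, hk⟩ := IsPGroup.iff_card.mp hQ
  have hNp : IsPGroup q N := fun n => ⟨1, Subtype.ext (by simpa using hNq n n.2)⟩
  obtain ⟨l, hl⟩ := IsPGroup.iff_card.mp hNp
  have hco : (Nat.card N).Coprime (Nat.card Q) := by
    rw [hk, hl]; exact ((Nat.coprime_primes hq hp.out).mpr hqp).pow l k
  have hNQ : N ⊓ Q = ⊥ := (Subgroup.disjoint_of_coprime_natCard hco).eq_bot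
  -- `N ∩ N(Q)` is trivial
  have hdis : N ⊓ H = ⊥ := by
    rw [Subgroup.eq_bot_iff_forall]
    rintro n ⟨hn, hnH⟩
    have h1 : n ∈ N ⊓ Subgroup.centralizer (Q : Set G) := by
      refine ⟨hn, Subgroup.mem_centralizer_iff.mpr fun s hs => ?_⟩
      have h2 : n * s * n⁻¹ * s⁻¹ ∈ N ⊓ Q := ⟨by
        have := N.mul_mem hn (hN.conj_mem _ (N.inv_mem hn) s)
        simpa [mul_assoc] using this,
        Q.mul_mem ((Subgroup.mem_normalizer_iff.mp hnH s).mp hs) (Q.inv_mem hs)⟩
      rw [hNQ, Subgroup.mem_bot] at h2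
      exact (mul_inv_eq_iff_eq_mul.mp (mul_inv_eq_one.mp h2)).symm
    rwa [hC, Subgroup.mem_bot] at h1
  -- Frattini
  have hsyl : Signalizer.IsSyl p Q (Q ⊔ N) := by
    refine isSyl_of_not_dvd hQ le_sup_left fun h => hqp ((Nat.prime_dvd_prime_iff_eq hp.out hq).mp
      (hp.out.dvd_of_dvd_pow (n := l) ?_)).symm
    rw [← hl]
    refine h.trans ?_
    refine Nat.dvd_of_mul_dvd_mul_left Nat.card_pos (k := Nat.card Q) ?_
    rw [← Subgroup.relIndex_bot_left, Subgroup.relIndex_mul_relIndex _ _ _ bot_le le_sup_left,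
      ← Subgroup.relIndex_mul_relIndex ⊥ N (Q ⊔ N) bot_le le_sup_right,
      Subgroup.relIndex_sup_right, Subgroup.relIndex_bot_left, Subgroup.relIndex_bot_left,
      mul_comm (Nat.card Q)]
    exact Nat.mul_dvd_mul_left _ (Subgroup.relIndex_dvd_card N Q)
  have hcov : ∀ x : G, ∃ n ∈ N, n⁻¹ * x ∈ H := by
    intro x
    haveI := hQN
    have hX : (Q ⊔ N).map (MulAut.conj x).toMonoidHom = Q ⊔ N := by
      rw [Signalizer.map_conj_eq_self_iff, Subgroup.normalizer_eq_top]; exact Subgroup.mem_top x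
    obtain ⟨y, hy, hye⟩ := hsyl.exists_conj (hX ▸ hsyl.map_conj x)
    rw [sup_comm, ← SetLike.mem_coe, Subgroup.normal_mul] at hy
    obtain ⟨n, hn, s, hs, rfl⟩ := Set.mem_mul.mp hy
    refine ⟨n, hn, ?_⟩
    rw [← Signalizer.map_conj_map_conj, Signalizer.map_conj_eq_self_iff.mpr
      (Subgroup.le_normalizer hs)] at hye
    exact Signalizer.mem_normalizer_of_map_conj_eq hye
  -- no nontrivial linear character of `N` is inverted
  have key : ∀ (f : N →* ℂˣ) (g : G),
      (∀ n n' : N, (n' : G) = g * n * g⁻¹ → (f n' : ℂ) = starRingEnd ℂ (f n : ℂ)) → f = 1 := by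
    intro f g hfg
    obtain ⟨T, χ, hT, hreal, hdeg⟩ := exists_real_of_complement N H hNab hdis hcov f g hfg
    have hp' : ¬ p ∣ T.index := hdeg ▸ hyp χ hreal
    have hQT : Q ≤ T := by
      haveI := hQN
      have hNT : N ≤ T := fun x hx => (hT x).mpr fun n n' he => by
        have h2 : x * (n : G) = (n : G) * x := congrArg Subtype.val (hNab ⟨x, hx⟩ n)
        rw [show n' = n from Subtype.ext (he.trans (by rw [h2, mul_inv_cancel_right]))]
      have h1 : T.relIndex (Q ⊔ N) ∣ T.index := BlockNilp.relIndex_dvd_index_normal T (Q ⊔ N)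
      have h2 : T.relIndex (Q ⊔ N) = 1 := by
        refine Nat.eq_one_of_dvd_coprimes (((Nat.Prime.coprime_iff_not_dvd hp.out).mpr hp').pow_left k)
          ?_ h1
        rw [← hk, sup_comm]
        refine (Subgroup.relIndex_dvd_of_le_left _ hNT).trans ?_
        rw [sup_comm, Subgroup.relIndex_sup_right]
        exact Subgroup.relIndex_dvd_card N Q
      exact le_sup_left.trans (Subgroup.relIndex_eq_one.mp h2)
    refine MonoidHom.ext fun n => ?_
    letI : CommGroup N := { (inferInstance : Group N) with mul_comm := hNab }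
    let cj : Q → N := fun x => ⟨(x : G) * n * (x : G)⁻¹, hN.conj_mem _ n.2 x⟩
    set w := ∏ x : Q, cj x with hw
    have hwfix : ∀ y ∈ Q, (y : G) * (w : G) * y⁻¹ = w := by
      intro y hy
      let cy : N →* N := (MulAut.conjNormal (H := N) y).toMonoidHom
      have h1 : cy w = w := by
        rw [hw, map_prod]
        refine Fintype.prod_equiv (Equiv.mulLeft (⟨y, hy⟩ : Q)) _ _ fun x => Subtype.ext ?_
        show ((MulAut.conjNormal (H := N) y) (cj x) : G) = (y * x : G) * n * (y * x : G)⁻¹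
        rw [MulAut.conjNormal_apply]
        show y * ((x : G) * n * (x : G)⁻¹) * y⁻¹ = _
        group
      exact (MulAut.conjNormal_apply y w).symm.trans (congrArg Subtype.val h1)
    have hw1 : w = 1 := by
      have hmem : (w : G) ∈ N ⊓ Subgroup.centralizer (Q : Set G) :=
        ⟨w.2, Subgroup.mem_centralizer_iff.mpr fun y hy =>
          mul_inv_eq_iff_eq_mul.mp (hwfix y hy)⟩
      rw [hC, Subgroup.mem_bot] at hmem
      exact Subtype.ext hmem
    have h3 : (f n) ^ Nat.card Q = 1 := by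
      have h4 := congrArg f hw1
      rw [hw, map_prod, map_one, Finset.prod_congr rfl fun x _ => ((hT (x : G)).mp (hQT x.2) n (cj x) rfl :
        f (cj x) = f n), Finset.prod_const, Finset.card_univ, ← Nat.card_eq_fintype_card] at h4
      exact h4
    rw [MonoidHom.one_apply]
    exact orderOf_eq_one_iff.mp (Nat.eq_one_of_dvd_coprimes hco
      ((orderOf_map_dvd f n).trans (orderOf_dvd_natCard n)) (orderOf_dvd_of_pow_eq_one h3))
  obtain ⟨n₀, hn₀, hn₀1⟩ := N.bot_or_exists_ne_one.resolve_left hNne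
  have hq2 : q ≠ 2 := by
    rintro rfl
    obtain ⟨χ, hχ⟩ := Char.exists_irr_ne_degree (g := (⟨n₀, hn₀⟩ : N))
      (fun e => hn₀1 (congrArg Subtype.val e))
    obtain ⟨f, hf⟩ := Char.irr_exists_monoidHom_of_comm hNab χ.2
    apply hχ
    have hf1 := key f 1 fun n n' he => by
      rw [show n' = n from Subtype.ext (by rw [he]; group)]
      have h2 : (f n : ℂ) * (f n : ℂ) = 1 := by
        rw [← Units.val_mul, ← map_mul]
        have := hNq n n.2
        rw [show n * n = 1 from Subtype.ext (by simpa [pow_two] using this), map_one, Units.val_one]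
      rcases mul_self_eq_one_iff.mp h2 with h | h <;> rw [h] <;> simp
    rw [hf, hf, hf1, MonoidHom.one_apply, MonoidHom.one_apply]
  -- the `2`-elements centralise `N`
  have hcent : ∀ g : G, (∃ k, orderOf g = 2 ^ k) → ∀ n ∈ N, g * n * g⁻¹ = n := by
    rintro g ⟨j, hj⟩
    revert g
    induction j with
    | zero =>
      intro g hg n _
      rw [pow_zero, orderOf_eq_one_iff] at hg
      subst hg
      group
    | succ j ih =>
      intro g hg
      have hsq : ∀ n ∈ N, g * g * n * (g * g)⁻¹ = n := ih (g * g) (by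
        rw [← pow_two, orderOf_pow' _ two_ne_zero, hg,
          Nat.gcd_eq_right (dvd_pow_self 2 (Nat.succ_ne_zero j)), pow_succ,
          Nat.mul_div_cancel _ two_pos])
      by_contra! hmov
      obtain ⟨f, hf1, hf⟩ := exists_inverted_hom N hNab g hmov hsq
      exact hf1 (key f g hf)
  have hKc : ∀ x ∈ K, ∀ n ∈ N, x * n * x⁻¹ = n := by
    intro x hx
    induction hx using Subgroup.closure_induction with
    | mem x hx => exact hcent x hx
    | one => intro n _; group
    | mul a b _ _ ha hb =>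
      intro n hn
      calc a * b * n * (a * b)⁻¹ = a * (b * n * b⁻¹) * a⁻¹ := by group
        _ = n := by rw [hb n hn, ha n hn]
    | inv a _ ha =>
      intro n hn
      calc a⁻¹ * n * a⁻¹⁻¹ = a⁻¹ * (a * n * a⁻¹) * a := by rw [ha n hn, inv_inv]
        _ = n := by group
  have hNK : N ≤ K := by
    obtain ⟨a, ha⟩ := hUp
    refine Subgroup.relIndex_eq_one.mp (Nat.eq_one_of_dvd_coprimes
      (((Nat.coprime_primes hq hp.out).mpr hqp).pow l a) ?_ ?_)
    · rw [← hl, ← Subgroup.inf_relIndex_right]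
      exact Subgroup.relIndex_dvd_card _ N
    · rw [← ha, ← Subgroup.relIndex_sup_right, sup_comm]
      exact Dvd.intro _ (Subgroup.relIndex_mul_relIndex K (K ⊔ N) U le_sup_left (sup_le hKU hNU))
  choose δ hδ hδH using hcov
  have huniq : ∀ x : G, ∀ n ∈ N, n⁻¹ * x ∈ H → δ x = n := by
    intro x n hn hnx
    have h : (δ x)⁻¹ * n ∈ N ⊓ H := ⟨N.mul_mem (N.inv_mem (hδ x)) hn, by
      simpa [mul_assoc] using H.mul_mem (hδH x) (H.inv_mem hnx)⟩
    rw [hdis, Subgroup.mem_bot] at h
    exact inv_mul_eq_one.mp h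
  let ψ : K →* N :=
    { toFun := fun x => ⟨δ x, hδ x⟩
      map_one' := Subtype.ext (huniq _ 1 N.one_mem (by simp))
      map_mul' := fun x y => Subtype.ext (huniq _ (δ x * δ y) (N.mul_mem (hδ _) (hδ _)) (by
        have h1 : (y : G) * δ x * (y : G)⁻¹ = δ x := hKc y y.2 _ (hδ x)
        have h2 : (x : G) * δ y * (x : G)⁻¹ = δ y := hKc x x.2 _ (hδ y)
        have h3 : δ x * δ y = δ y * δ x := congrArg Subtype.val (hNab ⟨_, hδ x⟩ ⟨_, hδ y⟩)
        have h4 : (δ x * δ y)⁻¹ * ((x * y : K) : G) = ((δ x)⁻¹ * x) * ((δ y)⁻¹ * y) := by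
          rw [Subgroup.coe_mul, h3]
          calc (δ y * δ x)⁻¹ * ((x : G) * y) = (δ x)⁻¹ * ((δ y)⁻¹ * ((x : G) * y)) := by group
            _ = (δ x)⁻¹ * (((x : G) * δ y * (x : G)⁻¹)⁻¹ * ((x : G) * y)) := by rw [h2]
            _ = _ := by group
        rw [h4]
        exact H.mul_mem (hδH x) (hδH y))) }
  have hψ2 : ∀ x : K, (∃ k, orderOf (x : G) = 2 ^ k) → ψ x = 1 := by
    rintro x ⟨j, hj⟩
    rw [Subgroup.orderOf_coe] at hj
    exact orderOf_eq_one_iff.mp (Nat.eq_one_of_dvd_coprimes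
      (((Nat.coprime_primes Nat.prime_two hq).mpr (Ne.symm hq2)).pow j l)
      (hj ▸ orderOf_map_dvd ψ x) (hl ▸ orderOf_dvd_natCard _))
  have hψ : ∀ x : K, ψ x = 1 := by
    rintro ⟨x, hx⟩
    induction hx using Subgroup.closure_induction with
    | mem x hx => exact hψ2 _ hx
    | one => exact map_one ψ
    | mul a b ha hb h1 h2 =>
      rw [show (⟨a * b, Subgroup.mul_mem _ ha hb⟩ : K) = ⟨a, ha⟩ * ⟨b, hb⟩ from rfl, map_mul, h1, h2,
        one_mul]
    | inv a ha h1 =>
      rw [show (⟨a⁻¹, Subgroup.inv_mem _ ha⟩ : K) = (⟨a, ha⟩ : K)⁻¹ from rfl, map_inv, h1, inv_one]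
  have h1 : δ n₀ = n₀ := huniq n₀ n₀ hn₀ (by simp)
  have h2 : δ n₀ = 1 := congrArg Subtype.val (hψ ⟨n₀, hNK hn₀⟩)
  exact hn₀1 (h1.symm.trans h2)

theorem normal_of_hyp : ∀ (n : ℕ) (G : Type u) [Group G] [Finite G], Nat.card G ≤ n →
    Group.IsSolvable (elemGen p G) → Hyp p G → ∀ (U Q : Subgroup G), U.Normal → elemGen 2 G ≤ U →
    (∃ a, (elemGen 2 G).relIndex U = p ^ a) → IsPGroup p Q → Q ≤ U → ¬ p ∣ Q.relIndex U →
    Q.Normal := by
  intro n
  induction n with
  | zero =>
    intro G _ _ hn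
    exact absurd hn (not_le.mpr Nat.card_pos)
  | succ n ih =>
    intro G _ _ hn hsolv hyp U Q hU hKU hUp hQ hQU hidx
    haveI := hU
    rcases eq_or_ne Q ⊥ with rfl | hQne
    · infer_instance
    have hstep : ∀ N : Subgroup G, N.Normal → N ≤ U → N ≠ ⊥ → (Q ⊔ N).Normal := by
      intro N hN hNU hNne
      haveI := hN
      set π := QuotientGroup.mk' N with hπ
      have hπs : Function.Surjective π := QuotientGroup.mk'_surjective N
      have hlt : Nat.card (G ⧸ N) ≤ n := by
        have h1 : Nat.card (G ⧸ N) < Nat.card G := by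
          rw [← Subgroup.index_eq_card, ← N.card_mul_index]
          exact lt_mul_of_one_lt_left (Nat.pos_of_ne_zero Subgroup.index_ne_zero_of_finite)
            ((Subgroup.one_lt_card_iff_ne_bot N).mpr hNne)
        omega
      have hmm : ∀ A B : Subgroup G, N ≤ B → (A.map π).relIndex (B.map π) ∣ A.relIndex B := by
        intro A B hB
        rw [Subgroup.relIndex_map_map π A B, QuotientGroup.ker_mk', sup_eq_left.mpr hB]
        exact Subgroup.relIndex_dvd_of_le_left B le_sup_left
      have hsolv' : Group.IsSolvable (elemGen p (G ⧸ N)) := by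
        rw [← map_elemGen hp.out N]
        haveI := hsolv
        exact Group.isSolvable_of_surjective
          (f := π.subgroupMap (elemGen p G)) (π.subgroupMap_surjective _)
      have hQn := ih (G ⧸ N) hlt hsolv' (hyp_quotient hyp N) (U.map π) (Q.map π)
        (hU.map π hπs) (by rw [← map_elemGen Nat.prime_two N]; exact Subgroup.map_mono hKU) (by
          obtain ⟨a, ha⟩ := hUp
          rw [← map_elemGen Nat.prime_two N]
          obtain ⟨b, -, hb⟩ := (Nat.dvd_prime_pow hp.out).mp (ha ▸ hmm (elemGen 2 G) U hNU)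
          exact ⟨b, hb⟩) (hQ.map π) (Subgroup.map_mono hQU)
        (fun h => hidx (h.trans (hmm Q U hNU)))
      have h2 := hQn.comap π
      rwa [Subgroup.comap_map_eq, QuotientGroup.ker_mk'] at h2
    -- an abelian normal subgroup inside `U`
    set D := U ⊓ elemGen p G with hD
    have hQD : Q ≤ D := le_inf hQU fun x hx => by
      obtain ⟨k, hk⟩ := IsPGroup.iff_orderOf.mp hQ ⟨x, hx⟩
      exact mem_elemGen ⟨k, by rwa [Subgroup.orderOf_mk] at hk⟩
    haveI : D.Normal := Subgroup.normal_inf_normal U (elemGen p G)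
    haveI : Group.IsSolvable D := by
      haveI := hsolv
      exact Group.isSolvable_of_isSolvable_injective
        (f := Subgroup.inclusion (inf_le_right : D ≤ elemGen p G)) (Subgroup.inclusion_injective _)
    haveI : Nontrivial D := D.nontrivial_iff_ne_bot.mpr fun h => hQne (le_bot_iff.mp (h ▸ hQD))
    obtain ⟨d, hd⟩ := (inferInstance : Group.IsSolvable D).solvable
    obtain ⟨e, hne, hbot⟩ : ∃ e, derivedSeries D e ≠ ⊥ ∧ derivedSeries D (e + 1) = ⊥ := by
      by_contra! hcon
      have : ∀ i, derivedSeries D i ≠ ⊥ := by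
        intro i
        induction i with
        | zero => rw [derivedSeries_zero]; exact top_ne_bot
        | succ i hi => exact hcon i hi
      exact this d hd
    set E := derivedSeries D e
    rw [derivedSeries_succ] at hbot
    have hEcomm : ∀ a ∈ E, ∀ b ∈ E, a * b = b * a := fun a ha b hb => by
      have h := Subgroup.commutator_eq_bot_iff_le_centralizer.mp hbot ha
      exact (Subgroup.mem_centralizer_iff.mp h b hb).symm
    obtain ⟨q, hq, hqE⟩ := Nat.exists_prime_and_dvd
      (fun h : Nat.card E = 1 => hne (Subgroup.card_eq_one.mp h))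
    let E' : Subgroup D :=
      { carrier := {x | x ∈ E ∧ x ^ q = 1}
        one_mem' := ⟨E.one_mem, one_pow q⟩
        mul_mem' := fun {a b} ha hb => ⟨E.mul_mem ha.1 hb.1, by
          rw [(show Commute a b from hEcomm a ha.1 b hb.1).mul_pow, ha.2, hb.2, one_mul]⟩
        inv_mem' := fun {a} ha => ⟨E.inv_mem ha.1, by rw [inv_pow, ha.2, inv_one]⟩ }
    haveI hE'c : E'.Characteristic := Subgroup.characteristic_iff_le_comap.mpr fun φ x hx =>
      ⟨Subgroup.characteristic_iff_le_comap.mp (inferInstance : E.Characteristic) φ hx.1,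
        show (φ x) ^ q = 1 by rw [← map_pow, hx.2, map_one]⟩
    set N := E'.map D.subtype with hNdef
    haveI hN : N.Normal := inferInstance
    have hNU : N ≤ U := (Subgroup.map_subtype_le _).trans inf_le_left
    have hNne : N ≠ ⊥ := by
      haveI := Fact.mk hq
      obtain ⟨x, hx⟩ := exists_prime_orderOf_dvd_card' (G := E) q hqE
      rw [hNdef, Ne, Subgroup.map_eq_bot_iff_of_injective _ D.subtype_injective]
      intro h
      have hx' : (x : D) ∈ E' := ⟨x.2, by rw [← hx, ← Subgroup.orderOf_coe, pow_orderOf_eq_one]⟩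
      rw [h, Subgroup.mem_bot] at hx'
      rw [← Subgroup.orderOf_coe, hx', orderOf_one] at hx
      exact hq.one_lt.ne hx
    have hNab : ∀ a b : N, a * b = b * a := by
      rintro ⟨_, a, ha, rfl⟩ ⟨_, b, hb, rfl⟩
      exact Subtype.ext (congrArg Subtype.val (hEcomm a ha.1 b hb.1) :)
    have hNq : ∀ m ∈ N, m ^ q = 1 := by
      rintro _ ⟨a, ha, rfl⟩
      rw [← map_pow, ha.2, map_one]
    have hQN := hstep N hN hNU hNne
    rcases eq_or_ne q p with rfl | hqp
    · have hNp : IsPGroup q N := fun m => ⟨1, Subtype.ext (by simpa using hNq m m.2)⟩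
      have hsup : IsPGroup q (Q ⊔ N : Subgroup G) := hQ.to_sup_of_normal_right hNp
      have heq : Q ⊔ N = Q :=
        (isSyl_of_not_dvd hQ hQU hidx).2.2 _ (sup_le hQU hNU) hsup le_sup_left
      rwa [heq] at hQN
    · set C := N ⊓ Subgroup.centralizer (Q : Set G) with hCdef
      rcases eq_or_ne C ⊥ with hC | hC
      · exact (false_of_fixfree hyp U Q N hKU hUp hQ hq hqp hNU hNne hNab hNq hC hQN).elim
      · haveI hCn : C.Normal := by
          refine ⟨fun c hc g => ⟨hN.conj_mem c hc.1 g, Subgroup.mem_centralizer_iff.mpr fun s hs => ?_⟩⟩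
          have h1 : g⁻¹ * s * g ∈ Q ⊔ N := by
            simpa using hQN.conj_mem s (Subgroup.mem_sup_left hs) g⁻¹
          rw [sup_comm, ← SetLike.mem_coe, Subgroup.normal_mul] at h1
          obtain ⟨m, hm, t, ht, hmt⟩ := Set.mem_mul.mp h1
          have h2 : c * m = m * c := congrArg Subtype.val (hNab ⟨c, hc.1⟩ ⟨m, hm⟩)
          have h3 : c * t = t * c := (Subgroup.mem_centralizer_iff.mp hc.2 t ht).symm
          have h4 : c * (g⁻¹ * s * g) = (g⁻¹ * s * g) * c :=
            hmt ▸ ((show Commute c m from h2).mul_right (show Commute c t from h3)).eq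
          calc s * (g * c * g⁻¹) = g * ((g⁻¹ * s * g) * c) * g⁻¹ := by group
            _ = g * (c * (g⁻¹ * s * g)) * g⁻¹ := by rw [h4]
            _ = g * c * g⁻¹ * s := by group
        exact normal_of_sup_centralizing hQ hq hqp (fun c hc => hNq c (Subgroup.mem_inf.mp hc).1) inf_le_right
          (hstep C hCn (inf_le_left.trans hNU) hC)

theorem sylow_normal (hsolv : Group.IsSolvable (elemGen p G)) (hyp : Hyp p G) (U : Subgroup G)
    (hU : U.Normal) (hKU : elemGen 2 G ≤ U) (hUp : ∃ a, (elemGen 2 G).relIndex U = p ^ a)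
    (Q : Sylow p U) : (Q : Subgroup U).Normal := by
  have h := normal_of_hyp (p := p) _ G le_rfl hsolv hyp U ((Q : Subgroup U).map U.subtype) hU hKU
    hUp (Q.isPGroup'.map _) (Subgroup.map_subtype_le _) (by
      rw [← Subgroup.inf_relIndex_right, inf_eq_left.mpr (Subgroup.map_subtype_le _)]
      have := Q.not_dvd_index
      rwa [Subgroup.relIndex, Subgroup.subgroupOf,
        Subgroup.comap_map_eq_self_of_injective U.subtype_injective])
  rw [← Subgroup.comap_map_eq_self_of_injective U.subtype_injective (Q : Subgroup U)]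
  exact h.comap _

end Cfsg.Agent.RealDeg
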