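import Cfsg.Agent.RealDeg.RealClasses
import Cfsg.Agent.RealDeg.SylowClosed
import Cfsg.Agent.CharInd.Correspondence

/-!
# Real classes meet the centraliser of a Sylow subgroup
-/

set_option autoImplicit false
set_option linter.style.haveILetI false
set_option linter.unusedSectionVars false

open scoped ComplexConjugate
open Cfsg Cfsg.Agent.Char Cfsg.Agent.GlauberCorr

namespace Cfsg.Agent.RealDeg

universe u

variable {G : Type u} [Group G] [Finite G]

/-- Over a real character of a normal subgroup of odd index there is a real character. -/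
theorem exists_real_over_odd [Fintype G] (K : Subgroup G) [K.Normal] [Fintype K]
    (hodd : Odd K.index) (ψ : IrrCharacter K) (hψ : ∀ k, ((ψ : K → ℂ) k).im = 0) :
    ∃ χ : IrrCharacter G, (∀ g, ((χ : G → ℂ) g).im = 0) ∧
      classInner (fun k : K => (χ : G → ℂ) k) (ψ : K → ℂ) ≠ 0 := by
  classical
  choose e he using fun χ : IrrCharacter G =>
    isCharacter_classInner_nat (CharInd.isCharacter_res K (isCharacter_of_irr χ.2)) ψ
  set T := CharInd.conjStab K (ψ : K → ℂ) with hT
  have hKT : K ≤ T := CharInd.le_conjStab K (irr_isClassFunction ψ.2)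
  have hsq : Nat.card K * ∑ χ : IrrCharacter G, e χ * e χ = Nat.card T := by
    apply Nat.cast_injective (R := ℂ)
    push_cast
    have h1 := CharInd.card_mul_classInner_indFun_normal K (ψ : K → ℂ) (ψ : K → ℂ)
    have h2 : ∀ χ : IrrCharacter G,
        classInner (indFun K (ψ : K → ℂ)) (χ : G → ℂ) = (e χ : ℂ) := fun χ => by
      rw [CharInd.classInner_indFun_left K _ (irr_isClassFunction χ.2), ← CharInd.classInner_swap,
        he χ, Complex.conj_natCast]
    rw [classInner_eq_sum_mul_conj (CharInd.indFun_isClassFunction K _)] at h1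
    simp only [h2, Complex.conj_natCast] at h1
    rw [h1]
    have h3 : ∀ x : G, classInner (ψ : K → ℂ) (CharInd.conjChar K x (ψ : K → ℂ)) =
        if x ∈ T then 1 else 0 := fun x => by
      split_ifs with hx
      · rw [(CharInd.mem_conjStab K).mp hx, classInner_irr_self ψ.2]
      · exact classInner_irr_ne ψ.2 (CharInd.conjChar_irr K x ψ.2) fun h =>
          hx ((CharInd.mem_conjStab K).mpr h.symm)
    rw [Finset.sum_congr rfl fun x _ => h3 x, Finset.sum_boole, ← Fintype.card_subtype,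
      Nat.card_eq_fintype_card]
  have hodd' : Odd (∑ χ : IrrCharacter G, e χ * e χ) := by
    have h1 : Nat.card K * K.relIndex T = Nat.card T := by
      rw [← Subgroup.relIndex_bot_left, Subgroup.relIndex_mul_relIndex _ _ _ bot_le hKT,
        Subgroup.relIndex_bot_left]
    rw [Nat.eq_of_mul_eq_mul_left Nat.card_pos (hsq.trans h1.symm)]
    exact hodd.of_dvd_nat (Subgroup.relIndex_dvd_index_of_le hKT)
  have heconj : ∀ χ, e (conjIrr χ) = e χ := fun χ => by
    apply Nat.cast_injective (R := ℂ)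
    rw [← he, ← Complex.conj_natCast (e χ), ← he χ]
    unfold classInner
    simp only [map_mul, map_sum, map_inv₀, Complex.conj_natCast, conjIrr_apply,
      Complex.conj_eq_iff_im.mpr (hψ _)]
  suffices h : ∃ χ, conjIrr χ = χ ∧ e χ ≠ 0 by
    obtain ⟨χ, hc, h0⟩ := h
    exact ⟨χ, (conjIrr_eq_self_iff χ).mp hc, by rw [he]; exact Nat.cast_ne_zero.mpr h0⟩
  by_contra! hcon
  apply Nat.not_even_iff_odd.mpr hodd'
  rw [← ZMod.natCast_eq_zero_iff_even]
  push_cast
  refine Finset.sum_involution (fun χ _ => conjIrr χ) (fun χ _ => ?_) (fun χ _ h hc => ?_)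
    (fun _ _ => Finset.mem_univ _) (fun χ _ => ?_)
  · rw [heconj, ← two_mul]
    exact mul_eq_zero_of_left (by decide) _
  · exact h (by rw [hcon χ hc, Nat.cast_zero, zero_mul])
  · exact Subtype.ext (funext fun g => by rw [conjIrr_apply, conjIrr_apply, Complex.conj_conj])

variable {p : ℕ} [hp : Fact p.Prime]

/-- A real character of a normal subgroup of odd index is fixed by a Sylow subgroup. -/
theorem exists_conj_le_stab (hyp : Hyp p G) (K : Subgroup G) [K.Normal] (hodd : Odd K.index)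
    (P : Subgroup G) (hP : IsPGroup p P) (ψ : IrrCharacter K)
    (hψ : ∀ k, ((ψ : K → ℂ) k).im = 0) :
    ∃ g : G, ∀ u ∈ P, g⁻¹ * u * g ∈ CharInd.conjStab K (ψ : K → ℂ) := by
  classical
  letI := Fintype.ofFinite G
  letI := Fintype.ofFinite K
  obtain ⟨χ, hreal, hover⟩ := exists_real_over_odd K hodd ψ hψ
  set T := CharInd.conjStab K (ψ : K → ℂ) with hT
  have hidx : ¬ p ∣ T.index := by
    intro hdvd
    apply hyp χ hreal
    obtain ⟨e, he⟩ :=
      isCharacter_classInner_nat (CharInd.isCharacter_res K (isCharacter_of_irr χ.2)) ψ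
    obtain ⟨d, -, hd, -⟩ := irr_degree_dvd_card ψ.2
    have h1 := congrFun (CharInd.clifford K χ.2 ψ.2 hover) 1
    have hval : ∀ φ ∈ CharInd.conjClass K (ψ : K → ℂ), φ 1 = (d : ℂ) := by
      intro φ hφ
      obtain ⟨x, rfl⟩ := (CharInd.mem_conjClass K).1 hφ
      rw [CharInd.conjChar_apply, ← hd]
      exact congrArg _ (Subtype.ext (by simp))
    simp only [Pi.smul_apply, Finset.sum_apply, smul_eq_mul, OneMemClass.coe_one, he,
      Finset.sum_congr rfl hval, Finset.sum_const, nsmul_eq_mul, CharInd.card_conjClass] at h1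
    rw [RealChar.charDegree_of_eq_nat (n := e * (T.index * d)) (by push_cast; exact h1)]
    exact dvd_mul_of_dvd_right (dvd_mul_of_dvd_left hdvd d) e
  obtain ⟨q, hq⟩ := hP.nonempty_fixed_point_of_prime_not_dvd_card (G ⧸ T)
    (by rwa [← Subgroup.index_eq_card])
  induction q using QuotientGroup.induction_on with
  | _ g =>
    refine ⟨g, fun u hu => ?_⟩
    have h := (QuotientGroup.eq).mp (hq ⟨u, hu⟩)
    simpa [mul_assoc] using T.inv_mem h

/-- A real element of a normal `p'`-subgroup of odd index is conjugate to one centralised by a Sylow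
subgroup. -/
theorem exists_conj_commute (hyp : Hyp p G) (K : Subgroup G) [K.Normal] (hodd : Odd K.index)
    (hK : ¬ p ∣ Nat.card K) (P : Sylow p G) (k : K) (hk : IsConj k k⁻¹) :
    ∃ c : G, ∀ u ∈ (P : Subgroup G), u * (c * k * c⁻¹) * u⁻¹ = c * k * c⁻¹ := by
  classical
  let φ : G →* MulAut K := MulAut.conjNormal
  have hφ : ∀ (g : G) (x : K), ((φ g x : K) : G) = g * x * g⁻¹ := fun g x =>
    MulAut.conjNormal_apply g x
  have hmul : ∀ (g h : G) (x : K), φ (g * h) x = φ g (φ h x) := fun g h x => by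
    rw [map_mul, MulAut.mul_apply]
  have hpow : ∀ (g : G) (j : ℕ) (x : K), (φ g)^[j] x = φ (g ^ j) x := by
    intro g j
    induction j with
    | zero => intro x; rw [pow_zero, map_one, MulAut.one_apply]; rfl
    | succ j ih => intro x; rw [Function.iterate_succ_apply', ih, pow_succ', hmul]
  let X := {χ : IrrCharacter K // ∀ x, ((χ : K → ℂ) x).im = 0}
  let Y := {c : ConjClasses K // IsRealClass c}
  letI aX : MulAction G X :=
    { smul := fun g χ => ⟨irrPerm φ g χ.1, fun x => χ.2 _⟩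
      one_smul := fun χ => Subtype.ext (by show irrPerm φ 1 χ.1 = χ.1; rw [map_one]; rfl)
      mul_smul := fun g h χ => Subtype.ext (by
        show irrPerm φ (g * h) χ.1 = irrPerm φ g (irrPerm φ h χ.1)
        rw [map_mul]; rfl) }
  letI aY : MulAction G Y :=
    { smul := fun g c => ⟨ConjClasses.map (φ g).toMonoidHom c.1, by
        obtain ⟨c, hc⟩ := c
        obtain ⟨x, rfl⟩ := ConjClasses.exists_rep c
        refine isRealClass_mk (k := φ g x) ?_
        rw [← map_inv]
        exact (φ g).toMonoidHom.map_isConj (hc x rfl)⟩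
      one_smul := fun c => by
        obtain ⟨c, hc⟩ := c
        obtain ⟨x, rfl⟩ := ConjClasses.exists_rep c
        exact Subtype.ext (by
          show ConjClasses.mk (φ 1 x) = ConjClasses.mk x; rw [map_one, MulAut.one_apply])
      mul_smul := fun g h c => by
        obtain ⟨c, hc⟩ := c
        obtain ⟨x, rfl⟩ := ConjClasses.exists_rep c
        exact Subtype.ext (by
          show ConjClasses.mk (φ (g * h) x) = ConjClasses.mk (φ g (φ h x)); rw [hmul]) }
  have hsmulX : ∀ (g : G) (χ : X) (x : K),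
      ((g • χ).1 : K → ℂ) x = (χ.1 : K → ℂ) (φ g⁻¹ x) := fun _ _ _ => rfl
  have hsmulY : ∀ (g : G) (c : Y), (g • c).1 = ConjClasses.map (φ g).toMonoidHom c.1 :=
    fun _ _ => rfl
  have hfixX : ∀ (g : G) (χ : X),
      g • χ = χ ↔ ∀ x, (χ.1 : K → ℂ) (φ g x) = (χ.1 : K → ℂ) x := by
    intro g χ
    refine ⟨fun h x => ?_, fun h => Subtype.ext (Subtype.ext (funext fun x => ?_))⟩
    · conv_lhs => rw [← h]
      rw [hsmulX, ← hmul, inv_mul_cancel, map_one, MulAut.one_apply]
    · rw [hsmulX]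
      have h' := h (φ g⁻¹ x)
      rw [← hmul, mul_inv_cancel, map_one, MulAut.one_apply] at h'
      exact h'.symm
  haveI : Finite (ConjClasses K) := Finite.of_surjective _ ConjClasses.mk_surjective
  have hinner : ∀ g ∈ K, ∀ x : K, IsConj (φ g x) x := fun g hg x =>
    (isConj_iff.mpr ⟨⟨g, hg⟩, Subtype.ext (by rw [hφ]; rfl)⟩ : IsConj x (φ g x)).symm
  have h1 : ∀ g : G,
      Nat.card (MulAction.fixedBy X g) = Nat.card (MulAction.fixedBy Y g) := by
    intro g
    refine Eq.trans ?_ ((card_real_fixed_eq (φ g) hodd fun x => ?_).trans ?_)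
    · exact Nat.card_congr
        ⟨fun χ => ⟨χ.1.1, χ.1.2, (hfixX g χ.1).mp χ.2⟩,
          fun χ => ⟨⟨χ.1, χ.2.1⟩, (hfixX g _).mpr χ.2.2⟩, fun _ => rfl, fun _ => rfl⟩
    · rw [hpow]
      exact hinner _ (K.pow_index_mem g) x
    · exact Nat.card_congr
        ⟨fun c => ⟨⟨c.1, c.2.1⟩, Subtype.ext c.2.2⟩,
          fun c => ⟨c.1.1, c.1.2, congrArg Subtype.val c.2⟩, fun _ => rfl, fun _ => rfl⟩
  set φA : (P : Subgroup G) →* MulAut K := φ.comp (P : Subgroup G).subtype with hφA
  let C : Subgroup K :=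
    { carrier := {x | ∀ a, φA a x = x}
      one_mem' := fun a => map_one _
      mul_mem' := fun {x y} hx hy a => by rw [map_mul, hx a, hy a]
      inv_mem' := fun {x} hx a => by rw [map_inv, hx a] }
  have hC : ∀ x, x ∈ C ↔ ∀ a, φA a x = x := fun _ => Iff.rfl
  have hCφ : ∀ x, x ∈ C ↔ ∀ u ∈ (P : Subgroup G), φ u x = x :=
    fun x => ⟨fun h u hu => h ⟨u, hu⟩, fun h a => h a.1 a.2⟩
  have h2 : ∀ n : Subgroup.normalizer ((P : Subgroup G) : Set G),
      Nat.card (MulAction.fixedBy (FixBy (P : Subgroup G) X) n) =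
        Nat.card (MulAction.fixedBy (FixBy (P : Subgroup G) Y) n) := by
    intro n
    have hn : ∀ u, u ∈ (P : Subgroup G) ↔ (n : G) * u * (n : G)⁻¹ ∈ (P : Subgroup G) :=
      Subgroup.mem_normalizer_iff.mp n.2
    have hf1 : ∀ x, x ∈ C → φ (n : G) x ∈ C := by
      intro x hx
      rw [hCφ] at hx ⊢
      intro u hu
      rw [← hmul, show u * (n : G) = (n : G) * ((n : G)⁻¹ * u * n) by group, hmul,
        hx _ ((hn _).mpr (by simpa [mul_assoc] using hu))]
    have hf2 : ∀ x, x ∈ C → φ (n : G)⁻¹ x ∈ C := by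
      intro x hx
      rw [hCφ] at hx ⊢
      intro u hu
      rw [← hmul, show u * (n : G)⁻¹ = (n : G)⁻¹ * ((n : G) * u * (n : G)⁻¹) by group, hmul,
        hx _ ((hn _).mp hu)]
    let fC : C ≃* C :=
      { toFun := fun x => ⟨φ (n : G) x, hf1 _ x.2⟩
        invFun := fun x => ⟨φ (n : G)⁻¹ x, hf2 _ x.2⟩
        left_inv := fun x => Subtype.ext (by
          show φ (n : G)⁻¹ (φ (n : G) x) = x
          rw [← hmul, inv_mul_cancel, map_one, MulAut.one_apply])
        right_inv := fun x => Subtype.ext (by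
          show φ (n : G) (φ (n : G)⁻¹ x) = x
          rw [← hmul, mul_inv_cancel, map_one, MulAut.one_apply])
        map_mul' := fun x y => Subtype.ext (map_mul (φ (n : G)) (x : K) y) }
    have hd := card_fixed_descend φA P.isPGroup' hK C hC (φ (n : G)) fC (fun _ => rfl)
      fun a => ⟨⟨(n : G) * a * (n : G)⁻¹, (hn _).mp a.2⟩, fun x => by
        show φ (n : G) (φ (a : G) x) = φ ((n : G) * a * (n : G)⁻¹) (φ (n : G) x)
        rw [← hmul, ← hmul, inv_mul_cancel_right]⟩
    have hmC : (⟨(n : G) ^ K.index, K.pow_index_mem _⟩ : K) ∈ C := by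
      rw [hCφ]
      intro u hu
      refine Subtype.ext ?_
      rw [hφ]
      set z := (n : G) ^ K.index with hz
      have hzP : z * u⁻¹ * z⁻¹ ∈ (P : Subgroup G) :=
        (Subgroup.mem_normalizer_iff.mp (Subgroup.pow_mem _ n.2 _) _).mp
          ((P : Subgroup G).inv_mem hu)
      have hzK : z ∈ K := K.pow_index_mem _
      have hco : (P : Subgroup G) ⊓ K = ⊥ := by
        obtain ⟨i, hi⟩ := IsPGroup.iff_card.mp P.isPGroup'
        exact (Subgroup.disjoint_of_coprime_natCard
          (hi ▸ ((hp.out.coprime_iff_not_dvd).mpr hK).pow_left i)).eq_bot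
      have hmem : u * (z * u⁻¹ * z⁻¹) ∈ (P : Subgroup G) ⊓ K :=
        ⟨(P : Subgroup G).mul_mem hu hzP, by
          rw [show u * (z * u⁻¹ * z⁻¹) = (u * z * u⁻¹) * z⁻¹ by group]
          exact K.mul_mem (Subgroup.Normal.conj_mem inferInstance _ hzK u) (K.inv_mem hzK)⟩
      rw [hco, Subgroup.mem_bot, ← mul_assoc, mul_inv_eq_one, ← mul_assoc] at hmem
      exact hmem
    refine Eq.trans ?_ (hd.1.trans (Eq.trans ((card_real_fixed_eq fC hodd fun x => ?_).trans
      hd.2.symm) ?_))
    · exact Nat.card_congr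
        ⟨fun χ => ⟨χ.1.1.1, ⟨χ.1.1.2, fun a => (hfixX (a : G) χ.1.1).mp (χ.1.2 a a.2)⟩,
            (hfixX (n : G) χ.1.1).mp (congrArg Subtype.val χ.2)⟩,
          fun χ => ⟨⟨⟨χ.1, χ.2.1.1⟩, fun u hu => (hfixX u _).mpr (χ.2.1.2 ⟨u, hu⟩)⟩,
            Subtype.ext ((hfixX (n : G) _).mpr χ.2.2)⟩, fun _ => rfl, fun _ => rfl⟩
    · have hit : ∀ j, (((fC^[j] x : C) : K)) = φ ((n : G) ^ j) x := by
        intro j
        induction j with
        | zero => rw [pow_zero, map_one, MulAut.one_apply]; rfl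
        | succ j ih =>
          rw [Function.iterate_succ_apply', pow_succ', hmul, ← ih]
          rfl
      refine (isConj_iff.mpr ⟨⟨_, hmC⟩, Subtype.ext ?_⟩ : IsConj x (fC^[K.index] x)).symm
      refine Subtype.ext ?_
      rw [hit, hφ]
      rfl
    · exact Nat.card_congr
        ⟨fun c => ⟨⟨⟨c.1, c.2.1.1⟩, fun u hu => Subtype.ext (c.2.1.2 ⟨u, hu⟩)⟩,
            Subtype.ext (Subtype.ext c.2.2)⟩,
          fun c => ⟨c.1.1.1, ⟨c.1.1.2, fun a => congrArg Subtype.val (c.1.2 a a.2)⟩,
            congrArg Subtype.val (congrArg Subtype.val c.2)⟩, fun _ => rfl, fun _ => rfl⟩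
  obtain ⟨g, hg⟩ := exists_fixed_of_counts P h1 h2 (fun χ => by
    obtain ⟨g, hg⟩ := exists_conj_le_stab hyp K hodd (P : Subgroup G) P.isPGroup' χ.1 χ.2
    refine ⟨g, fun u hu => ?_⟩
    have h3 : (g⁻¹ * u * g) • χ = χ := (hfixX _ χ).mpr fun x => by
      have h4 := congrFun ((CharInd.mem_conjStab K).mp (hg u hu)) x
      rw [CharInd.conjChar_apply] at h4
      exact Eq.trans (congrArg _ (Subtype.ext (hφ _ x))) h4
    calc u • g • χ = g • (g⁻¹ * u * g) • χ := by
          rw [← mul_smul, ← mul_smul]; congr 1; group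
      _ = g • χ := by rw [h3]) (⟨ConjClasses.mk k, isRealClass_mk hk⟩ : Y)
  obtain ⟨x, hx⟩ := exists_fixed_isConj φA P.isPGroup' hK C hC (φ g k) fun a =>
    ConjClasses.mk_eq_mk_iff_isConj.mp (congrArg Subtype.val (hg a a.2))
  obtain ⟨k0, hk0⟩ := isConj_iff.mp hx
  refine ⟨(k0 : G) * g, fun u hu => ?_⟩
  have e : ((x : K) : G) = (k0 : G) * g * k * ((k0 : G) * g)⁻¹ := by
    rw [← hk0, Subgroup.coe_mul, Subgroup.coe_mul, hφ, Subgroup.coe_inv]; group
  rw [← e, ← hφ, (hCφ _).mp x.2 u hu]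

end Cfsg.Agent.RealDeg
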