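import Cfsg.Agent.RealDeg.Centralise

/-!
# `O^{2'}(G)` centralises normal subgroups inside `P'`
-/

set_option autoImplicit false
set_option linter.style.haveILetI false
set_option linter.unusedSectionVars false

open Cfsg

namespace Cfsg.Agent.RealDeg

universe u

theorem commute_normal_le_commutator {p : ℕ} [hp : Fact p.Prime] (hp2 : p ≠ 2) :
    ∀ (n : ℕ) (G : Type u) [Group G] [Finite G], Nat.card G ≤ n → Hyp p G →
    ∀ (P M : Subgroup G), IsPGroup p P → M.Normal → M ≤ ⁅P, P⁆ →
    ∀ g : G, (∃ k, orderOf g = 2 ^ k) → ∀ m ∈ M, g * m * g⁻¹ = m := by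
  intro n
  induction n with
  | zero =>
    intro G _ _ hn
    exact absurd hn (not_le.mpr Nat.card_pos)
  | succ n ih =>
    intro G _ _ hn hyp P M hP hM hMP g hg m hm
    rcases eq_or_ne M ⊥ with rfl | hMne
    · rw [Subgroup.mem_bot] at hm
      subst hm
      group
    haveI := hM
    have hMp : IsPGroup p M := hP.to_le (hMP.trans (Subgroup.commutator_le_self P))
    haveI : Nontrivial M := M.nontrivial_iff_ne_bot.mpr hMne
    set N := (Subgroup.center M).map M.subtype with hNdef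
    have hNM : N ≤ M := Subgroup.map_subtype_le _
    have hNne : N ≠ ⊥ := by
      rw [hNdef, Ne, Subgroup.map_eq_bot_iff_of_injective _ M.subtype_injective]
      exact hMp.bot_lt_center.ne'
    have hab : ∀ a b : N, a * b = b * a := by
      rintro ⟨_, a, ha, rfl⟩ ⟨_, b, hb, rfl⟩
      exact Subtype.ext (congrArg Subtype.val (Subgroup.mem_center_iff.mp hb a) :)
    have hNfix : ∀ h : G, (∃ k, orderOf h = 2 ^ k) → ∀ x ∈ N, h * x * h⁻¹ = x := fun h hh =>
      commute_of_le_commutator hp2 hyp P hP N hab (hNM.trans hMP) hh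
    set π := QuotientGroup.mk' N
    have hlt : Nat.card (G ⧸ N) ≤ n := by
      have h1 : Nat.card (G ⧸ N) < Nat.card G := by
        rw [← Subgroup.index_eq_card, ← N.card_mul_index]
        exact lt_mul_of_one_lt_left (Nat.pos_of_ne_zero Subgroup.index_ne_zero_of_finite)
          ((Subgroup.one_lt_card_iff_ne_bot N).mpr hNne)
      omega
    have hq := ih (G ⧸ N) hlt (hyp_quotient hyp N) (P.map π) (M.map π) (hP.map π)
      (hM.map π (QuotientGroup.mk'_surjective N))
      (by rw [← Subgroup.map_commutator]; exact Subgroup.map_mono hMP) (π g) (by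
        obtain ⟨k, hk⟩ := hg
        obtain ⟨i, -, hi⟩ := (Nat.dvd_prime_pow Nat.prime_two).mp (hk ▸ orderOf_map_dvd π g)
        exact ⟨i, hi⟩) (π m) ⟨m, hm, rfl⟩
    obtain ⟨c, hc⟩ : ∃ c, c = g * m * g⁻¹ * m⁻¹ := ⟨_, rfl⟩
    have hcN : c ∈ N := by
      rw [← QuotientGroup.eq_one_iff]
      show π c = 1
      rw [hc, map_mul, map_mul, map_mul, map_inv, map_inv, hq, mul_inv_cancel]
    have hgc : g * c * g⁻¹ = c := hNfix g hg c hcN
    have hiter : ∀ j : ℕ, g ^ j * m * (g ^ j)⁻¹ = c ^ j * m := by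
      intro j
      induction j with
      | zero => simp
      | succ j hj =>
        calc g ^ (j + 1) * m * (g ^ (j + 1))⁻¹ = g * (g ^ j * m * (g ^ j)⁻¹) * g⁻¹ := by group
          _ = g * (c ^ j * m) * g⁻¹ := by rw [hj]
          _ = (g * c ^ j * g⁻¹) * (g * m * g⁻¹) := by group
          _ = c ^ (j + 1) * m := by
            rw [← conj_pow, hgc, show g * m * g⁻¹ = c * m by rw [hc, inv_mul_cancel_right], pow_succ, mul_assoc]
    obtain ⟨k, hk⟩ := hg
    have h1 := hiter (2 ^ k)
    rw [← hk, pow_orderOf_eq_one, one_mul, inv_one, mul_one] at h1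
    have h2 : c ^ orderOf g = 1 := mul_eq_right.mp h1.symm
    obtain ⟨i, hi⟩ := IsPGroup.iff_orderOf.mp hMp ⟨c, hNM hcN⟩
    rw [Subgroup.orderOf_mk] at hi
    have hc1 : c = 1 := orderOf_eq_one_iff.mp (Nat.eq_one_of_dvd_coprimes
      (((Nat.coprime_primes hp.out Nat.prime_two).mpr hp2).pow i k) (dvd_of_eq hi)
      (hk ▸ orderOf_dvd_of_pow_eq_one h2))
    rw [hc] at hc1
    exact mul_inv_eq_one.mp hc1

theorem closure_le_centralizer {G : Type u} [Group G] [Finite G] {p : ℕ} [Fact p.Prime] (hp2 : p ≠ 2)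
    (hyp : Hyp p G) (P : Sylow p G) (M : Subgroup G) (hM : M.Normal)
    (hMP : M ≤ ⁅(P : Subgroup G), (P : Subgroup G)⁆) :
    Subgroup.closure {g : G | ∃ k : ℕ, orderOf g = 2 ^ k} ≤ Subgroup.centralizer (M : Set G) := by
  rw [Subgroup.closure_le]
  intro g hg
  rw [SetLike.mem_coe, Subgroup.mem_centralizer_iff]
  intro m hm
  exact (mul_inv_eq_iff_eq_mul.mp
    (commute_normal_le_commutator hp2 _ G le_rfl hyp P M P.isPGroup' hM hMP g hg m hm)).symm

end Cfsg.Agent.RealDeg
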